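import Cfsg.Agent.Fus.BicSat
import Cfsg.Agent.Solv.Quaternion
import Mathlib.GroupTheory.NoncommCoprod

/-!
# A central product of a four-group or a quaternion group with an abelian group as the only
essential subgroup of a saturated fusion system
-/

set_option autoImplicit false

namespace Cfsg.Lib.Fus.Bic

open Cfsg Cfsg.FusionSystem Subgroup Cfsg.Lib.Solv

theorem exists_symm_three {G : Type*} [Group G] {I T : Subgroup G} [hI : I.Normal] (hIT : I ≤ T)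
    (hT : IsPGroup 2 T) {σ γ : G} (hσ : ∀ τ ∈ T, τ ∈ I ∨ τ * σ⁻¹ ∈ I) (h3 : γ ^ 3 = 1)
    (hr : σ * γ * σ⁻¹ * γ ∈ I) (hγ : γ ≠ 1) : ∃ K, γ ∈ K ∧ γ ∉ T ∧ SylIn 2 T K ∧
      ∀ k ∈ K, k ∉ T → ∀ τ ∈ T, k * τ * k⁻¹ ∈ T → τ ∈ I := by
  have k0 : ∀ U : Subgroup G, IsPGroup 2 U → γ ∉ U := fun U h4 h' => by
    obtain ⟨j, hj⟩ := h4 ⟨γ, h'⟩
    have h5 : γ ^ 2 ^ j = 1 := congrArg Subtype.val hj
    have := pow_gcd_eq_one.2 ⟨h3, h5⟩
    rw [Nat.Coprime.gcd_eq_one (Nat.Coprime.pow_right j (by norm_num)), pow_one] at this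
    exact hγ this
  have k1 : ∀ τ, τ * σ⁻¹ ∈ I → ∀ a : ℤ, γ ^ a * τ * γ ^ a * τ⁻¹ ∈ I := fun τ h a => by
    have e1 : (τ : G ⧸ I) = σ := by
      rw [← QuotientGroup.eq_one_iff, QuotientGroup.mk_mul, QuotientGroup.mk_inv] at h
      exact mul_inv_eq_one.1 h
    have e2 : (σ : G ⧸ I) * γ * (σ : G ⧸ I)⁻¹ = (γ : G ⧸ I)⁻¹ := by
      rw [← QuotientGroup.eq_one_iff] at hr
      exact eq_inv_of_mul_eq_one_left hr
    rw [← QuotientGroup.eq_one_iff]
    simp only [QuotientGroup.mk_mul, QuotientGroup.mk_inv, QuotientGroup.mk_zpow, e1]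
    rw [mul_assoc, mul_assoc, ← mul_assoc (σ : G ⧸ I), ← conj_zpow, e2]
    group
  have k2 : ∀ τ ∈ T, ∀ a : ℤ, ∃ b : ℤ, ∃ τ' ∈ T, τ * γ ^ a = γ ^ b * τ' := fun τ h a => by
    rcases hσ τ h with h' | h'
    · exact ⟨a, _, hIT (hI.conj_mem' τ h' (γ ^ a)), by group⟩
    · exact ⟨-a, _, mul_mem (hIT (k1 τ h' a)) h, by group⟩
  have k3 : ∀ (U : Subgroup G) (a : ℤ), γ ^ a ∈ U → γ ^ a = 1 ∨ γ ∈ U := fun U a h => by
    have e : γ ^ a = γ ^ (a % 3) := by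
      conv_lhs => rw [← Int.mul_ediv_add_emod a 3, zpow_add, zpow_mul]
      rw [show γ ^ (3 : ℤ) = 1 by exact_mod_cast h3, one_zpow, one_mul]
    rw [e] at h ⊢
    obtain h0 | h0 | h0 : a % 3 = 0 ∨ a % 3 = 1 ∨ a % 3 = 2 := by omega
    · exact .inl (by rw [h0, zpow_zero])
    · exact .inr (by rwa [h0, zpow_one] at h)
    · refine .inr ?_
      have := U.mul_mem h h
      rwa [h0, show γ ^ (2 : ℤ) * γ ^ (2 : ℤ) = γ ^ 3 * γ by group, h3, one_mul] at this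
  let K : Subgroup G :=
    { carrier := {k | ∃ a : ℤ, ∃ τ ∈ T, k = γ ^ a * τ}
      one_mem' := ⟨0, 1, one_mem _, by simp⟩
      mul_mem' := by
        rintro _ _ ⟨a, τ, h, rfl⟩ ⟨b, τ', h', rfl⟩
        obtain ⟨c, τ'', h'', e⟩ := k2 τ h b
        refine ⟨a + c, _, mul_mem h'' h', ?_⟩
        rw [mul_assoc, ← mul_assoc τ, e]; group
      inv_mem' := by
        rintro _ ⟨a, τ, h, rfl⟩
        obtain ⟨c, τ', h', e⟩ := k2 τ⁻¹ (inv_mem h) (-a)
        exact ⟨c, τ', h', by rw [← e]; group⟩ }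
  refine ⟨K, ⟨1, 1, one_mem _, by simp⟩, k0 T hT, ⟨fun τ h => ⟨0, τ, h, by simp⟩, hT,
    fun U h1 h2 h4 => le_antisymm (fun k hk => ?_) h1⟩, ?_⟩
  · obtain ⟨a, τ, h, rfl⟩ := h2 hk
    rcases k3 U a ((U.mul_mem_cancel_right (h1 h)).1 hk) with h' | h'
    · rwa [h', one_mul]
    · exact (k0 U h4 h').elim
  · rintro _ ⟨a, τ', h', rfl⟩ hk τ h h1
    by_contra h2
    have h4 := mul_mem (mul_mem h' h) (inv_mem h')
    have h5 := hIT (k1 _ ((hσ _ h4).resolve_left fun h6 => h2 (by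
      simpa [mul_assoc] using hI.conj_mem' _ h6 τ')) (-a))
    have h6 := mul_mem (mul_mem h1 (inv_mem h4)) (inv_mem h5)
    rw [show γ ^ a * τ' * τ * (γ ^ a * τ')⁻¹ * (τ' * τ * τ'⁻¹)⁻¹ *
      (γ ^ (-a) * (τ' * τ * τ'⁻¹) * γ ^ (-a) * (τ' * τ * τ'⁻¹)⁻¹)⁻¹ = γ ^ (2 * a) by group] at h6
    rcases k3 T _ h6 with h7 | h7
    · refine hk ?_
      rw [show γ ^ a = (γ ^ (2 * a)) ^ 2 * ((γ ^ 3) ^ a)⁻¹ by group, h7, h3]
      simpa using h'
    · exact k0 T hT h7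

variable {P : Type*} [Group P] {C : Subgroup P} {s b h x : P}

/-- `s` and `b` satisfy the relations of the quaternion group, centralize `C` and generate a
four-group modulo `C`. -/
structure QP (C : Subgroup P) (s b : P) : Prop where
  cs : ∀ c ∈ C, Commute c s
  cb : ∀ c ∈ C, Commute c b
  sq : b * b = s ^ 2
  inv : b * s * b⁻¹ = s⁻¹
  mem : s ^ 2 ∈ C
  ns : s ∉ C
  nb : b ∉ C
  nsb : s * b ∉ C

/-- The subgroup generated by `C`, `s` and `b`. -/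
abbrev QQ (C : Subgroup P) (s b : P) : Subgroup P := C ⊔ (zpowers s ⊔ zpowers b)

theorem mem_QQ_c (hx : x ∈ C) : x ∈ QQ C s b := mem_sup_left hx
theorem mem_QQ_s : s ∈ QQ C s b := mem_sup_right (mem_sup_left (mem_zpowers s))
theorem mem_QQ_b : b ∈ QQ C s b := mem_sup_right (mem_sup_right (mem_zpowers b))

theorem QQ_le {R : Subgroup P} (h1 : C ≤ R) (h2 : s ∈ R) (h3 : b ∈ R) : QQ C s b ≤ R :=
  sup_le h1 (sup_le (zpowers_le.2 h2) (zpowers_le.2 h3))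

theorem QQ_rot : QQ C b (s * b) = QQ C s b :=
  le_antisymm (QQ_le le_sup_left mem_QQ_b (mul_mem mem_QQ_s mem_QQ_b))
    (QQ_le le_sup_left ((mul_mem_cancel_right mem_QQ_s).1 mem_QQ_b) mem_QQ_s)

theorem aut_ext {α β : MulAut (QQ C s b)} (h1 : ∀ c ∈ C, autFun α c = autFun β c)
    (h2 : autFun α s = autFun β s) (h3 : autFun α b = autFun β b) : α = β := by
  refine mulAut_ext ((mulOn_autFun α).eqOn_sup (mulOn_autFun β) h1
    (((mulOn_autFun α).mono le_sup_right).eqOn_sup ((mulOn_autFun β).mono le_sup_right) ?_ ?_))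
  · rintro _ ⟨i, rfl⟩
    rw [(mulOn_autFun α).map_zpow mem_QQ_s, (mulOn_autFun β).map_zpow mem_QQ_s, h2]
  · rintro _ ⟨i, rfl⟩
    rw [(mulOn_autFun α).map_zpow mem_QQ_b, (mulOn_autFun β).map_zpow mem_QQ_b, h3]

namespace QP

variable (q : QP C s b)
include q

theorem bs : b * s = s⁻¹ * b := by rw [← q.inv]; group

theorem bsb : b * (s * b) = s := by rw [← mul_assoc, q.bs, mul_assoc, q.sq]; group

theorem four : s ^ (2 * 2) = 1 := by
  have h1 : b * s ^ 2 * b⁻¹ = s ^ 2 := by rw [← q.sq]; group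
  rw [← conj_pow, q.inv] at h1
  rw [mul_two, pow_add]
  nth_rewrite 1 [← h1]
  group

theorem bs' : b * s⁻¹ = s * b := by
  have := congrArg (·⁻¹) q.inv
  simp only [mul_inv_rev, inv_inv] at this
  conv_rhs => rw [← this]
  group

theorem sbs : s * b * s⁻¹ = b⁻¹ := by
  have h2 : b ^ 2 * b ^ 2 = 1 := by rw [pow_two b, q.sq, ← pow_add]; exact q.four
  rw [mul_assoc, q.bs', ← mul_assoc, ← pow_two, ← q.sq, eq_inv_iff_mul_eq_one, ← h2]
  simp only [pow_two, mul_assoc]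

theorem rot : QP C b (s * b) where
  cs := q.cb
  cb c hc := (q.cs c hc).mul_right (q.cb c hc)
  sq := by rw [mul_assoc, q.bsb, ← pow_two, ← q.sq, pow_two]
  inv := by rw [← q.sbs]; group
  mem := by rw [pow_two, q.sq]; exact q.mem
  ns := q.nb
  nb := q.nsb
  nsb := by rw [q.bsb]; exact q.ns

/-- The map from the quaternion group. -/
def rho : QuaternionGroup 2 →* P := PG.quaternionHom q.sq q.inv q.four

/-- The map from the product of `C` and the quaternion group. -/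
def psi : C × QuaternionGroup 2 →* P := C.subtype.noncommCoprod q.rho fun c d => by
  rcases d with i | i
  · exact (q.cs c c.2).zpow_right _
  · exact (q.cb c c.2).mul_right ((q.cs c c.2).zpow_right _)

theorem psi_apply (y : C × QuaternionGroup 2) : q.psi y = y.1 * q.rho y.2 := rfl

theorem psi_range : q.psi.range = QQ C s b := by
  rw [psi, MonoidHom.noncommCoprod_range, range_subtype, rho, PG.quaternionHom_range]

theorem zpow_even (k : ℤ) : s ^ (2 * k) ∈ C := by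
  rw [zpow_mul]; exact zpow_mem (by exact_mod_cast q.mem) k

theorem cases (hx : x ∈ QQ C s b) :
    ∃ c ∈ C, x = c ∨ x = c * s ∨ x = c * b ∨ x = c * (s * b) := by
  obtain ⟨⟨c, d⟩, rfl⟩ := q.psi_range.ge hx
  rw [psi_apply]
  rcases d with i | i <;> obtain ⟨i, rfl⟩ := ZMod.intCast_surjective i <;>
    rcases Int.even_or_odd' i with ⟨k, rfl | rfl⟩
  · exact ⟨_, mul_mem c.2 (q.zpow_even k), .inl (by rw [rho, PG.quaternionHom_a])⟩
  · exact ⟨_, mul_mem c.2 (q.zpow_even k), .inr (.inl (by rw [rho, PG.quaternionHom_a]; group))⟩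
  · exact ⟨_, mul_mem c.2 (q.zpow_even k), .inr (.inr (.inl (by
      rw [rho, PG.quaternionHom_xa, ← (q.cb _ (q.zpow_even k)).eq, mul_assoc])))⟩
  · refine ⟨_, mul_mem c.2 (q.zpow_even (k - 1)), .inr (.inr (.inr ?_))⟩
    rw [rho, PG.quaternionHom_xa, zpow_add_one, ← mul_assoc b, ← (q.cb _ (q.zpow_even k)).eq,
      mul_assoc _ b, q.bs]
    group

theorem rho_mem {d : QuaternionGroup 2} (hd : q.rho d ∈ C) :
    ∃ k : ℤ, d = .a ((2 * k : ℤ) : ZMod (2 * 2)) := by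
  rcases d with i | i <;> obtain ⟨i, rfl⟩ := ZMod.intCast_surjective i <;>
    rcases Int.even_or_odd' i with ⟨k, rfl | rfl⟩
  · exact ⟨k, rfl⟩
  · rw [rho, PG.quaternionHom_a, zpow_add_one] at hd
    exact (q.ns ((C.mul_mem_cancel_left (q.zpow_even k)).1 hd)).elim
  · rw [rho, PG.quaternionHom_xa] at hd
    exact (q.nb ((C.mul_mem_cancel_right (q.zpow_even k)).1 hd)).elim
  · rw [rho, PG.quaternionHom_xa, zpow_add_one, ← mul_assoc b, ← (q.cb _ (q.zpow_even k)).eq,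
      mul_assoc _ b, q.bs] at hd
    refine (q.nsb ?_).elim
    have := mul_mem q.mem ((C.mul_mem_cancel_left (q.zpow_even k)).1 hd)
    rwa [show s ^ 2 * (s⁻¹ * b) = s * b by group] at this

theorem psi_eq_one {s' b' : P} (q' : QP C s' b') (e : s' ^ 2 = s ^ 2) {y : C × QuaternionGroup 2}
    (hy : q.psi y = 1) : q'.psi y = 1 := by
  rw [psi_apply] at hy ⊢
  obtain ⟨k, hk⟩ := q.rho_mem (d := y.2) (by
    rw [eq_inv_of_mul_eq_one_right hy]; exact inv_mem y.1.2)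
  rw [hk, rho, PG.quaternionHom_a, zpow_mul] at hy ⊢
  rwa [show s' ^ (2 : ℤ) = s ^ (2 : ℤ) by exact_mod_cast e]

/-- The automorphism of order three. -/
theorem exists_gamma [Finite P] : ∃ γ : MulAut (QQ C s b), (∀ c ∈ C, autFun γ c = c) ∧
    autFun γ s = b ∧ autFun γ b = s * b := by
  have e : b ^ 2 = s ^ 2 := by rw [pow_two, q.sq]
  obtain ⟨f, hf⟩ := (mulOn_hom ⊤ q.psi).exists_induced le_rfl (mulOn_hom ⊤ q.rot.psi)
    fun y _ hy => q.psi_eq_one q.rot e hy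
  have h1 := (mulOn_hom ⊤ q.psi).induced (mulOn_hom ⊤ q.rot.psi) hf
  rw [img_hom, ← MonoidHom.range_eq_map, psi_range] at h1
  obtain ⟨γ, hγ⟩ := exists_aut h1 (fun x hx y hy e' => by
    obtain ⟨x, rfl⟩ := q.psi_range.ge hx
    obtain ⟨y, rfl⟩ := q.psi_range.ge hy
    rw [hf x trivial, hf y trivial, ← mul_inv_eq_one, ← map_inv, ← map_mul] at e'
    have := q.rot.psi_eq_one q e.symm e'
    rwa [map_mul, map_inv, mul_inv_eq_one] at this) fun x hx => by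
    obtain ⟨x, rfl⟩ := q.psi_range.ge hx
    rw [hf x trivial, ← QQ_rot, ← q.rot.psi_range]
    exact ⟨x, rfl⟩
  refine ⟨γ, fun c hc => ?_, ?_, ?_⟩
  · simpa [psi_apply, hγ c (mem_QQ_c hc)] using hf (⟨c, hc⟩, 1) trivial
  · have := hf (1, .a ((1 : ℤ) : ZMod (2 * 2))) trivial
    simp only [psi_apply, rho, PG.quaternionHom_a] at this
    simpa [hγ s mem_QQ_s] using this
  · have := hf (1, .xa ((0 : ℤ) : ZMod (2 * 2))) trivial
    simp only [psi_apply, rho, PG.quaternionHom_xa] at this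
    simpa [hγ b mem_QQ_b] using this

theorem central (cc : ∀ c ∈ C, ∀ c' ∈ C, Commute c c') {c : P} (hc : c ∈ C)
    (hx : x ∈ QQ C s b) : Commute c x :=
  (mem_centralizer_singleton_iff.1 (QQ_le (R := centralizer {c})
    (fun y hy => mem_centralizer_singleton_iff.2 (cc y hy c hc))
    (mem_centralizer_singleton_iff.2 (q.cs c hc).symm)
    (mem_centralizer_singleton_iff.2 (q.cb c hc).symm) hx)).symm

theorem conj_b (hx : x ∈ QQ C s b) : x * b * x⁻¹ * b⁻¹ ≠ s := by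
  have h1 : b⁻¹ * b⁻¹ ∈ C := by
    rw [← mul_inv_rev, q.sq]; exact inv_mem q.mem
  have h2 : ∀ c ∈ C, c * b * c⁻¹ = b ∧ c * b⁻¹ * c⁻¹ = b⁻¹ := fun c hc =>
    ⟨(q.cb c hc).mul_inv_cancel, (q.cb c hc).inv_right.mul_inv_cancel⟩
  intro e
  refine q.ns (e ▸ ?_)
  obtain ⟨c, hc, rfl | rfl | rfl | rfl⟩ := q.cases hx
  · rw [(h2 _ hc).1, mul_inv_cancel]; exact one_mem _
  · rwa [show c * s * b * (c * s)⁻¹ = c * (s * b * s⁻¹) * c⁻¹ by group, q.sbs, (h2 _ hc).2]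
  · rw [show c * b * b * (c * b)⁻¹ = c * b * c⁻¹ by group, (h2 _ hc).1, mul_inv_cancel]
    exact one_mem _
  · rwa [show c * (s * b) * b * (c * (s * b))⁻¹ = c * (s * b * s⁻¹) * c⁻¹ by group, q.sbs,
      (h2 _ hc).2]

end QP

theorem commute_of_conj {g y : P} (e : g * b * g⁻¹ = y * b * y⁻¹) : Commute (y⁻¹ * g) b := by
  rw [commute_iff_eq, ← mul_inv_eq_iff_eq_mul, mul_inv_rev, inv_inv]
  calc _ = y⁻¹ * (g * b * g⁻¹) * y := by group
    _ = b := by rw [e]; group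

theorem conjAut_mem_inn {Q : Subgroup P} {g : P} (hg : g ∈ normalizer (Q : Set P)) (h : g ∈ Q) :
    conjAut Q g hg ∈ Inn Q := mem_inn_iff.2 ⟨g, h, fun _ => rfl⟩

/-- `h` induces a transvection on `⟨C, s, b⟩` and generates its normalizer modulo it. -/
structure HF (C : Subgroup P) (s b h : P) : Prop extends QP C s b where
  cc : ∀ c ∈ C, ∀ c' ∈ C, Commute c c'
  ch : ∀ c ∈ C, Commute c h
  hs : Commute h s
  hb : h * b * h⁻¹ = s * b
  cent : ∀ g, Commute g b → g ∈ QQ C s b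
  norm : ∀ g ∈ normalizer (QQ C s b : Set P), g * b * g⁻¹ * b⁻¹ ∈ zpowers s

namespace HF

variable (q : HF C s b h)
include q

theorem hN [Finite P] : h ∈ normalizer (QQ C s b : Set P) := by
  have : QQ C s b ≤ (QQ C s b).comap (MulAut.conj h).toMonoidHom := by
    refine QQ_le (fun c hc => ?_) ?_ ?_ <;> rw [mem_comap, MulEquiv.coe_toMonoidHom, MulAut.conj_apply]
    · rw [(q.ch c hc).symm.mul_inv_cancel]; exact mem_QQ_c hc
    · rw [q.hs.mul_inv_cancel]; exact mem_QQ_s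
    · rw [q.hb]; exact mul_mem mem_QQ_s mem_QQ_b
  exact mem_normalizer_of_finite fun _ hy => this hy

theorem hQ : h ∉ QQ C s b := fun h' => q.conj_b h' (by rw [q.hb]; group)

theorem hz (i : ℤ) : h ^ i * b * (h ^ i)⁻¹ = s ^ i * b := by
  have e : b * h⁻¹ * b⁻¹ = h⁻¹ * s := by
    rw [eq_inv_mul_iff_mul_eq, ← mul_assoc, ← mul_assoc, q.hb]; group
  rw [← mul_inv_eq_iff_eq_mul, mul_assoc, mul_assoc, ← mul_assoc b, ← inv_zpow, ← conj_zpow, e,
    q.hs.inv_left.mul_zpow]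
  group

theorem h2 : h ^ (2 : ℤ) ∈ QQ C s b := by
  refine (mul_mem_cancel_left (inv_mem mem_QQ_s)).1 (q.cent _ (commute_of_conj ?_))
  rw [q.hz, mul_assoc s, q.bs', zpow_two, mul_assoc]

theorem two [Finite P] {τ : MulAut (QQ C s b)} (hτ : τ ∈ autInducedBy ⊤ (QQ C s b)) :
    τ ∈ Inn (QQ C s b) ∨ τ * (conjAut _ h q.hN)⁻¹ ∈ Inn (QQ C s b) := by
  obtain ⟨g, -, hg, rfl⟩ := mem_autInducedBy'.1 hτ
  obtain ⟨i, hi⟩ := q.norm g hg
  have h3 : (h ^ i)⁻¹ * g ∈ QQ C s b := q.cent _ (commute_of_conj (by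
    rw [q.hz, ← mul_inv_eq_iff_eq_mul]; exact hi.symm))
  rcases Int.even_or_odd' i with ⟨k, rfl | rfl⟩
  · exact .inl (conjAut_mem_inn hg
      ((mul_mem_cancel_left (inv_mem (zpow_mul h 2 k ▸ zpow_mem q.h2 k))).1 h3))
  · rw [← conjAut_inv, ← conjAut_mul]
    refine .inr (conjAut_mem_inn _ ?_)
    have h4 := conj_mem_of_mem_normalizer q.hN (mul_mem (zpow_mem q.h2 k) h3)
    rwa [show h * ((h ^ (2 : ℤ)) ^ k * ((h ^ (2 * k + 1))⁻¹ * g)) * h⁻¹ = g * h⁻¹ by group] at h4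

theorem braid [Finite P] {γ : MulAut (QQ C s b)} (g1 : ∀ c ∈ C, autFun γ c = c)
    (g2 : autFun γ s = b) (g3 : autFun γ b = s * b) :
    conjAut _ h q.hN * γ * (conjAut _ h q.hN)⁻¹ * γ ∈ Inn (QQ C s b) := by
  have ms : s ∈ QQ C s b := mem_QQ_s
  have mb : b ∈ QQ C s b := mem_QQ_b
  have msb := mul_mem ms mb
  have mγ := mulOn_autFun γ
  have hN := q.hN
  have hn := le_normalizer msb
  rw [← conjAut_inv, show conjAut _ h hN * γ * conjAut _ h⁻¹ (inv_mem hN) * γ =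
    conjAut _ (s * b) hn from ?_]
  · exact conjAut_mem_inn _ msb
  have e1 : h⁻¹ * b * h⁻¹⁻¹ = s⁻¹ * b := by simpa using q.hz (-1)
  have e2 : h⁻¹ * (s * b) * h⁻¹⁻¹ = b := by rw [← q.hb]; group
  have key : ∀ y ∈ QQ C s b, autFun (conjAut _ h hN * γ * conjAut _ h⁻¹ (inv_mem hN) * γ) y =
      h * autFun γ (h⁻¹ * autFun γ y * h⁻¹⁻¹) * h⁻¹ := fun y hy => by
    have m1 := autFun_mem γ hy
    have m2 := conj_mem_of_mem_normalizer (inv_mem hN) m1
    rw [autFun_mul _ _ hy, autFun_mul _ _ m1, autFun_conjAut _ m1, autFun_mul _ _ m2,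
      autFun_conjAut _ (autFun_mem γ m2)]
  refine aut_ext (fun c hc => ?_) ?_ ?_
  · rw [key c (mem_QQ_c hc), g1 c hc, (q.ch c hc).symm.inv_left.mul_inv_cancel, g1 c hc,
      (q.ch c hc).symm.mul_inv_cancel, autFun_conjAut _ (mem_QQ_c hc),
      (q.central q.cc hc msb).symm.mul_inv_cancel]
  · rw [key s ms, g2, e1, mγ _ (inv_mem ms) _ mb, mγ.map_inv ms, g2, g3, autFun_conjAut _ ms,
      ← q.bs', inv_mul_cancel_left, q.hs.inv_right.mul_inv_cancel, q.bs',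
      show s * b * s * (s * b)⁻¹ = s * (b * s * b⁻¹) * s⁻¹ by group, q.inv]
    group
  · rw [key b mb, g3, e2, g3, autFun_conjAut _ mb,
      show h * (s * b) * h⁻¹ = h * s * h⁻¹ * (h * b * h⁻¹) by group, q.hs.mul_inv_cancel, q.hb]
    conv_lhs => rw [← q.bs']
    group

theorem not_centric {K : Subgroup (MulAut (QQ C s b))} {γ : MulAut (QQ C s b)} (k1 : γ ∈ K)
    (g1 : ∀ c ∈ C, autFun γ c = c) (g3 : autFun γ b = s * b) (g4 : autFun γ (s * b) = s)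
    (R : Subgroup P) (hR : R < QQ C s b) :
    ∃ k ∈ K, ¬ centralizerIn ⊤ (img R (autFun k)) ≤ img R (autFun k) := by
  have ms : s ∈ QQ C s b := mem_QQ_s
  have mb : b ∈ QQ C s b := mem_QQ_b
  by_cases hC : C ≤ R
  swap
  · refine ⟨1, one_mem _, fun h5 => hC fun c hc => ?_⟩
    rw [img_eq_self_of_eqOn fun x hx => autFun_one (hR.le hx)] at h5
    exact h5 (mem_centralizerIn.2 ⟨trivial, fun y hy => (q.central q.cc hc (hR.le hy)).symm⟩)
  have key : ∀ k ∈ K, (∀ c ∈ C, autFun k c = c) → ∀ g ∈ QQ C s b, autFun k g = s →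
      (∀ x ∈ R, ∃ c ∈ C, x = c ∨ x = c * g) →
      ∃ k ∈ K, ¬ centralizerIn ⊤ (img R (autFun k)) ≤ img R (autFun k) := by
    refine fun k hk h5 g hg h6 h7 => ⟨k, hk, fun h8 => q.hQ (img_le_iff.2
      (fun x hx => autFun_mem k (hR.le hx)) (h8 (mem_centralizerIn.2 ⟨trivial, fun y hy => ?_⟩)))⟩
    obtain ⟨x, hx, rfl⟩ := ((mulOn_autFun k).mono hR.le).mem_img.1 hy
    obtain ⟨c, hc, rfl | rfl⟩ := h7 x hx
    · rw [h5 _ hc]; exact q.ch _ hc
    · rw [mulOn_autFun k _ (mem_QQ_c hc) _ hg, h5 _ hc, h6]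
      exact (q.ch _ hc).mul_left q.hs.symm
  have hsb : ¬ (s ∈ R ∧ b ∈ R) := fun h5 => hR.not_ge (QQ_le hC h5.1 h5.2)
  have hcs : ∀ x ∈ R, ∃ c ∈ C, x = c ∨ (x = c * s ∧ s ∈ R) ∨ (x = c * b ∧ b ∈ R) ∨
      (x = c * (s * b) ∧ s * b ∈ R) := fun x hx => by
    obtain ⟨c, hc, h5⟩ := q.cases (hR.le hx)
    refine ⟨c, hc, h5.imp_right (.imp ?_ (.imp ?_ ?_))⟩ <;>
      exact fun e => ⟨e, (mul_mem_cancel_left (hC hc)).1 (e ▸ hx)⟩
  by_cases h5 : b ∈ R
  · refine key (γ * γ) (mul_mem k1 k1)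
      (fun c hc => by rw [autFun_mul _ _ (mem_QQ_c hc), g1 c hc, g1 c hc]) b mb
      (by rw [autFun_mul _ _ mb, g3, g4]) fun x hx => ?_
    obtain ⟨c, hc, e | e | e | e⟩ := hcs x hx
    exacts [⟨c, hc, .inl e⟩, (hsb ⟨e.2, h5⟩).elim, ⟨c, hc, .inr e.1⟩,
      (hsb ⟨(mul_mem_cancel_right h5).1 e.2, h5⟩).elim]
  by_cases h6 : s ∈ R
  · refine key 1 (one_mem _) (fun c hc => autFun_one (mem_QQ_c hc)) s ms (autFun_one ms)
      fun x hx => ?_
    obtain ⟨c, hc, e | e | e | e⟩ := hcs x hx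
    exacts [⟨c, hc, .inl e⟩, ⟨c, hc, .inr e.1⟩, (h5 e.2).elim,
      (h5 ((mul_mem_cancel_left h6).1 e.2)).elim]
  · refine key γ k1 g1 _ (mul_mem ms mb) g4 fun x hx => ?_
    obtain ⟨c, hc, e | e | e | e⟩ := hcs x hx
    exacts [⟨c, hc, .inl e⟩, (h6 e.2).elim, (h5 e.2).elim, ⟨c, hc, .inr e.1⟩]

/-- The saturated fusion system with `⟨C, s, b⟩` essential. -/
theorem exists_fusion [Finite P] (hP : IsPGroup 2 P) :
    ∃ F : FusionSystem (⊤ : Subgroup P), F.IsSaturated 2 ∧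
      ¬ ∀ R, F.Hom R = (innerFusionSystem ⊤).Hom R := by
  have : Fact (Nat.Prime 2) := ⟨Nat.prime_two⟩
  have ms : s ∈ QQ C s b := mem_QQ_s
  have mb : b ∈ QQ C s b := mem_QQ_b
  have msb := mul_mem ms mb
  obtain ⟨γ, g1, g2, g3⟩ := q.exists_gamma
  have g4 : autFun γ (s * b) = s := by rw [mulOn_autFun γ _ ms _ mb, g2, g3, q.bsb]
  have g5 : γ ^ 3 = 1 := by
    rw [pow_three]
    refine aut_ext (fun c hc => ?_) ?_ ?_
    · have := mem_QQ_c (s := s) (b := b) hc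
      rw [autFun_mul _ _ this, autFun_mul _ _ this, g1 c hc, g1 c hc, g1 c hc, autFun_one this]
    · rw [autFun_mul _ _ ms, autFun_mul _ _ ms, g2, g3, g4, autFun_one ms]
    · rw [autFun_mul _ _ mb, autFun_mul _ _ mb, g3, g4, g2, autFun_one mb]
  obtain ⟨K, k1, k2, k3, k4⟩ := exists_symm_three (inn_le_autInducedBy le_top)
    (isPGroup_autInducedBy (hP.to_subgroup ⊤) _) (fun _ => q.two) g5 (q.braid g1 g2 g3)
    (fun e => q.nsb (by
      rw [e, autFun_one ms] at g2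
      rw [← g2, ← pow_two]; exact q.mem))
  obtain ⟨F, h3, h4⟩ := exists_saturated (hP.to_subgroup ⊤) le_top k3 (fun k hk hk' g _ hg h5 => by
    obtain ⟨y, hy, e⟩ := mem_inn_iff.1 (k4 k hk hk' _ (conjAut_mem_autInducedBy (mem_top g) hg) h5)
    exact (mul_mem_cancel_left (inv_mem hy)).1 (q.cent _ (commute_of_conj (e ⟨b, mb⟩))))
    (q.not_centric k1 g1 g3 g4)
  exact ⟨F, h3, not_inner le_top fun h5 => k2 (h5 (h4.ge k1))⟩

end HF

end Cfsg.Lib.Fus.Bic
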