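import Cfsg.Agent.Fus.Gen
import Cfsg.Agent.Fus.Criterion
import Cfsg.Agent.Fus.FImg

/-!
# Adjoining automorphisms of one minimal centric subgroup to the inner fusion system
-/

set_option autoImplicit false

namespace Cfsg.Lib.Fus.Bic

open Cfsg Cfsg.FusionSystem Subgroup

variable {Ω : Type*} [Group Ω] {S Q R : Subgroup Ω} {f : Ω → Ω}

/-- `R` is `S`-conjugate into `Q`. -/
def Sub (S Q R : Subgroup Ω) : Prop := ∃ t ∈ S, ∀ x ∈ R, t * x * t⁻¹ ∈ Q

/-- `f` is inner on `R`. -/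
def Inr (S R : Subgroup Ω) (f : Ω → Ω) : Prop := ∃ s ∈ S, ∀ x ∈ R, f x = s * x * s⁻¹

theorem exists_aut [Finite Q] (h : MulOn Q f) (hi : Set.InjOn f Q) (hm : ∀ x ∈ Q, f x ∈ Q) :
    ∃ k : MulAut Q, ∀ x ∈ Q, autFun k x = f x :=
  exists_aut_of_img_eq h hi (img_eq_of_le_of_card h hi hm le_rfl)

theorem Sub.of_inr {R' : Subgroup Ω} (h : Sub S Q R') (hf : Inr S R f) (hm : ∀ x ∈ R, f x ∈ R') :
    Sub S Q R := by
  obtain ⟨t, ht, h⟩ := h
  obtain ⟨s, hs, e⟩ := hf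
  refine ⟨t * s, mul_mem ht hs, fun x hx => ?_⟩
  have := h _ (hm x hx)
  rw [e x hx] at this
  simpa [mul_assoc] using this

/-- The maps whose conjugates restrict on `Q` to members of `K`, inner on the subgroups that are not
conjugate into `Q`. -/
def adjData [Finite S] (hQ : Q ≤ S) (K : Subgroup (MulAut Q)) (hK : autInducedBy S Q ≤ K) :
    MorData S where
  M R f := (R ≤ S ∧ (∀ x ∈ R, f x ∈ S) ∧ MulOn R f ∧ Set.InjOn f R) ∧ (¬ Sub S Q R → Inr S R f) ∧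
    (Sub S Q R → ∃ t ∈ S, ∀ x ∈ R, t * f x * t⁻¹ ∈ Q) ∧
    ∀ t ∈ S, ∀ s ∈ S, ∀ k : MulAut Q, (∀ y ∈ Q, t⁻¹ * y * t ∈ R) →
      (∀ y ∈ Q, autFun k y = s * f (t⁻¹ * y * t) * s⁻¹) → k ∈ K
  congr := by
    rintro R f g ⟨⟨h1, h2, h3, h4⟩, h5, h6, h7⟩ e
    refine ⟨⟨h1, fun x hx => e x hx ▸ h2 x hx, h3.congr e, h4.congr fun x hx => e x hx⟩,
      fun h => ?_, fun h => ?_, fun t ht s hs k h h' => h7 t ht s hs k h fun y hy => ?_⟩
    · obtain ⟨s, hs, e'⟩ := h5 h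
      exact ⟨s, hs, fun x hx => e x hx ▸ e' x hx⟩
    · obtain ⟨s, hs, e'⟩ := h6 h
      exact ⟨s, hs, fun x hx => e x hx ▸ e' x hx⟩
    · rw [e _ (h y hy)]; exact h' y hy
  le h := h.1.1
  maps h := h.1.2.1
  mulOn h := h.1.2.2.1
  injOn h := h.1.2.2.2
  conj := by
    intro R g hR hg
    refine ⟨⟨hR, fun x hx => mul_mem (mul_mem hg (hR hx)) (inv_mem hg), mulOn_conj R g,
      fun x _ y _ e => by simpa using e⟩, fun _ => ⟨g, hg, fun _ _ => rfl⟩, ?_, ?_⟩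
    · rintro ⟨t, ht, h⟩
      exact ⟨t * g⁻¹, mul_mem ht (inv_mem hg), fun x hx => by simpa [mul_assoc] using h x hx⟩
    · intro t ht s hs k _ h
      refine hK (mem_autInducedBy_autFun.2 ⟨s * g * t⁻¹, mul_mem (mul_mem hs hg) (inv_mem ht),
        fun y hy => ?_⟩)
      rw [h y hy]; group
  comp := by
    rintro R R' f g ⟨⟨h1, h2, h3, h4⟩, h5, h6, h7⟩ ⟨⟨-, k2, k3, k4⟩, k5, k6, k7⟩ hm
    refine ⟨⟨h1, fun x hx => k2 _ (hm x hx), h3.comp k3 hm, k4.comp h4 hm⟩, fun h => ?_,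
      fun h => ?_, fun t ht s hs k h h' => ?_⟩
    · obtain ⟨s, hs, e⟩ := h5 h
      obtain ⟨s', hs', e'⟩ := k5 fun h' => h (h'.of_inr ⟨s, hs, e⟩ hm)
      refine ⟨s' * s, mul_mem hs' hs, fun x hx => ?_⟩
      rw [Function.comp_apply, e' _ (hm x hx), e x hx]; group
    · by_cases h' : Sub S Q R'
      · obtain ⟨t, ht, e⟩ := k6 h'
        exact ⟨t, ht, fun x hx => e _ (hm x hx)⟩
      · obtain ⟨s, hs, e⟩ := k5 h'
        obtain ⟨t, ht, e'⟩ := h6 h
        refine ⟨t * s⁻¹, mul_mem ht (inv_mem hs), fun x hx => ?_⟩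
        rw [Function.comp_apply, e _ (hm x hx)]
        simpa [mul_assoc] using e' x hx
    · by_cases hR : Sub S Q R
      · obtain ⟨v, hv, e⟩ := h6 hR
        have := finite_of_le hQ
        obtain ⟨k1, hk1⟩ := exists_aut (Q := Q) (f := fun y => v * f (t⁻¹ * y * t) * v⁻¹)
          (fun x hx y hy => by
            have := h3 _ (h x hx) _ (h y hy)
            rw [show t⁻¹ * x * t * (t⁻¹ * y * t) = t⁻¹ * (x * y) * t by group] at this
            simp only [this]; group)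
          (fun x hx y hy e => by simpa using h4 (h x hx) (h y hy) (by simpa using e))
          fun x hx => e _ (h x hx)
        have m1 := h7 t ht v hv k1 h hk1
        have e2 : ∀ y ∈ Q, v⁻¹ * y * v = f (t⁻¹ * autFun k1⁻¹ y * t) := fun y hy => by
          have := hk1 _ (autFun_mem k1⁻¹ hy)
          rw [autFun_autFun_inv k1 hy] at this
          conv_lhs => rw [this]
          group
        have m2 := k7 v hv s hs (k * k1⁻¹) (fun y hy => e2 y hy ▸ hm _ (h _ (autFun_mem _ hy)))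
          fun y hy => by rw [autFun_mul _ _ hy, h' _ (autFun_mem _ hy), e2 y hy]; rfl
        simpa using mul_mem m2 m1
      · obtain ⟨u, hu, e⟩ := h5 hR
        have e2 : ∀ y ∈ Q, (t * u⁻¹)⁻¹ * y * (t * u⁻¹) = f (t⁻¹ * y * t) := fun y hy => by
          rw [e _ (h y hy)]; group
        exact k7 (t * u⁻¹) (mul_mem ht (inv_mem hu)) s hs k (fun y hy => e2 y hy ▸ hm _ (h y hy))
          fun y hy => by rw [e2 y hy]; exact h' y hy
  inv := by
    rintro R f ⟨⟨h1, h2, h3, h4⟩, h5, h6, h7⟩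
    have hl : ∀ x ∈ R, Function.invFunOn f R (f x) = x := fun x hx => h4.leftInvOn_invFunOn hx
    refine ⟨Function.invFunOn f R, ⟨⟨img_le_iff.2 h2, ?_, ?_, ?_⟩, fun h => ?_, fun h => ?_,
      fun t ht s hs k h h' => ?_⟩, hl⟩
    · intro y hy
      obtain ⟨x, hx, rfl⟩ := h3.mem_img.1 hy
      rw [hl x hx]; exact h1 hx
    · intro y hy y' hy'
      obtain ⟨x, hx, rfl⟩ := h3.mem_img.1 hy
      obtain ⟨x', hx', rfl⟩ := h3.mem_img.1 hy'
      rw [← h3 x hx x' hx', hl x hx, hl x' hx', hl _ (mul_mem hx hx')]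
    · intro y hy y' hy' e
      obtain ⟨x, hx, rfl⟩ := h3.mem_img.1 hy
      obtain ⟨x', hx', rfl⟩ := h3.mem_img.1 hy'
      rw [hl x hx, hl x' hx'] at e
      rw [e]
    · obtain ⟨s, hs, e⟩ := h5 fun h' => h <| by
        obtain ⟨t, ht, e⟩ := h6 h'
        refine ⟨t, ht, fun y hy => ?_⟩
        obtain ⟨x, hx, rfl⟩ := h3.mem_img.1 hy
        exact e x hx
      refine ⟨s⁻¹, inv_mem hs, fun y hy => ?_⟩
      obtain ⟨x, hx, rfl⟩ := h3.mem_img.1 hy
      rw [hl x hx, e x hx]; group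
    · obtain ⟨t, ht, e⟩ : Sub S Q R := by
        by_contra h'
        exact h' (h.of_inr (h5 h') fun x hx => mem_img_of_mem f hx)
      refine ⟨t, ht, fun y hy => ?_⟩
      obtain ⟨x, hx, rfl⟩ := h3.mem_img.1 hy
      rw [hl x hx]; exact e x hx
    · have e2 : ∀ y ∈ Q, s⁻¹ * y * s ∈ R ∧ f (s⁻¹ * y * s) = t⁻¹ * autFun k⁻¹ y * t := by
        intro y hy
        obtain ⟨x, hx, e⟩ := h3.mem_img.1 (h _ (autFun_mem k⁻¹ hy))
        have := h' _ (autFun_mem k⁻¹ hy)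
        rw [autFun_autFun_inv k hy, ← e, hl x hx] at this
        rw [show s⁻¹ * y * s = x by rw [this]; group]
        exact ⟨hx, e⟩
      simpa using inv_mem (h7 s hs t ht k⁻¹ (fun y hy => (e2 y hy).1) fun y hy => by
        rw [(e2 y hy).2]; group)

theorem adjData_aut [Finite S] (hQ : Q ≤ S) {K : Subgroup (MulAut Q)}
    (hK : autInducedBy S Q ≤ K) {k : MulAut Q} (hk : k ∈ K) :
    (adjData hQ K hK).M Q (autFun k) := by
  have := finite_of_le hQ
  refine ⟨⟨hQ, fun x hx => hQ (autFun_mem k hx), mulOn_autFun k, injOn_autFun k⟩,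
    fun h => (h ⟨1, one_mem _, by simp⟩).elim,
    fun _ => ⟨1, one_mem _, fun x hx => by simpa using autFun_mem k hx⟩,
    fun t ht s hs k' h h' => ?_⟩
  have hn : t⁻¹ ∈ normalizer (Q : Set Ω) := mem_normalizer_of_finite (by simpa using h)
  have m1 := hK (conjAut_mem_autInducedBy (inv_mem ht) hn)
  have m2 : k' * (k * conjAut Q t⁻¹ hn)⁻¹ ∈ K := hK (mem_autInducedBy_autFun.2 ⟨s, hs, fun y hy => by
    have h1 := autFun_mem (k * conjAut Q t⁻¹ hn)⁻¹ hy
    have h2 := autFun_autFun_inv (k * conjAut Q t⁻¹ hn) hy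
    rw [autFun_mul _ _ h1, autFun_conjAut hn h1, inv_inv] at h2
    rw [autFun_mul _ _ hy, h' _ h1, h2]⟩)
  exact inv_mul_cancel_right k' _ ▸ mul_mem m2 (mul_mem hk m1)

/-- Saturation of the system generated by `S` and a group `K` of automorphisms of `Q`. -/
theorem exists_saturated [Finite S] {p : ℕ} [Fact p.Prime] (hS : IsPGroup p S) (hQ : Q ≤ S)
    {K : Subgroup (MulAut Q)} (hK : SylIn p (autInducedBy S Q) K)
    (hTI : ∀ k ∈ K, k ∉ autInducedBy S Q → ∀ g ∈ S, ∀ hg : g ∈ normalizer (Q : Set Ω),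
      k * conjAut Q g hg * k⁻¹ ∈ autInducedBy S Q → g ∈ Q)
    (hNC : ∀ R, R < Q → ∃ k ∈ K, ¬ centralizerIn S (img R (autFun k)) ≤ img R (autFun k)) :
    ∃ F : FusionSystem S, F.IsSaturated p ∧ F.autGroup Q = K := by
  have := finite_of_le hQ
  let ℋ : Set (Subgroup Ω) := {R | R ≤ S ∧ ¬ (Sub S Q R ∧ Nat.card R < Nat.card Q)}
  let D := adjData hQ K hK.le
  let F := famSys D.toFus ℋ
  have hD : ∀ {R f}, Mor F R f → D.M R f := fun h => D.mor_toFus.1 (h.of_sub (famSys_sub ℋ))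
  have hQH : Q ∈ ℋ := ⟨hQ, fun h => h.2.false⟩
  have hk : ∀ k ∈ K, Mor F Q (autFun k) := fun k hk =>
    (mor_famSys_iff hQH).2 (D.mor_toFus.2 (adjData_aut hQ hK.le hk))
  have hA : F.autGroup Q = K := le_antisymm
    (fun k h => (hD ((mem_autGroup hQ).1 h)).2.2.2 1 (one_mem _) 1 (one_mem _) k (by simp)
      (by simp)) fun k h => (mem_autGroup hQ).2 (hk k h)
  have hsub : ∀ {R R'}, F.IsConj R R' → Sub S Q R → Sub S Q R' := fun h h' => by
    obtain ⟨f, hf, rfl⟩ := isConj_iff.1 h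
    obtain ⟨t, ht, e⟩ := (hD hf).2.2.1 h'
    refine ⟨t, ht, fun y hy => ?_⟩
    obtain ⟨x, hx, rfl⟩ := hf.mem_img.1 hy
    exact e x hx
  have hext : ∀ {R f}, Inr S R f → ∃ g, Mor F (extd S R f) g ∧ ∀ x ∈ R, g x = f x :=
    fun ⟨s, hs, e⟩ => ⟨_, Mor.conj F extd_le hs, fun x hx => (e x hx).symm⟩
  have hcj : ∀ {R}, R ≤ S → ∀ t ∈ S, (∀ x ∈ R, t * x * t⁻¹ ∈ Q) → Nat.card Q ≤ Nat.card R →
      img R (fun x => t * x * t⁻¹) = Q := fun hR t ht h hc =>
    (Mor.conj F hR ht).img_eq_of_card hQ h hc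
  have hgood : GoodCl F p Q := by
    refine ⟨Q, isConj_refl F hQ, isFullyAutomized_iff.2 ⟨hQ, hA ▸ hK⟩,
      isReceptive_iff.2 ⟨hQ, fun R f hf e => ?_⟩⟩
    obtain ⟨t, ht, h⟩ := hsub (isConj_symm (e ▸ hf.isConj)) ⟨1, one_mem _, by simp⟩
    have h1 := hcj hf.le t ht h (e ▸ hf.card_img.le)
    have h2 : ∀ y ∈ Q, t⁻¹ * y * t ∈ R := fun y hy => by
      obtain ⟨x, hx, rfl⟩ := (mulOn_conj R t).mem_img.1 (h1.ge hy)
      simpa [mul_assoc] using hx
    obtain ⟨k, hkA, ek⟩ := ((Mor.conj F hQ (inv_mem ht)).comp hf (by simpa using h2)).exists_aut_of_maps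
      fun y hy => e ▸ mem_img_of_mem f (by simpa using h2 y hy)
    have ek' : ∀ x ∈ R, autFun k (t * x * t⁻¹) = f x := fun x hx => by
      rw [ek _ (h x hx)]; simp [mul_assoc]
    by_cases hT : k ∈ autInducedBy S Q
    · obtain ⟨s, hs, es⟩ := mem_autInducedBy_autFun.1 hT
      refine hext ⟨s * t, mul_mem hs ht, fun x hx => ?_⟩
      rw [← ek' x hx, es _ (h x hx)]; group
    · refine ⟨f, hf.restrict fun g hg => ?_, fun _ _ => rfl⟩
      obtain ⟨hgS, hgN, u, hu, eu⟩ := mem_extd.1 hg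
      have hn : t * g * t⁻¹ ∈ normalizer (Q : Set Ω) := mem_normalizer_of_finite fun y hy => by
        have := h _ (conj_mem_of_mem_normalizer hgN (h2 y hy))
        simpa [mul_assoc] using this
      have := h2 _ (hTI k (hA ▸ hkA) hT _ (mul_mem (mul_mem ht hgS) (inv_mem ht)) hn
        (mem_autInducedBy_autFun.2 ⟨u, hu, fun y hy => ?_⟩))
      · simpa [mul_assoc] using this
      have h3 := autFun_mem k⁻¹ hy
      have h4 := h2 _ h3
      rw [autFun_mul _ _ hy, autFun_mul _ _ h3, autFun_conjAut hn h3]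
      have h5 := ek' _ (conj_mem_of_mem_normalizer hgN h4)
      have h6 := ek' _ h4
      rw [eu _ h4, ← h6] at h5
      rw [show t * (t⁻¹ * autFun k⁻¹ y * t) * t⁻¹ = autFun k⁻¹ y by group,
        autFun_autFun_inv k hy] at h5
      rw [← h5]; congr 1; group
  refine ⟨F, isSaturated_of_family hS (ℋ := ℋ) (fun R hR R' h => ⟨isConj_le_right h, fun h' =>
    hR.2 ⟨hsub (isConj_symm h) h'.1, (isConj_card_eq h).symm ▸ h'.2⟩⟩) (fun R hR => ?_)
    (famSys_gen ℋ) fun R hc hR => ?_, hA⟩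
  · by_cases h : Sub S Q R
    · obtain ⟨t, ht, e⟩ := h
      refine hgood.of_isConj ?_
      have := (Mor.conj F hR.1 ht).isConj
      rwa [hcj hR.1 t ht e (not_lt.1 fun h' => hR.2 ⟨⟨t, ht, e⟩, h'⟩)] at this
    · refine ⟨R, isConj_refl F hR.1, isFullyAutomized_iff.2 ⟨hR.1,
        autInducedBy_le_autGroup F hR.1, isPGroup_autInducedBy hS R, fun U h1 h2 _ =>
          le_antisymm (fun k hk => mem_autInducedBy_autFun.2
            ((hD ((mem_autGroup hR.1).1 (h2 hk))).2.1 h)) h1⟩,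
        isReceptive_iff.2 ⟨hR.1, fun R' f hf e => hext ((hD hf).2.1 fun h' => h ?_)⟩⟩
      exact hsub (e ▸ hf.isConj) h'
  · exfalso
    obtain ⟨⟨t, ht, e⟩, hlt⟩ := not_not.1 fun h => hR ⟨hc.1, h⟩
    have h1 := Mor.conj F hc.1 ht
    have h2 : img R (fun x => t * x * t⁻¹) ≤ Q := img_le_iff.2 e
    obtain ⟨k, hkK, h3⟩ := hNC _ (h2.lt_of_ne fun h => by
      rw [← h, h1.card_img] at hlt; exact hlt.false)
    exact h3 (isCentric_self (isCentric_of_isConj hc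
      (isConj_trans h1.isConj ((hk k hkK).isConj' h2))))

/-- A system whose automorphism group of `Q` is larger than `Aut_S(Q)` is not inner. -/
theorem not_inner {F : FusionSystem S} (hQ : Q ≤ S) (h : ¬ F.autGroup Q ≤ autInducedBy S Q) :
    ¬ ∀ P, F.Hom P = (innerFusionSystem S).Hom P := fun h' => h fun _ hk =>
  mem_autInducedBy_autFun.2 (mor_inner.1 ((hom_eq_iff.1 h' _ _).1 ((mem_autGroup hQ).1 hk))).2

/-- Transport of a saturated system that is not inner along an isomorphism. -/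
theorem transport {Ω' : Type*} [Group Ω'] {T : Subgroup Ω'} [Finite S] {p : ℕ} [Fact p.Prime]
    (hS : IsPGroup p S) {t : Ω → Ω'} (ht : MulOn S t) (hi : Set.InjOn t S) (e : img S t = T)
    (h : ∃ F : FusionSystem S, F.IsSaturated p ∧ ¬ ∀ P, F.Hom P = (innerFusionSystem S).Hom P) :
    ∃ F : FusionSystem T, F.IsSaturated p ∧ ¬ ∀ P, F.Hom P = (innerFusionSystem T).Hom P := by
  subst e
  obtain ⟨F, h1, h2⟩ := h
  obtain ⟨E, hE⟩ := exists_fImg_of_injOn F ht hi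
  refine ⟨E, hE.saturated hS h1, fun h => h2 (hom_eq_iff.2 fun P f => ⟨fun hf => ?_,
    fun hf => hf.of_le (inner_le F)⟩)⟩
  obtain ⟨f', h3, h4⟩ := hE.mor P f hf
  obtain ⟨-, _, hs', h5⟩ := mor_inner.1 ((hom_eq_iff.1 h _ _).1 h3)
  obtain ⟨s, hs, rfl⟩ := ht.mem_img.1 hs'
  refine mor_inner.2 ⟨hf.le, s, hs, fun x hx => hi (hf.maps hx)
    (mul_mem (mul_mem hs (hf.le hx)) (S.inv_mem hs)) ?_⟩
  rw [← h4 x hx, h5 _ (mem_img_of_mem t hx), ht.map_conj hs (hf.le hx)]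

end Cfsg.Lib.Fus.Bic
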