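import Cfsg.Agent.Fus.FImg
import Cfsg.Agent.Fus.CentE
import Cfsg.Agent.Fus.PPrime
import Cfsg.Prelude.Def_TwoFusion

/-!
# Strongly closed direct factors
-/

set_option autoImplicit false

namespace Cfsg.Lib.Fus

open Cfsg Cfsg.FusionSystem Subgroup

variable {Ω : Type*} [Group Ω] {S S₁ S₂ T P Q : Subgroup Ω} {F : FusionSystem S}
  {E : FusionSystem T} {R : FusionSystem S₁} {p : ℕ}

theorem dirProd_le_centralizerIn (h : IsInternalDirectProduct S₁ S₂ S) :
    S₁ ≤ centralizerIn S S₂ := fun a ha =>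
  mem_centralizerIn.2 ⟨h.1 ha, fun b hb => (h.2.2.1 a ha b hb).symm⟩

theorem dirProd_exists_mul (h : IsInternalDirectProduct S₁ S₂ S) {x : Ω} (hx : x ∈ S) :
    ∃ a ∈ S₁, ∃ b ∈ S₂, a * b = x :=
  exists_mul_of_mem_sup_left (fun _ ha => (centralizerIn_le_normalizerIn
    (dirProd_le_centralizerIn h ha)).2) (h.2.2.2.2.ge hx)

theorem dirProd_eq (h : IsInternalDirectProduct S₁ S₂ S) {a b : Ω} (ha : a ∈ S₁) (hb : b ∈ S₁)
    (e : a⁻¹ * b ∈ S₂) : a = b := by
  have : a⁻¹ * b ∈ S₁ ⊓ S₂ := ⟨S₁.mul_mem (S₁.inv_mem ha) hb, e⟩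
  rwa [h.2.2.2.1, mem_bot, inv_mul_eq_one] at this

/-- The projection onto the first factor of an internal direct product. -/
theorem dirProd_exists_proj (h : IsInternalDirectProduct S₁ S₂ S) :
    ∃ t : Ω → Ω, MulOn S t ∧ ∀ a ∈ S₁, ∀ b ∈ S₂, t (a * b) = a := by
  classical
  have key : ∃ t : Ω → Ω, ∀ a ∈ S₁, ∀ b ∈ S₂, t (a * b) = a := by
    refine ⟨fun x => if hx : ∃ a ∈ S₁, a⁻¹ * x ∈ S₂ then hx.choose else 1, fun a ha b hb => ?_⟩
    have hx : ∃ c ∈ S₁, c⁻¹ * (a * b) ∈ S₂ := ⟨a, ha, by simpa using hb⟩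
    simp only [dif_pos hx]
    exact dirProd_eq h hx.choose_spec.1 ha (by
      simpa [mul_assoc] using S₂.mul_mem hx.choose_spec.2 (S₂.inv_mem hb))
  obtain ⟨t, ht⟩ := key
  refine ⟨t, fun x hx y hy => ?_, ht⟩
  obtain ⟨a, ha, b, hb, rfl⟩ := dirProd_exists_mul h hx
  obtain ⟨c, hc, d, hd, rfl⟩ := dirProd_exists_mul h hy
  rw [ht a ha b hb, ht c hc d hd, ← ht _ (S₁.mul_mem ha hc) _ (S₂.mul_mem hb hd)]
  congr 1
  rw [mul_assoc, ← mul_assoc b, ← h.2.2.1 c hc b hb]; group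

variable [Finite S] [Fact p.Prime] (hS : IsPGroup p S) (h : IsInternalDirectProduct S₁ S₂ S)
  (h₁ : F.StronglyClosed S₁) (h₂ : F.StronglyClosed S₂)
include hS h h₁ h₂

/-- The full subsystem on a strongly closed direct factor of a saturated subsystem is saturated. -/
theorem saturated_of_dirProd (hE : E.IsSaturated p) (hEF : E.IsSubsystemOf F) (hT : S₁ ≤ T)
    (hR : ∀ P f, P ≤ S₁ → (Mor R P f ↔ Mor E P f)) : R.IsSaturated p := by
  obtain ⟨t, ht, e⟩ := dirProd_exists_proj h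
  have hTS := le_of_isSubsystemOf hEF
  have := finite_of_le hTS
  have e₁ : ∀ a ∈ S₁, t a = a := fun a ha => by simpa using e a ha 1 S₂.one_mem
  have hk : pre T t ⊥ = T ⊓ S₂ := by
    ext x
    rw [(ht.mono hTS).mem_ker_iff]
    refine and_congr_right fun hx => ?_
    obtain ⟨a, ha, b, hb, rfl⟩ := dirProd_exists_mul h (hTS hx)
    rw [e a ha b hb]
    exact ⟨fun h' => by simpa [h'] using hb, fun h' =>
      (dirProd_eq h S₁.one_mem ha (by simpa using S₂.mul_mem h' (S₂.inv_mem hb))).symm⟩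
  have hi : img T t = S₁ := le_antisymm (img_le_iff.2 fun x hx => by
    obtain ⟨a, ha, b, hb, rfl⟩ := dirProd_exists_mul h (hTS hx)
    rwa [e a ha b hb]) fun a ha => e₁ a ha ▸ mem_img_of_mem t (hT ha)
  obtain ⟨D, hD⟩ := exists_fImg (hS.to_le hTS) hE (ht.mono hTS) (hk ▸ stronglyClosed_iff.2
    ⟨inf_le_left, fun Q f hf x hx hx' => ⟨hf.maps hx,
      (hf.of_sub hEF).mem_of_stronglyClosed h₂ hx hx'.2⟩⟩)
  have hs := hD.saturated (hS.to_le hTS) hE
  have key : ∀ P f, Mor D P f ↔ Mor R P f := fun P f => by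
    constructor
    · intro hf
      have hP : P ≤ S₁ := hi ▸ hf.le
      obtain ⟨g, hg, e'⟩ := hD.lift P f hf
      have hle : P ≤ pre T t P := fun x hx => mem_pre_of (hT (hP hx)) (by rwa [e₁ x (hP hx)])
      refine (hR P f hP).2 ((hg.restrict hle).congr fun x hx => ?_)
      rw [← e₁ _ ((hg.of_sub hEF).mem_of_stronglyClosed h₁ (hle hx) (hP hx)), ← e' x (hle hx),
        e₁ x (hP hx)]
    · intro hf
      have := hD.mor_of ((hR P f hf.le).1 hf) (f' := f) fun x hx => by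
        rw [e₁ x (hf.le hx), e₁ _ (hf.maps hx)]
      rwa [img_eq_self_of_eqOn fun x hx => e₁ x (hf.le hx)] at this
  clear hD
  generalize img T t = U at D hs key hi
  subst hi
  exact fus_ext_mor key ▸ hs

/-- Maps on subgroups of one strongly closed direct factor extend over the other factor. -/
theorem Mor.exists_ext_dirProd (hF : F.IsSaturated p) {f : Equiv.Perm Ω} (hf : Mor F P f)
    (hP : P ≤ S₁) : ∃ g : Equiv.Perm Ω, Mor F (P ⊔ S₂) g ∧ ∀ x ∈ P, g x = f x := by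
  obtain ⟨k, hk, e⟩ := hf.exists_ext_mod hS hF h₂
  obtain ⟨g, hg, e'⟩ := hk.exists_perm
  refine ⟨g, hg, fun x hx => dirProd_eq h (hg.mem_of_stronglyClosed h₁ (mem_sup_left hx) (hP hx))
    (hf.mem_of_stronglyClosed h₁ hx (hP hx)) ?_⟩
  rw [e' x (mem_sup_left hx)]
  exact e x hx

theorem strongInv_of_dirProd (hF : F.IsSaturated p)
    (hR : ∀ P f, P ≤ S₁ → (Mor R P f ↔ ExtFix F S₂ P f)) : StrongInv F R := by
  intro Q g P k hg hQ hPQ hk hm
  have := finite_of_le h₁.1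
  obtain ⟨f, hf, e⟩ := hk.exists_perm
  obtain ⟨a, ha, e'⟩ := hg.exists_ext_dirProd hS h h₁ h₂ hF hQ
  have h3 := ((hR P f hf.le).1 hf).conj ha (hPQ.trans le_sup_left) le_sup_right
    fun x hx => mem_sup_left (e x hx ▸ hm x hx)
  rw [(ha.piso_of_stronglyClosed h₂ le_sup_right).img_eq,
    img_congr fun x hx => e' x (hPQ hx)] at h3
  refine (hR _ _ (hg.restrict hPQ |>.img_le_of_stronglyClosed h₁ (hPQ.trans hQ))).2
    (h3.congr fun y hy => ?_)
  obtain ⟨x, hx, rfl⟩ := (hg.restrict hPQ).mem_img.1 hy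
  have e₁ : a⁻¹ (g x) = x := by rw [← e' x (hPQ hx), perm_inv_apply]
  simp only [Equiv.Perm.coe_mul, Function.comp_apply, e₁, perm_inv_apply, e x hx,
    e' _ (hm x hx)]

end Cfsg.Lib.Fus
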