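import Cfsg.Agent.Fus.FormGen

/-!
# The fusion systems of symplectic and special unitary groups in the defining characteristic
-/

set_option autoImplicit false

namespace Cfsg.Lib.Fus.Grp

open Subgroup Module Cfsg.Lib.Class.Form

variable {G : Type*} [Group G] {F V : Type*} [Field F] [AddCommGroup V] [Module F V]
  {σ : F →+* F} {ρ : G →* (V ≃ₗ[F] V)} {B : V →ₛₗ[σ] V →ₗ[F] F} {ε : F}

theorem finrank_bot_sup_pair_le [FiniteDimensional F V] (e f : V) :
    finrank F ((⊥ : Submodule F V) ⊔ Submodule.span F {e} ⊔ Submodule.span F {f} :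
      Submodule F V) ≤ 2 := by
  rw [bot_sup_eq]; exact finrank_span_pair_le e f

theorem exists_norms [Finite F] (hσ : ∀ a, σ (σ a) = a) {μ : F} (hμ : σ μ = μ) :
    ∃ a b : F, μ = σ a * a - σ b * b := by
  by_cases h2 : (2 : F) = 0
  · have hc : ringChar F = 2 := by
      have : CharP F 2 := CharTwo.of_one_ne_zero_of_two_eq_zero one_ne_zero h2
      exact ringChar.eq F 2
    obtain ⟨ν, rfl⟩ := FiniteField.isSquare_of_char_two hc μ
    have h1 : (σ ν - ν) ^ 2 = 0 := by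
      rw [map_mul] at hμ
      linear_combination hμ + (ν * ν - σ ν * ν) * h2
    exact ⟨ν, 0, by rw [sub_eq_zero.1 (pow_eq_zero_iff two_ne_zero |>.1 h1)]; simp⟩
  · refine ⟨(μ + 1) / 2, (μ - 1) / 2, ?_⟩
    simp only [map_div₀, map_add, map_sub, map_one, hμ, map_ofNat]
    field_simp
    ring

namespace FormRep

variable [FiniteDimensional F V] {p : ℕ} [hp : Fact p.Prime] [CharP F p] [Finite G]

theorem exists_second [Finite V] (h : FormRep ρ B ε) (h4 : 4 ≤ finrank F V) {S : Subgroup G}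
    (hS : IsSylowIn p S ⊤) {e : V} (he0 : e ≠ 0) (he : B e e = 0) (heS : ∀ s ∈ S, ρ s e = e) :
    ∃ e2, e2 ∉ Submodule.span F {e} ∧ B e e2 = 0 ∧ B e2 e2 = 0 ∧
      ∀ s ∈ S, ρ s e2 - e2 ∈ Submodule.span F {e} := by
  have hse : ∀ s ∈ S, ∀ x, B e (ρ s x) = B e x := fun s hs x => by
    conv_lhs => rw [← heS s hs]
    exact h.isom _ _ _
  let M : Submodule F V := Submodule.span F {y | ∃ s ∈ S, ∃ x, B e x = 0 ∧ y = ρ s x - x}
  have hM : ∀ y ∈ M ⊔ Submodule.span F {e}, B e y = 0 ∧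
      ∀ x, B e x = 0 → (∀ s ∈ S, ρ s x - x ∈ Submodule.span F {e}) → B x y = 0 := by
    intro y hy0
    obtain ⟨y, hy, c, rfl⟩ := mem_sup_span_singleton.1 hy0
    clear hy0
    suffices B e y = 0 ∧
        ∀ x, B e x = 0 → (∀ s ∈ S, ρ s x - x ∈ Submodule.span F {e}) → B x y = 0 from
      ⟨by simp [this.1, he], fun x hx hx' => by simp [this.2 x hx hx', h.sym_zero hx]⟩
    induction hy using Submodule.span_induction with
    | mem y hy =>
      obtain ⟨s, hs, z, hz, rfl⟩ := hy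
      refine ⟨by rw [map_sub, hse s hs, sub_self], fun x _ hx' => ?_⟩
      obtain ⟨k, hk⟩ := Submodule.mem_span_singleton.1 (hx' s hs)
      have h1 := h.isom s x z
      rw [← sub_add_cancel (ρ s x) x, ← hk] at h1
      simp only [map_add, LinearMap.add_apply, form_smul_left, hse s hs, hz] at h1
      rw [map_sub, ← h1]
      simp
    | zero => simp
    | add a b _ _ ha hb => exact ⟨by simp [ha.1, hb.1], fun x hx hx' => by
        simp [ha.2 x hx hx', hb.2 x hx hx']⟩
    | smul a b _ hb => exact ⟨by simp [hb.1], fun x hx hx' => by simp [hb.2 x hx hx']⟩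
  have hlt : Submodule.span F {e} < M ⊔ Submodule.span F {e} := by
    refine right_lt_sup.2 fun hle => ?_
    have hSR : S = radF ρ B e := le_antisymm (fun s hs => h.mem_radF.2 ⟨heS s hs, fun x hx =>
      hle (Submodule.subset_span ⟨s, hs, x, hx, rfl⟩)⟩) (h.radF_le hS heS)
    obtain ⟨f, -, hf, -⟩ := h.exists_partner nondegOn_bot (mem_orth_bot e) he0 he
    have hX := h.nondegOn_sup_pair nondegOn_bot (mem_orth_bot e) (mem_orth_bot f) he (by simp [hf])
    obtain ⟨u, huX, hu0, hu⟩ := h.exists_isotropic_of_finrank hX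
      (by have := finrank_bot_sup_pair_le (F := F) e f; omega)
    obtain ⟨u', huX', hu', -⟩ := h.exists_partner hX huX hu0 hu
    obtain ⟨h1, hfu⟩ := mem_orth_sup_span.1 huX
    obtain ⟨-, heu⟩ := mem_orth_sup_span.1 h1
    obtain ⟨h1', -⟩ := mem_orth_sup_span.1 huX'
    obtain ⟨-, heu'⟩ := mem_orth_sup_span.1 h1'
    obtain ⟨c, hc0, hc⟩ := h.exists_tv_scalar
    obtain ⟨t, ht⟩ := h.exists_tv hu hc
    have hQ := hS.maximal ((radF ρ B u ⊓ fixSub ρ (Submodule.span F {e})) ⊔ S)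
      (((h.radF_isPGroup u).to_le inf_le_left).to_sup_of_normal_right' hS.isPGroup fun q hq => by
        rw [hSR]
        exact h.mem_normalizer_radF (hq.2 e (Submodule.mem_span_singleton_self e)))
      le_sup_right le_top
    have htS : t ∈ S := hQ ▸ mem_sup_left ⟨h.tv_mem_radF hu ht,
      fix_span (by simp [ht, h.sym_zero heu])⟩
    rw [hSR] at htS
    obtain ⟨k, hk⟩ := Submodule.mem_span_singleton.1 (htS.2.2 u' heu')
    rw [ht, hu', mul_one, add_sub_cancel_left] at hk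
    have h2 := congrArg (B f) hk
    simp only [map_smul, h.sym_one hf, hfu, smul_eq_mul, mul_zero, mul_eq_zero, h.good.eps_ne,
      or_false] at h2
    rw [h2, zero_smul] at hk
    exact smul_ne_zero hc0 hu0 hk.symm
  obtain ⟨e2, h1, h2, h3⟩ := exists_fixed_mod (ρ := ρ) hS.isPGroup hlt
    (fun s hs x hx => by rwa [fix_span (heS s hs) x hx]) (fun s hs x hx => by
      have : ρ s x - x ∈ M := Submodule.subset_span ⟨s, hs, x, (hM x hx).1, rfl⟩
      simpa using add_mem (Submodule.mem_sup_left this) hx)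
  exact ⟨e2, h2, (hM e2 h1).1, (hM e2 h1).2 e2 (hM e2 h1).1 h3, h3⟩

/-- The exceptional argument for symplectic groups in characteristic two. -/
theorem exists_tv_mem_of_char_two (h : FormRep ρ B ε) (hσ : ∀ a, σ a = a) (hε : ε = 1)
    (hex : (∃ α : F, α ≠ 0 ∧ α ≠ 1) ∨ 5 ≤ finrank F V) {e f : V} (he : B e e = 0)
    (hf : B e f = 1) {T : Subgroup G}
    (hT : ∀ g, ρ g e = e → ∀ t ∈ T, t ∈ radF ρ B e → g * t * g⁻¹ ∈ T) {z : G} (hzT : z ∈ T)
    (hz : z ∈ radF ρ B e) (hw : ρ z f - f ∉ Submodule.span F {e}) :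
    ∃ t ∈ T, t ∈ radF ρ B e ∧ ∃ c : F, c ≠ 0 ∧ ρ t f = f + c • e := by
  subst hε
  have h2 : (2 : F) = 0 := by
    obtain ⟨c, hc0, hc⟩ := h.exists_tv_scalar
    rw [hσ] at hc
    exact (mul_eq_zero.1 (by linear_combination hc : 2 * c = 0)).resolve_right hc0
  have halt : ∀ v, B v v = 0 := fun v => by
    obtain ⟨s, hs⟩ := h.tr v
    rw [← hs, hσ]; linear_combination s * h2
  have hsym : ∀ u v, B u v = B v u := fun u v => by rw [h.good.sym, hσ, one_mul]
  have h2V : ∀ v : V, v + v = 0 := fun v => by rw [← two_smul F, h2, zero_smul]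
  let P : V → F → Prop := fun y γ => ∃ r ∈ T, r ∈ radF ρ B e ∧ ρ r f = f + y + γ • e
  have hap : ∀ r ∈ radF ρ B e, ∀ (y : V) (γ : F), ρ r f = f + y + γ • e → ∀ x, B e x = 0 →
      ρ r x = x - B y x • e := by
    intro r hr y γ e1 x hx
    rw [h.radF_apply hf hr hx, e1, add_assoc, add_sub_cancel_left]
    simp [form_smul_left, hx]
  have hmul : ∀ y γ y' γ', B e y' = 0 → P y γ → P y' γ' → P (y + y') (γ + γ' - B y y') := by
    rintro y γ y' γ' hy' ⟨r, hr, hr', e1⟩ ⟨s, hs, hs', e2⟩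
    refine ⟨r * s, mul_mem hr hs, mul_mem hr' hs', ?_⟩
    rw [rho_mul, e2, map_add, map_add, map_smul, hr'.1, hap r hr' y γ e1 y' hy', e1]
    module
  have hK : ∀ y0 γ y, B e y0 = 0 → B e y = 0 → B f y = 0 → B y y0 ≠ 0 → P y0 γ →
      P y (B y y0) := by
    intro y0 γ y hy0 hy hfy hβ hP
    obtain ⟨r, hr, hr', e1⟩ := id hP
    obtain ⟨t, ht⟩ := h.exists_tv (halt y) (c := (B y y0)⁻¹) (by
      rw [hσ]; linear_combination (B y y0)⁻¹ * h2)
    have hte : ρ t e = e := by simp [ht, h.sym_zero hy]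
    have htf : ρ t f = f := by simp [ht, h.sym_zero hfy]
    have hP' : P (y0 + y) γ := ⟨t * r * t⁻¹, hT t hte r hr hr',
      by simpa [hte] using h.conj_mem_radF (g := t) hr', by
        rw [rho_mul, rho_mul, rho_inv_eq_of_eq ρ htf, e1, map_add, map_add, map_smul, hte, htf, ht,
          inv_mul_cancel₀ hβ, one_smul]⟩
    have := hmul _ _ _ _ (by simp [hy0, hy]) hP hP'
    convert this using 1
    · rw [← add_assoc, h2V, zero_add]
    · rw [map_add, halt, hsym y0 y]
      linear_combination (B y y0 - γ) * h2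
  have hU : ∀ y γ γ', P y γ → P y γ' → γ ≠ γ' →
      ∃ t ∈ T, t ∈ radF ρ B e ∧ ∃ c : F, c ≠ 0 ∧ ρ t f = f + c • e := by
    rintro y γ γ' ⟨r, hr, hr', e1⟩ ⟨s, hs, hs', e2⟩ hne
    refine ⟨r⁻¹ * s, mul_mem (inv_mem hr) hs, mul_mem (inv_mem hr') hs', γ' - γ,
      sub_ne_zero.2 hne.symm, ?_⟩
    rw [rho_mul]
    apply rho_inv_eq_of_eq
    rw [map_add, map_smul, hr'.1, e1, e2]
    module
  set y0 := ρ z f - f - B f (ρ z f - f) • e with hy0
  have hew : B e (ρ z f - f) = 0 := by rw [map_sub, hz.2.1, sub_self]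
  have hey0 : B e y0 = 0 := by rw [hy0, map_sub, hew, form_smul_right, he]; simp
  have hfy0 : B f y0 = 0 := by rw [hy0, map_sub, form_smul_right, h.sym_one hf]; simp
  have hy00 : y0 ≠ 0 := fun e0 => hw (by rw [sub_eq_zero.1 e0]; exact smul_mem_span _ _)
  have hP0 : P y0 (B f (ρ z f - f)) := ⟨z, hzT, hz, by rw [hy0]; abel⟩
  have hX := h.nondegOn_sup_pair nondegOn_bot (mem_orth_bot e) (mem_orth_bot f) he (by simp [hf])
  have hmem : ∀ v, v ∈ orth B (⊥ ⊔ Submodule.span F {e} ⊔ Submodule.span F {f}) ↔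
      B e v = 0 ∧ B f v = 0 := fun v => by
    rw [mem_orth_sup_span, mem_orth_sup_span]; simp [mem_orth_bot]
  obtain ⟨y, hyX, hy, -⟩ := h.exists_partner hX ((hmem y0).2 ⟨hey0, hfy0⟩) hy00 (halt y0)
  obtain ⟨hey, hfy⟩ := (hmem y).1 hyX
  have hy' : B y y0 = 1 := by rw [hsym, hy]
  have hP1 : P y 1 := hy' ▸ hK y0 _ y hey0 hey hfy (by simp [hy']) hP0
  rcases hex with ⟨α, hα0, hα1⟩ | h5
  · have hP2 := hK y 1 (α • y0) hey (by simp [hey0]) (by simp [hfy0])
      (by simp [form_smul_left, hy, hα0]) hP1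
    have hP3 := hK _ _ y (by simp [hey0]) hey hfy (by simp [hy', hα0]) hP2
    rw [form_smul_right, hy', mul_one] at hP3
    exact hU y _ _ hP3 hP1 hα1
  · have hX2 := h.nondegOn_sup_pair hX ((hmem y0).2 ⟨hey0, hfy0⟩) hyX (halt y0) (by simp [hy])
    obtain ⟨x, hx, hx0⟩ := Submodule.exists_mem_ne_zero_of_ne_bot (h.orth_ne_bot (lt_of_le_of_lt
      ((finrank_sup_span_le _ y).trans (Nat.add_le_add_right (finrank_sup_span_le
        ((⊥ : Submodule F V) ⊔ Submodule.span F {e} ⊔ Submodule.span F {f}) y0) 1))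
      (by have := finrank_bot_sup_pair_le (F := F) e f; omega)))
    obtain ⟨x', hx', hxx', -⟩ := h.exists_partner hX2 hx hx0 (halt x)
    simp only [mem_orth_sup_span] at hx hx'
    obtain ⟨⟨⟨⟨-, hex⟩, hfx⟩, hy0x⟩, hyx⟩ := hx
    obtain ⟨⟨⟨⟨-, hex'⟩, hfx'⟩, hy0x'⟩, hyx'⟩ := hx'
    have hQ1 := hK y0 _ (y + x) hey0 (by simp [hey, hex]) (by simp [hfy, hfx])
      (by simp [hy', h.sym_zero hy0x]) hP0
    have hQ2 := hK y0 _ (y + x') hey0 (by simp [hey, hex']) (by simp [hfy, hfx'])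
      (by simp [hy', h.sym_zero hy0x']) hP0
    have hQ3 := hK _ _ x (by simp [hey, hex']) hex hfx (by simp [hxx', h.sym_zero hyx]) hQ2
    have hQ4 := hmul _ _ _ _ (by simp [hey, hex]) hP1 hQ1
    rw [← add_assoc, h2V, zero_add] at hQ4
    refine hU x _ _ hQ3 hQ4 ?_
    simp only [map_add, LinearMap.add_apply, hxx', h.sym_zero hyx, hy', h.sym_zero hy0x, halt, hyx,
      zero_add, add_zero, sub_zero]
    rw [one_add_one_eq_two, h2]
    exact one_ne_zero

theorem closed [Finite V] [Finite F] (h : FormRep ρ B ε) (h4 : 4 ≤ finrank F V)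
    (hex : (∀ a, σ a = a) → (∃ α : F, α ≠ 0 ∧ α ≠ 1) ∨ 5 ≤ finrank F V)
    {S : Subgroup G} (hS : IsSylowIn p S ⊤) {e : V} (he0 : e ≠ 0) (he : B e e = 0)
    (heS : ∀ s ∈ S, ρ s e = e) (T : Subgroup G) (hTS : T ≤ S) (hT1 : T ≠ ⊥)
    (hT : ∀ x ∈ T, ∀ g : G, g * x * g⁻¹ ∈ S → g * x * g⁻¹ ∈ T) : S ≤ T := by
  have hR := h.radF_le hS heS
  obtain ⟨f0, -, hf0, -⟩ := h.exists_partner nondegOn_bot (mem_orth_bot e) he0 he
  have hTn : ∀ g, ρ g e = e → ∀ t ∈ T, t ∈ radF ρ B e → g * t * g⁻¹ ∈ T := fun g hg t ht ht' =>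
    hT t ht g (hR (by simpa [hg] using h.conj_mem_radF (g := g) ht'))
  have htrans : ∀ x y, x ≠ 0 → y ≠ 0 → B x x = 0 → B y y = 0 → ∃ d, ρ d x = y := by
    intro x y hx0 hy0 hx hy
    obtain ⟨d, -, hd⟩ := h.exists_trans (p := p) nondegOn_bot (by rw [finrank_bot]; omega)
      (mem_orth_bot x) (mem_orth_bot y) hx0 hy0 hx hy
    exact ⟨d, hd⟩
  -- (a) a nontrivial transvection
  have ha : ∃ t ∈ T, t ∈ radF ρ B e ∧ ∃ c : F, c ≠ 0 ∧ ρ t f0 = f0 + c • e := by
    obtain ⟨z, hzT, hz1, hz⟩ := exists_central_mem hS.isPGroup hTS hT1 fun s hs x hx =>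
      hT x hx s (mul_mem (mul_mem hs (hTS hx)) (inv_mem hs))
    have hzR := h.mem_radF_of_centralizes (p := p) he0 he (heS z (hTS hzT)) fun t ht => hz t (hR ht)
    by_cases hw : ρ z f0 - f0 ∈ Submodule.span F {e}
    · obtain ⟨c, hc⟩ := Submodule.mem_span_singleton.1 hw
      refine ⟨z, hzT, hzR, c, ?_, by rw [hc]; abel⟩
      rintro rfl
      exact hz1 (h.radF_ext hf0 hzR (one_mem _) (by
        rw [zero_smul, eq_comm, sub_eq_zero] at hc; simpa using hc))
    have hew : B e (ρ z f0 - f0) = 0 := by rw [map_sub, hzR.2.1, sub_self]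
    have hcomm : ∀ w, B e w = 0 → B w (ρ z f0 - f0) = B (ρ z f0 - f0) w := by
      intro w hw'
      obtain ⟨r, hr, a, e1⟩ := h.exists_eichler_add (p := p) he hf0 hw'
      have h1 := congrArg (fun t => ρ t f0) (hz r (hR hr))
      have h2 := h.radF_apply hf0 hr hew
      have h3 := h.radF_apply hf0 hzR hw'
      simp only [rho_mul, e1, map_add, map_smul, hzR.1] at h1
      rw [map_sub, h1, h3, e1, add_assoc f0, add_sub_cancel_left] at h2
      have h5 : (ε * B (w + a • e) (ρ z f0 - f0)) • e = (ε * B (ρ z f0 - f0) w) • e := by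
        rw [← sub_eq_zero, ← sub_eq_zero.2 h2]
        abel
      have h6 := mul_left_cancel₀ h.good.eps_ne (smul_left_injective F he0 h5)
      rwa [map_add, LinearMap.add_apply, form_smul_left, hew, mul_zero, add_zero] at h6
    have hw' : ∃ w, B e w = 0 ∧ B w (ρ z f0 - f0) ≠ 0 := by
      by_contra hc
      push Not at hc
      exact hw (h.mem_span_of_orth hc)
    obtain ⟨w, hw1, hw2⟩ := hw'
    have hσ : ∀ a, σ a = a := fun a => by
      have h1 := hcomm (a • w) (by simp [hw1])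
      rw [form_smul_left, form_smul_right, ← hcomm w hw1] at h1
      exact mul_right_cancel₀ hw2 h1
    have hε : ε = 1 := by
      have h1 := h.good.sym w (ρ z f0 - f0)
      rw [hσ, ← hcomm w hw1] at h1
      exact (mul_right_cancel₀ hw2 (h1.symm.trans (one_mul _).symm))
    exact h.exists_tv_mem_of_char_two hσ hε (hex hσ) he hf0 hTn hzT hzR hw
  -- (b) all transvections with centre `e`
  have hb : ∀ t (c : F), ε * c + σ c = 0 → (∀ x, ρ t x = x + (c * B e x) • e) → t ∈ T := by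
    obtain ⟨t0, ht0, ht0', c0, hc00, e0⟩ := ha
    obtain ⟨hc0, ht0e⟩ := h.tv_of_radF he hf0 ht0' e0
    have hn : ∀ a : F, ∃ t ∈ T, ∀ x, ρ t x = x + (c0 * (σ a * a) * B e x) • e := by
      intro a
      by_cases ha0 : a = 0
      · exact ⟨1, one_mem _, by simp [ha0]⟩
      obtain ⟨d, hd⟩ := htrans e (a • e) he0 (smul_ne_zero ha0 he0) he (by simp [he])
      have h1 : ∀ x, ρ (d * t0 * d⁻¹) x = x + (c0 * (σ a * a) * B e x) • e := fun x => by
        rw [h.conj_tv d ht0e, hd, form_smul_left, smul_smul]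
        congr 2; ring
      exact ⟨_, hT t0 ht0 d (hR (h.tv_mem_radF he h1)), h1⟩
    intro t c hc ht
    obtain ⟨a, b, hab⟩ := exists_norms h.σσ (μ := c / c0) (by
      rw [map_div₀, show σ c = -ε * c by linear_combination hc,
        show σ c0 = -ε * c0 by linear_combination hc0, mul_div_mul_left _ _ (neg_ne_zero.2 h.good.eps_ne)])
    obtain ⟨ta, hta, ea⟩ := hn a
    obtain ⟨tb, htb, eb⟩ := hn b
    have h1 : t * tb = ta := rho_ext h.inj fun x => by
      rw [rho_mul, eb, ea, map_add, map_smul, ht, ht, he, ← mul_div_cancel₀ c hc00, hab]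
      module
    rw [← mul_inv_cancel_right t tb, h1]
    exact mul_mem hta (inv_mem htb)
  -- (c) all transvections in `S`
  have hc : ∀ v, v ≠ 0 → B v v = 0 → ∀ t (c : F), ε * c + σ c = 0 →
      (∀ x, ρ t x = x + (c * B v x) • v) → t ∈ S → t ∈ T := by
    intro v hv0 hv t c hc ht htS
    obtain ⟨d, hd⟩ := htrans e v he0 hv0 he hv
    have h1 := hb (d⁻¹ * t * d⁻¹⁻¹) c hc fun x => by
      rw [h.conj_tv d⁻¹ ht, rho_inv_eq_of_eq ρ hd]
    have h2 := hT _ h1 d (by simpa [mul_assoc] using htS)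
    simpa [mul_assoc] using h2
  obtain ⟨e2, he2, hee2, he22, he2S⟩ := h.exists_second h4 hS he0 he heS
  have he20 : e2 ≠ 0 := fun e0 => he2 (by simp [e0])
  obtain ⟨f, hf, hf2⟩ : ∃ f, B e f = 1 ∧ B e2 f = 0 := by
    obtain ⟨w, h1, h2⟩ := h.exists_form_eq_two he0 he2 ε 0
    exact ⟨w, by rw [h.good.sym, h1, h.σ_eps, h.eps_sq], h.sym_zero h2⟩
  obtain ⟨c0, hc00, hc0⟩ := h.exists_tv_scalar
  -- (d) transvections with centre in `L`
  have hd : ∀ a b : F, ∀ c : F, ε * c + σ c = 0 →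
      ∃ t ∈ T, ∀ x, ρ t x = x + (c * B (a • e + b • e2) x) • (a • e + b • e2) := by
    intro a b c hc'
    have hv : B (a • e + b • e2) (a • e + b • e2) = 0 := by
      simp [form_smul_left, he, hee2, he22, h.sym_zero hee2]
    obtain ⟨t, ht⟩ := h.exists_tv hv hc'
    by_cases hv0 : a • e + b • e2 = 0
    · exact ⟨1, one_mem _, by simp [hv0]⟩
    refine ⟨t, hc _ hv0 hv t c hc' ht ?_, ht⟩
    have hLS : ∀ s ∈ S, ∀ x ∈ Submodule.span F {e} ⊔ Submodule.span F {e2},
        ρ s x ∈ Submodule.span F {e} ⊔ Submodule.span F {e2} := by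
      intro s hs x hx
      obtain ⟨y, hy, k, rfl⟩ := mem_sup_span_singleton.1 hx
      rw [map_add, map_smul, fix_span (heS s hs) y hy, ← sub_add_cancel (ρ s e2) e2, smul_add]
      exact add_mem (Submodule.mem_sup_left hy) (add_mem (Submodule.mem_sup_left
        (Submodule.smul_mem _ _ (he2S s hs))) (Submodule.mem_sup_right (smul_mem_span _ _)))
    have htL : ∀ x, ρ t x - x ∈ Submodule.span F {e} ⊔ Submodule.span F {e2} := fun x => by
      rw [ht, add_sub_cancel_left]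
      exact Submodule.smul_mem _ _ (add_mem (Submodule.mem_sup_left (smul_mem_span _ _))
        (Submodule.mem_sup_right (smul_mem_span _ _)))
    refine mem_sylow_of_chain5 h.inj hS le_rfl le_rfl le_rfl hLS hLS hLS hLS
      (fix_sup_span (fix_span ?_) ?_) (fun x _ => htL x) (fun x _ => htL x) (fun x _ => htL x) htL
    · simp [ht, form_smul_left, he, h.sym_zero hee2]
    · simp [ht, form_smul_left, he22, hee2]
  -- (e), (f) the translation parts
  let P : V → Prop := fun w => ∃ r ∈ T, r ∈ radF ρ B e ∧ ∃ a : F, ρ r f = f + w + a • e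
  have hPadd : ∀ w w', B e w' = 0 → P w → P w' → P (w + w') := by
    rintro w w' hw' ⟨r, hr, hr', a, e1⟩ ⟨s, hs, hs', b, e2⟩
    refine ⟨r * s, mul_mem hr hs, mul_mem hr' hs', a + b - ε * B (ρ r f - f) w', ?_⟩
    rw [rho_mul, e2, map_add, map_add, map_smul, hr'.1, h.radF_apply hf hr' hw']
    nth_rewrite 1 [e1]
    module
  have hPconj : ∀ w g, ρ g e = e → P w → P (ρ g w) := by
    rintro w g hg ⟨r, hr, hr', a, e1⟩
    have h1 : B e (ρ g⁻¹ f - f) = 0 := by rw [map_sub, ← h.isom_inv, hg, sub_self]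
    refine ⟨g * r * g⁻¹, hTn g hg r hr hr', by simpa [hg] using h.conj_mem_radF (g := g) hr',
      a - ε * B (ρ r f - f) (ρ g⁻¹ f - f), ?_⟩
    have h2 := h.radF_apply hf hr' h1
    rw [map_sub, sub_eq_iff_eq_add] at h2
    rw [rho_mul, rho_mul, h2]
    generalize ε * B (ρ r f - f) (ρ g⁻¹ f - f) = k
    simp only [e1, map_add, map_sub, map_smul, rho_self_inv, hg]
    module
  have hP2 : ∀ k : F, P (k • e2) := by
    intro k
    obtain ⟨t1, ht1, e1⟩ := hd 1 (k / c0) c0 hc0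
    obtain ⟨t2, ht2, e2'⟩ := hd 0 (k / c0) (-c0) (by rw [map_neg]; linear_combination -hc0)
    refine ⟨t1 * t2, mul_mem ht1 ht2, h.mem_radF.2 ⟨?_, fun x hx => ?_⟩, c0, ?_⟩
    · simp [rho_mul, e1, e2', form_smul_left, he, h.sym_zero hee2]
    · have : ρ (t1 * t2) x - x = (c0 * σ (k / c0) * B e2 x) • e := by
        simp only [rho_mul, e1, e2', form_smul_left, hx, hee2, he22, map_add, map_smul,
          LinearMap.add_apply, smul_eq_mul, one_smul, zero_smul, zero_add, map_neg, mul_zero,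
          add_zero]
        module
      rw [this]; exact smul_mem_span _ _
    · simp only [rho_mul, e1, e2', form_smul_left, hf, hf2, map_add, map_smul,
        LinearMap.add_apply, one_smul, zero_smul, zero_add, mul_zero, add_zero, mul_one]
      match_scalars <;> field_simp
  have hPu : ∀ u, B e u = 0 → B u u = 0 → B e2 u ≠ 0 → ∀ k : F, P (k • u) := by
    intro u hu hu' hu2 k
    obtain ⟨α, hα, d, hd', e1⟩ := h.exists_move_smul (p := p) (X := Submodule.span F {e})
      (mem_orth_span_singleton.2 hee2) (mem_orth_span_singleton.2 hu) he22 hu' hu2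
    have := hPconj _ d (pGenFix_fix hd' e (Submodule.mem_span_singleton_self e)) (hP2 (k / α))
    rwa [map_smul, e1, smul_smul, div_mul_cancel₀ _ hα] at this
  have hPall : ∀ w, B e w = 0 → P w := by
    obtain ⟨f1, h1, h2⟩ := h.exists_form_eq_two he0 he2 0 ε
    have h2' : B e2 f1 = 1 := by rw [h.good.sym, h2, h.σ_eps, h.eps_sq]
    obtain ⟨a1, ha1⟩ := h.exists_isotropic_add he22 (u := f1) (by simp [h2'])
    have hef2 : B e (f1 + a1 • e2) = 0 := by simp [h.sym_zero h1, hee2]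
    have he2f2 : B e2 (f1 + a1 • e2) = 1 := by simp [h2', he22]
    generalize f1 + a1 • e2 = f2 at ha1 hef2 he2f2
    intro w hw
    obtain ⟨a, ha'⟩ := h.exists_isotropic_add he22 (u := w + (1 - B e2 w) • f2) (by simp [he2f2])
    have h3 := hPu _ (by simp [hw, hef2, hee2]) ha' (by simp [he2f2, he22]) 1
    have h5 := hPadd _ _ (by simp [hef2]) (hPadd _ _ (by simp [hee2]) h3 (hP2 (-a)))
      (hPu f2 hef2 ha1 (by simp [he2f2]) (-(1 - B e2 w)))
    convert h5 using 1
    module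
  -- (g)
  have hRT : radF ρ B e ≤ T := by
    intro r hr
    obtain ⟨r', hr', hr'', a, e1⟩ := hPall (ρ r f - f) (by rw [map_sub, hr.2.1, sub_self])
    have h1 : ρ (r⁻¹ * r') f = f + a • e := by
      rw [rho_mul]
      apply rho_inv_eq_of_eq
      rw [map_add, map_smul, hr.1, e1, add_sub_cancel]
    obtain ⟨h2, h3⟩ := h.tv_of_radF he hf (mul_mem (inv_mem hr) hr'') h1
    simpa using mul_mem hr' (inv_mem (hb _ a h2 h3))
  have hfix : fixSub ρ ⊥ = ⊤ := eq_top_iff.2 fun g _ x hx => by simp [(Submodule.mem_bot F).1 hx]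
  refine h.sylow_le_of_radF (S := S) (fun v hv0 hv r hr hrS => ?_) ⊥ nondegOn_bot S
    (hfix ▸ hS) le_rfl
  obtain ⟨d, hd⟩ := htrans e v he0 hv0 he hv
  have h1 := h.conj_mem_radF (g := d⁻¹) hr
  rw [rho_inv_eq_of_eq ρ hd] at h1
  have h2 := hT _ (hRT h1) d (by simpa [mul_assoc] using hrS)
  simpa [mul_assoc] using h2

theorem aut [Finite V] (h : FormRep ρ B ε) (h4 : 4 ≤ finrank F V)
    {S : Subgroup G} (hS : IsSylowIn p S ⊤) {e : V} (he0 : e ≠ 0) (he : B e e = 0)
    (heS : ∀ s ∈ S, ρ s e = e) : normalizer (S : Set G) ≤ closure (goodSet p S) := by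
  have hR := h.radF_le hS heS
  have hE : ∀ s ∈ S, ∀ x ∈ Submodule.span F {e}, ρ s x ∈ Submodule.span F {e} :=
    fun s hs x hx => by rwa [fix_span (heS s hs) x hx]
  have hfix : ∀ a ∈ normalizer (S : Set G), ρ a e = e → a ∈ goodSet p S := by
    intro a ha hae
    refine Or.inr ⟨radF ρ B e, hR, fun s hs => h.mem_normalizer_radF (heS s hs), fun g hg => ?_,
      ?_, ha⟩
    · exact h.mem_radF_of_centralizes (p := p) he0 he (heS g hg.1) (mem_centralizer_iff.1 hg.2)
    obtain ⟨f, -, hf, -⟩ := h.exists_partner nondegOn_bot (mem_orth_bot e) he0 he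
    obtain ⟨r, hr, e2⟩ := h.exists_eichler (p := p) (f' := ρ a f) he hf
      (by rw [← hf]; conv_lhs => rw [← hae]
          exact h.isom _ _ _) (h.isom _ _ _)
    have h1 := h.mem_pGenFix (p := p) _
      (h.nondegOn_sup_pair nondegOn_bot (mem_orth_bot e) (mem_orth_bot f) he (by simp [hf]))
      (r⁻¹ * a) (fix_sup_pair (fun x hx => by simp [(Submodule.mem_bot F).1 hx])
        (by rw [rho_mul, hae, rho_inv_eq_of_eq ρ hr.1]) (by rw [rho_mul, rho_inv_eq_of_eq ρ e2]))
    have h2 := pGenFix_le_pGenNormalizer (R := radF ρ B e) (fun t ht => h.mem_normalizer_radF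
      (ht e (mem_sup_span_pair.2 ⟨0, Submodule.zero_mem _, 1, 0, by simp⟩))) h1
    simpa using mul_mem (mem_pGenNormalizer_of_pow (h.mem_normalizer_radF hr.1)
      (h.pow_eq_one_of_mem_radF hr)) h2
  obtain ⟨f, hf, hef, hff, hfS⟩ := h.exists_second h4 hS he0 he heS
  set L := Submodule.span F {e} ⊔ Submodule.span F {f} with hL
  have heL : e ∈ L := Submodule.mem_sup_left (Submodule.mem_span_singleton_self e)
  have hfL : f ∈ L := Submodule.mem_sup_right (Submodule.mem_span_singleton_self f)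
  have hLL : L ≤ orth B L := by
    rw [hL, orth_sup]
    refine sup_le ((Submodule.span_singleton_le_iff_mem _ _).2 ⟨?_, ?_⟩)
      ((Submodule.span_singleton_le_iff_mem _ _).2 ⟨?_, ?_⟩) <;>
      simp only [SetLike.mem_coe, mem_orth_span_singleton, he, hef, hff, h.sym_zero hef]
  have hstep : ∀ s ∈ S, ∀ x ∈ L, ρ s x - x ∈ Submodule.span F {e} := by
    intro s hs x hx
    obtain ⟨y, hy, c, rfl⟩ := mem_sup_span_singleton.1 hx
    have := Submodule.smul_mem _ c (hfS s hs)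
    convert this using 1
    simp only [map_add, map_smul, smul_sub, fix_span (heS s hs) y hy]; abel
  have hLS : ∀ s ∈ S, ∀ x ∈ L, ρ s x ∈ L :=
    fun s hs x hx => by simpa using add_mem (Submodule.mem_sup_left (hstep s hs x hx)) hx
  have hLS' : ∀ s ∈ S, ∀ x ∈ orth B L, ρ s x ∈ orth B L :=
    fun s hs x hx => h.orth_invariant (hLS _ (inv_mem hs)) hx
  have hES' : ∀ s ∈ S, ∀ x ∈ orth B (Submodule.span F {e}), ρ s x ∈ orth B (Submodule.span F {e}) :=
    fun s hs x hx => h.orth_invariant (hE _ (inv_mem hs)) hx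
  let R' : Subgroup G := S ⊓ fixSub ρ L
  have hbL' : ∀ b, (∀ x ∈ orth B L, ρ b x - x ∈ L) → ∀ x ∈ orth B L, ρ b⁻¹ x ∈ orth B L :=
    fun b hb x hx => h.orth_invariant (fun y hy => by
      simpa using add_mem (hb y (hLL hy)) hy) hx
  have hbL : ∀ b, (∀ x ∈ orth B L, ρ b x - x ∈ L) → ∀ x ∈ L, ρ b⁻¹ x ∈ L := fun b hb x hx => by
    have := sub_mem hx (hb _ (hbL' b hb x (hLL hx)))
    simpa [rho_self_inv] using this
  have hcomm : ∀ b, (∀ x ∈ orth B L, ρ b x - x ∈ L) → ∀ s ∈ S, ∀ x ∈ orth B L,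
      ρ (b * s * b⁻¹ * s⁻¹) x - x ∈ L := by
    intro b hb s hs x hx
    have e1 : b * s * b⁻¹ * s⁻¹ = b * (s * b⁻¹ * s⁻¹) := by group
    have h1 := hbL' b hb _ (hLS' _ (inv_mem hs) x hx)
    rw [e1, rho_mul_sub, rho_conj_sub]
    refine add_mem (hb _ ?_) (hLS s hs _ ?_)
    · rw [rho_mul, rho_mul]; exact hLS' s hs _ h1
    · have := neg_mem (hb _ h1)
      rwa [rho_self_inv, neg_sub] at this
  have horth : ∀ (k : G) (A C : Submodule F V), (∀ x ∈ C, ρ k x - x ∈ A) →
      (∀ x ∈ A, ρ k x = x) → ∀ x ∈ orth B A, ρ k x - x ∈ orth B C := by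
    intro k A C h1 h2 x hx l hl
    have h3 := h.isom k l x
    have h5 := h.isom k (ρ k l - l) x
    rw [h2 _ (h1 l hl), hx _ (h1 l hl), map_sub, LinearMap.sub_apply, h3] at h5
    rw [map_sub, ← neg_eq_zero, neg_sub, h5]
  have hnR : ∀ b, (∀ x ∈ orth B L, ρ b x - x ∈ L) → b ∈ normalizer (R' : Set G) := by
    intro b hb
    refine mem_normalizer_of_conj_mem fun s hs => ?_
    have h1 : ∀ x ∈ L, ρ (b * s * b⁻¹) x = x := fun x hx => by
      rw [rho_mul, rho_mul, hs.2 _ (hbL b hb x hx), rho_self_inv]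
    have h2 := hcomm b hb s hs.1
    have h3 : ∀ x ∈ L, ρ (b * s * b⁻¹ * s⁻¹) x = x := fun x hx => by
      rw [rho_mul, rho_inv_eq_of_eq ρ (hs.2 x hx), h1 x hx]
    have h5 : ∀ x, ρ (b * s * b⁻¹ * s⁻¹) x - x ∈ orth B L := fun x =>
      horth _ ⊥ L (fun y hy => by rw [h3 y hy, sub_self]; exact zero_mem _) (by simp) x
        (mem_orth_bot x)
    have h4 : b * s * b⁻¹ * s⁻¹ ∈ S := mem_sylow_of_chain5 h.inj hS hLL le_rfl le_rfl
      hLS hLS' hLS' hLS' h3 h2 (fun x _ => h5 x) (fun x _ => h5 x) h5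
    exact ⟨by simpa using S.mul_mem h4 hs.1, h1⟩
  have hR'n : S ≤ normalizer (R' : Set G) := fun s hs =>
    mem_normalizer_of_conj_mem fun g hg => ⟨S.mul_mem (S.mul_mem hs hg.1) (S.inv_mem hs),
      fun x hx => by rw [rho_mul, rho_mul, hg.2 _ (hLS _ (inv_mem hs) x hx), rho_self_inv]⟩
  have hf0 : f ≠ 0 := fun e => hf (by simp [e])
  have hR'c : S ⊓ centralizer (R' : Set G) ≤ R' := by
    rintro g ⟨hgS, hgc⟩
    refine ⟨hgS, fix_sup_span (fix_span (heS g hgS)) ?_⟩
    obtain ⟨y, -, hy, -⟩ := h.exists_partner nondegOn_bot (mem_orth_bot f) hf0 hff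
    obtain ⟨c, hc0, hc⟩ := h.exists_tv_scalar
    obtain ⟨t, ht⟩ := h.exists_tv hff hc
    have htL : ∀ x, ρ t x - x ∈ L := fun x => by simp [ht, L.smul_mem _ hfL]
    have ht1 : ∀ x ∈ L, ρ t x = x := fun x hx => by simp [ht, hLL hx f hfL]
    have htS : t ∈ S := mem_sylow_of_chain5 h.inj hS le_rfl le_rfl le_rfl hLS hLS hLS hLS ht1
      (fun x _ => htL x) (fun x _ => htL x) (fun x _ => htL x) htL
    have h4 := congrArg (fun a => ρ a y) (mem_centralizer_iff.1 hgc t ⟨htS, ht1⟩)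
    simp only [rho_mul, ht, map_add, hy, map_smul, add_right_inj, mul_one, mul_smul] at h4
    replace h4 := smul_right_injective V hc0 h4
    obtain ⟨β, hβ⟩ := Submodule.mem_span_singleton.1 (hfS g hgS)
    by_cases hc : B f (ρ g y) = 1
    · rw [← h4, hc, one_smul]
    · exfalso
      apply hf
      have : f = (B f (ρ g y) - 1)⁻¹ • β • e := by
        rw [hβ, ← h4]
        nth_rewrite 5 [← one_smul F f]
        rw [← sub_smul, smul_smul, inv_mul_cancel₀ (sub_ne_zero.2 hc), one_smul]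
      rw [this, smul_smul]
      exact smul_mem_span _ _
  intro a ha
  obtain ⟨c, hc⟩ := Submodule.mem_span_singleton.1 (h.mem_span_of_fixed (p := p) (v := ρ a e) he0 he
    fun t ht => by
      have h1 := heS _ (conj_mem_of_mem_normalizer (inv_mem ha) (hR ht))
      rw [inv_inv, rho_mul, rho_mul] at h1
      rw [← rho_self_inv ρ a (ρ t (ρ a e)), h1])
  have hc0 : c ≠ 0 := by
    rintro rfl
    exact he0 ((ρ a).map_eq_zero_iff.1 (by simpa using hc.symm))
  have hind : ∀ x y : F, x • e + y • f = 0 → x = 0 ∧ y = 0 := by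
    intro x y hxy
    have hy : y = 0 := by
      by_contra hy
      apply hf
      have : f = (-(y⁻¹ * x)) • e := by
        rw [neg_smul, mul_smul, ← smul_neg, neg_eq_of_add_eq_zero_right hxy, smul_smul,
          inv_mul_cancel₀ hy, one_smul]
      rw [this]; exact smul_mem_span _ _
    exact ⟨by simpa [hy, he0] using hxy, hy⟩
  have hshift : ∀ z ∈ L, ∀ x ∈ L, z ≠ 0 → x ∉ Submodule.span F {z} →
      ∃ d ∈ pGenNormalizer p R', (∀ y ∈ orth B L, ρ d y - y ∈ L) ∧ ρ d x = x + z := by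
    intro z hz x hx hz0 hxz
    obtain ⟨d, hd, e1⟩ := h.exists_shift (p := p) hz0 (hLL hz z hz) (hLL hx z hz) hxz
    have h1 : ∀ y ∈ orth B L, ρ d y - y ∈ L := fun y hy =>
      (Submodule.span_singleton_le_iff_mem _ _).2 hz (hd.2.2 y (hy z hz))
    exact ⟨d, mem_pGenNormalizer_of_pow (hnR d h1) (h.pow_eq_one_of_mem_radF hd), h1, e1⟩
  obtain ⟨d1, hd1, hd1L, e1⟩ := hshift (f - e) (sub_mem hfL heL) e heL
    (fun e0 => one_ne_zero (hind (-1) 1 (by rw [← e0]; module)).2) fun hm => by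
      obtain ⟨k, hk⟩ := Submodule.mem_span_singleton.1 hm
      obtain ⟨h1, h2⟩ := hind (-k - 1) k (by rw [← sub_eq_zero.2 hk]; module)
      simp [h2] at h1
  obtain ⟨d2, hd2, hd2L, e2⟩ := hshift (c • e - f) (sub_mem (L.smul_mem c heL) hfL) f hfL
    (fun e0 => hc0 (hind c (-1) (by rw [← e0]; module)).1) fun hm => by
      obtain ⟨k, hk⟩ := Submodule.mem_span_singleton.1 hm
      obtain ⟨h1, h2⟩ := hind (k * c) (-k - 1) (by rw [← sub_eq_zero.2 hk]; module)
      simp [(mul_eq_zero.1 h1).resolve_right hc0] at h2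
  have hbe : ρ (d2 * d1) e = c • e := by rw [rho_mul, e1, add_sub_cancel, e2, add_sub_cancel]
  have hb : ∀ x ∈ orth B L, ρ (d2 * d1) x - x ∈ L := fun x hx => by
    rw [rho_mul_sub]
    exact add_mem (hd2L _ (by simpa using add_mem (hLL (hd1L x hx)) hx)) (hd1L x hx)
  have hbp : d2 * d1 ∈ pGenNormalizer p R' := mul_mem hd2 hd1
  generalize d2 * d1 = b at hbe hb hbp
  have hbE : ∀ x ∈ Submodule.span F {e}, ρ b x ∈ Submodule.span F {e} := fun x hx => by
    obtain ⟨k, rfl⟩ := Submodule.mem_span_singleton.1 hx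
    rw [map_smul, hbe, smul_smul]; exact smul_mem_span _ _
  have hbS : b ∈ normalizer (S : Set G) := by
    refine mem_normalizer_of_conj_mem fun s hs => ?_
    have h2 := hcomm b hb s hs
    have hbe' : ρ b⁻¹ e = c⁻¹ • e := by
      apply (ρ b).injective
      rw [rho_self_inv, map_smul, hbe, smul_smul, inv_mul_cancel₀ hc0, one_smul]
    have h0 : ∀ x ∈ Submodule.span F {e}, ρ (b * s * b⁻¹ * s⁻¹) x = x := fix_span (by
      simp only [rho_mul, heS _ (inv_mem hs), hbe', map_smul, heS s hs, hbe, smul_smul,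
        inv_mul_cancel₀ hc0, one_smul])
    have h1 : ∀ x ∈ L, ρ (b * s * b⁻¹ * s⁻¹) x - x ∈ Submodule.span F {e} := fun x hx => by
      rw [rho_mul_sub, rho_conj_sub]
      exact add_mem (hbE _ (hstep s hs _ (hbL b hb _ (hLS _ (inv_mem hs) x hx))))
        (hstep _ (inv_mem hs) x hx)
    have h4 : b * s * b⁻¹ * s⁻¹ ∈ S :=
      mem_sylow_of_chain5 h.inj hS (D := orth B (Submodule.span F {e})) le_sup_left hLL
        (fun x hx u hu => hx u (Submodule.mem_sup_left hu)) hE hLS hLS' hES' h0 h1 h2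
        (horth _ _ _ h1 h0) fun x =>
          horth _ ⊥ _ (fun y hy => by rw [h0 y hy, sub_self]; exact zero_mem _) (by simp) x
            (mem_orth_bot x)
    simpa using mul_mem h4 hs
  have h1 : b ∈ goodSet p S := Or.inr ⟨R', inf_le_left, hR'n, hR'c, hbp, hbS⟩
  have h2 := hfix (b⁻¹ * a) (mul_mem (inv_mem hbS) ha)
    (by rw [rho_mul, ← hc, rho_inv_eq_of_eq ρ hbe])
  simpa using mul_mem (subset_closure h1) (subset_closure h2)

/-- Simplicity of the fusion system of the central quotient in the defining characteristic. -/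
theorem isSimple_quotient_center [Finite V] [Finite F] (h : FormRep ρ B ε) (h4 : 4 ≤ finrank F V)
    (hex : (∀ a, σ a = a) → (∃ α : F, α ≠ 0 ∧ α ≠ 1) ∨ 5 ≤ finrank F V)
    (S : Sylow p (G ⧸ center G)) :
    (groupFusionSystem (S : Subgroup (G ⧸ center G))).IsSimple p := by
  obtain ⟨S₀, hS⟩ := exists_isSylowIn p (⊤ : Subgroup G)
  have hb : S₀ ≠ ⊥ := by
    intro hb
    obtain ⟨u, -, hu0, hu⟩ := h.exists_isotropic_of_finrank nondegOn_bot
      (by rw [finrank_bot]; omega)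
    obtain ⟨f, -, hf, -⟩ := h.exists_partner nondegOn_bot (mem_orth_bot u) hu0 hu
    obtain ⟨c, hc0, hc⟩ := h.exists_tv_scalar
    obtain ⟨t, ht⟩ := h.exists_tv hu hc
    have h1 := h.radF_le hS (e := u) (fun s hs => by
      rw [hb, mem_bot] at hs; simp [hs]) (h.tv_mem_radF hu ht)
    rw [hb, mem_bot] at h1
    simpa [h1, hf, hc0, hu0] using ht f
  obtain ⟨e, he0, he, heS, -⟩ := h.exists_fixed_isotropic hS.isPGroup hb
  have hD : SimpleData p S₀ := ⟨hS, hb, h.closed h4 hex hS he0 he heS, h.aut h4 hS he0 he heS⟩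
  refine hD.isSimple_of_surjective (QuotientGroup.mk' _)
    (QuotientGroup.mk'_surjective _) (fun x hx hx1 => ?_) S
  have hc : x ∈ center G := (QuotientGroup.eq_one_iff x).1 hx1
  obtain ⟨f, -, hf, hff⟩ := h.exists_partner nondegOn_bot (mem_orth_bot e) he0 he
  obtain ⟨d, -, hd⟩ := h.exists_move (p := p) nondegOn_bot (by rw [finrank_bot]; omega)
    (mem_orth_bot e) (mem_orth_bot f) he hff (by simp [hf])
  refine h.radF_ext hf (h.mem_radF_of_centralizes (p := p) he0 he (heS x hx)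
    fun t _ => mem_center_iff.1 hc t) (one_mem _) ?_
  rw [map_one, LinearEquiv.coe_one, id, ← hd, ← rho_mul, ← mem_center_iff.1 hc d, rho_mul,
    heS x hx]

end FormRep

end Cfsg.Lib.Fus.Grp
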