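import Cfsg.Agent.Fus.FormRad

/-!
# Symplectic and special unitary groups: generation by `p`-elements and Sylow subgroups
-/

set_option autoImplicit false

namespace Cfsg.Lib.Fus.Grp

open Subgroup Module Cfsg.Lib.Class.Form

variable {G : Type*} [Group G] {F V : Type*} [Field F] [AddCommGroup V] [Module F V]
  {σ : F →+* F} {ρ : G →* (V ≃ₗ[F] V)} {B : V →ₛₗ[σ] V →ₗ[F] F} {ε : F}

theorem mem_orth_bot (v : V) : v ∈ orth B ⊥ := fun u hu => by simp [(Submodule.mem_bot F).1 hu]

theorem fix_sup_pair {X : Submodule F V} {g : G} {e f : V} (h : g ∈ fixSub ρ X)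
    (he : ρ g e = e) (hf : ρ g f = f) :
    g ∈ fixSub ρ (X ⊔ Submodule.span F {e} ⊔ Submodule.span F {f}) :=
  fix_sup_span (fix_sup_span h he) hf

theorem pGenFix_le_fixSub {p : ℕ} {X : Submodule F V} : pGenFix ρ p X ≤ fixSub ρ X :=
  fun _ hg => pGenFix_fix hg

namespace FormRep

theorem eq_of_mem_orth_pair (h : FormRep ρ B ε) {X : Submodule F V} (hX : NondegOn B X) {e f : V}
    (heX : e ∈ orth B X) (hfX : f ∈ orth B X)
    (ht : X ⊔ Submodule.span F {e} ⊔ Submodule.span F {f} = ⊤) {w : V} (hw : w ∈ orth B X) :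
    ∃ a b : F, w = a • e + b • f := by
  obtain ⟨x, hx, a, b, e1⟩ := mem_sup_span_pair.1 (ht ▸ Submodule.mem_top : w ∈ _)
  have h1 : x = 0 := h.eq_zero_of_mem_orth hX hx (by
    have : x = w - a • e - b • f := by rw [e1]; abel
    rw [this]
    exact sub_mem (sub_mem hw (Submodule.smul_mem _ _ heX)) (Submodule.smul_mem _ _ hfX))
  exact ⟨a, b, by rw [e1, h1, zero_add]⟩

theorem lt_sup_pair (h : FormRep ρ B ε) {X : Submodule F V} (hX : NondegOn B X) {e f : V}
    (heX : e ∈ orth B X) (he : B e e = 0) (hf : B e f = 1) :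
    X < X ⊔ Submodule.span F {e} ∧
      X ⊔ Submodule.span F {e} < X ⊔ Submodule.span F {e} ⊔ Submodule.span F {f} := by
  constructor
  · refine left_lt_sup.2 fun hle => ?_
    have := h.eq_zero_of_mem_orth hX (hle (Submodule.mem_span_singleton_self e)) heX
    simp [this] at hf
  · refine left_lt_sup.2 fun hle => ?_
    obtain ⟨x, hx, c, e1⟩ := mem_sup_span_singleton.1 (hle (Submodule.mem_span_singleton_self f))
    rw [e1, map_add, form_smul_right, he, h.sym_zero (heX x hx)] at hf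
    simp at hf

variable [FiniteDimensional F V]

theorem σ_eq_of_dim_two (h : FormRep ρ B ε) {X : Submodule F V} (hX : NondegOn B X) {e f : V}
    (heX : e ∈ orth B X) (hfX : f ∈ orth B X) (he : B e e = 0) (hf : B e f = 1) (hff : B f f = 0)
    (ht : X ⊔ Submodule.span F {e} ⊔ Submodule.span F {f} = ⊤) {g : G} (hg : g ∈ fixSub ρ X)
    {c : F} (hc0 : c ≠ 0) (hc : ρ g e = c • e) : σ c = c := by
  obtain ⟨ν, μ, e1⟩ := h.eq_of_mem_orth_pair hX heX hfX ht (h.orth_invariant_of_fix hg hfX)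
  have h1 : σ c * μ = 1 := by
    have := h.isom g e f
    simpa [hc, e1, form_smul_left, he, hf, mul_comm] using this
  have h2 : (ρ g : V →ₗ[F] V) = LinearMap.transvection (ε • B f) ((c - 1) • e) ∘ₗ
      LinearMap.transvection (B e) ((μ - 1) • f + (ν / c) • e) := by
    ext x
    obtain ⟨y, hy, a, b, rfl⟩ := mem_sup_span_pair.1 (ht ▸ Submodule.mem_top : x ∈ _)
    simp only [LinearEquiv.coe_coe, map_add, map_smul, hg y hy, hc, e1, LinearMap.comp_apply,
      LinearMap.transvection.apply, h.sym_zero (heX y hy), h.sym_zero (hfX y hy), he, hf, hff,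
      LinearMap.smul_apply, h.sym_one hf, smul_eq_mul, h.eps_sq, zero_smul, add_zero, mul_zero,
      one_smul]
    match_scalars <;> field_simp <;> ring
  have h3 := h.det g
  rw [h2, LinearMap.det_comp, LinearMap.transvection.det, LinearMap.transvection.det] at h3
  simp only [LinearMap.smul_apply, map_smul, map_add, h.sym_one hf, smul_eq_mul, he, hf,
    h.eps_sq] at h3
  linear_combination c * h1 - σ c * h3

variable {p : ℕ} [hp : Fact p.Prime] [CharP F p] [Finite G]

/-- The pointwise stabiliser of a non-degenerate subspace is generated by `p`-elements. -/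
theorem mem_pGenFix (h : FormRep ρ B ε) (X : Submodule F V) :
    NondegOn B X → ∀ g ∈ fixSub ρ X, g ∈ pGenFix ρ p X := by
  induction X using submodule_up_induction with
  | h X ih =>
  intro hX g hg
  by_cases hiso : ∃ e ∈ orth B X, e ≠ 0 ∧ B e e = 0
  swap
  · suffices g = 1 by rw [this]; exact one_mem _
    by_cases h0 : orth B X = ⊥
    · exact rho_ext h.inj fun v => by simpa using hg v (by simp [h.eq_top_of_orth h0])
    obtain ⟨d, hd, hd0⟩ := Submodule.exists_mem_ne_zero_of_ne_bot h0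
    have ht : X ⊔ Submodule.span F {d} = ⊤ := h.eq_top_of_orth (by
      by_contra hU
      exact hiso (h.exists_isotropic hX hd hd0 hU))
    have hdX : d ∉ X := fun hm => hd0 (h.eq_zero_of_mem_orth hX hm hd)
    obtain ⟨φ, h1, h2⟩ := exists_dual_eq_of_notMem hdX 1
    have h3 : ∀ x, ρ g x = x + φ x • (ρ g d - d) := fun x => by
      obtain ⟨w, hw, c, rfl⟩ := mem_sup_span_singleton.1 (ht ▸ Submodule.mem_top : x ∈ _)
      simp only [map_add, map_smul, hg w hw, h2 w hw, h1, smul_eq_mul, mul_one, zero_add, smul_sub]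
      abel
    have h4 : (ρ g : V →ₗ[F] V) = LinearMap.transvection φ (ρ g d - d) := by
      ext x; rw [LinearMap.transvection.apply]; exact h3 x
    have h5 := h.det g
    rw [h4, LinearMap.transvection.det, add_eq_left] at h5
    obtain ⟨w, hw, c, e1⟩ := mem_sup_span_singleton.1 (ht ▸ Submodule.mem_top : ρ g d - d ∈ _)
    have h6 : c = 0 := by simpa [e1, h2 w hw, h1] using h5
    rw [h6, zero_smul, add_zero] at e1
    have h7 : w = 0 := h.eq_zero_of_mem_orth hX hw
      (e1 ▸ sub_mem (h.orth_invariant_of_fix hg hd) hd)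
    exact rho_ext h.inj fun v => by simp [h3 v, e1, h7]
  obtain ⟨e, heX, he0, he⟩ := hiso
  obtain ⟨f, hfX, hf, hff⟩ := h.exists_partner hX heX he0 he
  obtain ⟨hlt1, hlt2⟩ := h.lt_sup_pair hX heX he hf
  have hge0 : ρ g e ≠ 0 := by simpa using he0
  have hgeX := h.orth_invariant_of_fix hg heX
  have hge : B (ρ g e) (ρ g e) = 0 := by rw [h.isom, he]
  have key : ∃ d ∈ pGenFix ρ p X, ρ d e = ρ g e := by
    by_cases ht : X ⊔ Submodule.span F {e} ⊔ Submodule.span F {f} = ⊤
    swap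
    · refine h.exists_trans hX ?_ heX hgeX he0 hge0 he hge
      have h1 := Submodule.finrank_lt_finrank_of_lt hlt1
      have h2 := Submodule.finrank_lt_finrank_of_lt hlt2
      have h3 := Submodule.finrank_lt ht
      omega
    have h1 : ∃ c : F, c ≠ 0 ∧ ∃ d ∈ pGenFix ρ p X, ρ d (ρ g e) = c • e := by
      by_cases hb : B (ρ g e) e = 0
      · obtain ⟨a, b, e1⟩ := h.eq_of_mem_orth_pair hX heX hfX ht hgeX
        have hb0 : b = 0 := by simpa [e1, he, hf] using h.sym_zero hb
        refine ⟨a, ?_, 1, one_mem _, by simp [e1, hb0]⟩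
        rintro rfl
        simp [e1, hb0] at hge0
      · exact h.exists_move_smul hgeX heX hge he hb
    obtain ⟨c, hc0, d1, hd1, e1⟩ := h1
    have hσ := h.σ_eq_of_dim_two hX heX hfX he hf hff ht (mul_mem (pGenFix_le_fixSub hd1) hg) hc0
      (by rw [rho_mul, e1])
    obtain ⟨c0, hc00, hc0'⟩ := h.exists_tv_scalar
    obtain ⟨d2, hd2, e2⟩ := h.exists_move_tv (p := p) heX (Submodule.smul_mem _ c0 hfX) he
      (by simp [hff]) (by simpa [hf]) (by
        rw [form_smul_right, hf, mul_one]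
        linear_combination ε * hc0' - c0 * h.eps_sq)
    obtain ⟨d3, hd3, e3⟩ := h.exists_move_tv (p := p) (Submodule.smul_mem _ c0 hfX)
      (Submodule.smul_mem _ c heX) (by simp [hff]) (by simp [he])
      (by simp [form_smul_left, h.sym_one hf, hc0, hc00, h.good.eps_ne]) (by
        simp only [form_smul_right, form_smul_left, h.sym_one hf, map_mul, hσ, h.σσ, h.σ_eps]
        linear_combination c * ε * hc0')
    exact ⟨d1⁻¹ * (d3 * d2), mul_mem (inv_mem hd1) (mul_mem hd3 hd2), by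
      rw [rho_mul, rho_mul, e2, e3, rho_inv_eq_of_eq ρ e1]⟩
  obtain ⟨d, hd, e1⟩ := key
  have hg1 : d⁻¹ * g ∈ fixSub ρ X := mul_mem (inv_mem (pGenFix_le_fixSub hd)) hg
  have hg1e : ρ (d⁻¹ * g) e = e := by rw [rho_mul, rho_inv_eq_of_eq ρ e1]
  obtain ⟨r, hr, hrX, e2⟩ := h.exists_eichler_fix (p := p) (f' := ρ (d⁻¹ * g) f) heX he hf
    (by rw [← hf]; conv_lhs => rw [← hg1e]
        exact h.isom _ _ _) (h.isom _ _ _) (sub_mem (h.orth_invariant_of_fix hg1 hfX) hfX)
  have h2 := ih _ (hlt1.trans hlt2) (h.nondegOn_sup_pair hX heX hfX he (by simp [hf]))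
    (r⁻¹ * (d⁻¹ * g)) (fix_sup_pair (mul_mem (inv_mem hrX) hg1)
      (by rw [rho_mul, hg1e, rho_inv_eq_of_eq ρ hr.1]) (by rw [rho_mul, rho_inv_eq_of_eq ρ e2]))
  have h3 : r ∈ pGenFix ρ p X := subset_closure ⟨hrX, h.pow_eq_one_of_mem_radF hr⟩
  simpa using mul_mem hd (mul_mem h3 (pGenFix_anti ρ p (hlt1.trans hlt2).le h2))

omit [FiniteDimensional F V] [Finite G] in
/-- A nontrivial `p`-group fixes an isotropic vector orthogonal to all its fixed vectors. -/
theorem exists_fixed_isotropic [Finite V] (h : FormRep ρ B ε) {S : Subgroup G} (hS : IsPGroup p S)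
    (h1 : S ≠ ⊥) : ∃ e, e ≠ 0 ∧ B e e = 0 ∧ (∀ s ∈ S, ρ s e = e) ∧
      ∀ x, (∀ s ∈ S, ρ s x = x) → B x e = 0 := by
  let M : Submodule F V := Submodule.span F {y | ∃ s ∈ S, ∃ x, y = ρ s x - x}
  have hM : ∀ x, (∀ s ∈ S, ρ s x = x) → ∀ y ∈ M, B x y = 0 := by
    intro x hx y hy
    induction hy using Submodule.span_induction with
    | mem y hy =>
      obtain ⟨s, hs, z, rfl⟩ := hy
      rw [map_sub, sub_eq_zero]
      conv_lhs => rw [← hx s hs]
      exact h.isom _ _ _
    | zero => simp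
    | add a b _ _ ha hb => simp [ha, hb]
    | smul a b _ hb => simp [hb]
  obtain ⟨e, he, he0, heS⟩ := exists_fixed_vector (ρ := ρ) hS (W := M) (by
    intro h0
    apply h1
    rw [eq_bot_iff]
    intro s hs
    refine rho_ext h.inj fun v => ?_
    have : ρ s v - v ∈ M := Submodule.subset_span ⟨s, hs, v, rfl⟩
    rw [h0, Submodule.mem_bot, sub_eq_zero] at this
    simpa using this) (fun s hs x hx => by
      have : ρ s x - x ∈ M := Submodule.subset_span ⟨s, hs, x, rfl⟩
      simpa using add_mem this hx)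
  exact ⟨e, he0, hM e heS e he, heS, fun x hx => hM x hx e he⟩

omit [FiniteDimensional F V] in
theorem radF_inf_le (h : FormRep ρ B ε) {X : Submodule F V} {S : Subgroup G}
    (hS : IsSylowIn p S (fixSub ρ X)) {e : V} (he : ∀ s ∈ S, ρ s e = e) :
    radF ρ B e ⊓ fixSub ρ X ≤ S :=
  hS.le_of_le_normalizer ((h.radF_isPGroup e).to_le inf_le_left) inf_le_right fun s hs =>
    mem_normalizer_inf (h.mem_normalizer_radF (he s hs)) (le_normalizer (hS.le hs))

omit [FiniteDimensional F V] in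
theorem radF_le (h : FormRep ρ B ε) {S : Subgroup G} (hS : IsSylowIn p S ⊤) {e : V}
    (he : ∀ s ∈ S, ρ s e = e) : radF ρ B e ≤ S :=
  hS.le_of_le_normalizer (h.radF_isPGroup e) le_top fun s hs => h.mem_normalizer_radF (he s hs)

/-- Sylow subgroups are generated by Eichler transformations. -/
theorem sylow_le_of_radF [Finite V] (h : FormRep ρ B ε) {S T : Subgroup G}
    (hT : ∀ v, v ≠ 0 → B v v = 0 → ∀ r ∈ radF ρ B v, r ∈ S → r ∈ T) (X : Submodule F V) :
    NondegOn B X → ∀ S', IsSylowIn p S' (fixSub ρ X) → S' ≤ S → S' ≤ T := by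
  induction X using submodule_up_induction with
  | h X ih =>
  intro hX S' hS' hle
  by_cases hb : S' = ⊥
  · rw [hb]; exact bot_le
  obtain ⟨e, he0, he, heS, hex⟩ := h.exists_fixed_isotropic hS'.isPGroup hb
  have heX : e ∈ orth B X := fun x hx => hex x fun s hs => hS'.le hs x hx
  obtain ⟨f, hfX, hf, -⟩ := h.exists_partner hX heX he0 he
  obtain ⟨hlt1, hlt2⟩ := h.lt_sup_pair hX heX he hf
  set X' := X ⊔ Submodule.span F {e} ⊔ Submodule.span F {f} with hX'
  have hR := h.radF_inf_le hS' heS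
  have hXX' : fixSub ρ X' ≤ fixSub ρ X := fun g hg x hx => hg x ((hlt1.trans hlt2).le hx)
  have hdec : ∀ s ∈ S', ∃ r ∈ radF ρ B e ⊓ fixSub ρ X, r⁻¹ * s ∈ S' ⊓ fixSub ρ X' := by
    intro s hs
    obtain ⟨r, hr, hrX, e2⟩ := h.exists_eichler_fix (p := p) (f' := ρ s f) heX he hf
      (by rw [← hf]; conv_lhs => rw [← heS s hs]
          exact h.isom _ _ _) (h.isom _ _ _)
      (sub_mem (h.orth_invariant_of_fix (hS'.le hs) hfX) hfX)
    exact ⟨r, ⟨hr, hrX⟩, S'.mul_mem (S'.inv_mem (hR ⟨hr, hrX⟩)) hs,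
      fix_sup_pair (mul_mem (inv_mem hrX) (hS'.le hs))
        (by rw [rho_mul, heS s hs, rho_inv_eq_of_eq ρ hr.1])
        (by rw [rho_mul, rho_inv_eq_of_eq ρ e2])⟩
  have hS'' : IsSylowIn p (S' ⊓ fixSub ρ X') (fixSub ρ X') := by
    refine ⟨inf_le_right, hS'.isPGroup.to_le inf_le_left, fun Q hQ hSQ hQX => ?_⟩
    have hQn : Q ≤ normalizer ((radF ρ B e ⊓ fixSub ρ X : Subgroup G) : Set G) := fun q hq =>
      mem_normalizer_inf (h.mem_normalizer_radF (hQX hq e
        (mem_sup_span_pair.2 ⟨0, X.zero_mem, 1, 0, by simp⟩))) (le_normalizer (hXX' (hQX hq)))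
    have h1 := hS'.maximal (Q ⊔ (radF ρ B e ⊓ fixSub ρ X))
      (hQ.to_sup_of_normal_right' ((h.radF_isPGroup e).to_le inf_le_left) hQn) (fun s hs => by
        obtain ⟨r, hr, hrs⟩ := hdec s hs
        simpa using mul_mem (mem_sup_right hr : r ∈ Q ⊔ _) (mem_sup_left (hSQ hrs)))
      (sup_le (hQX.trans hXX') inf_le_right)
    exact le_antisymm (le_inf (le_sup_left.trans h1.le) hQX) hSQ
  have h2 := ih X' (hlt1.trans hlt2) (h.nondegOn_sup_pair hX heX hfX he (by simp [hf])) _ hS''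
    (inf_le_left.trans hle)
  intro s hs
  obtain ⟨r, hr, hrs⟩ := hdec s hs
  simpa using mul_mem (hT e he0 he r hr.1 (hle (hR hr))) (h2 hrs)

omit hp [CharP F p] [Finite G] in
theorem mem_span_of_orth (h : FormRep ρ B ε) {e v : V} (hv : ∀ w, B e w = 0 → B w v = 0) :
    v ∈ Submodule.span F {e} := by
  rw [← h.good.orth_orth (Submodule.span F {e})]
  exact fun w hw => hv w (mem_orth_span_singleton.1 hw)

include hp in
theorem mem_radF_of_centralizes (h : FormRep ρ B ε) {e : V} (he0 : e ≠ 0) (he : B e e = 0) {g : G}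
    (hg : ρ g e = e) (hc : ∀ t ∈ radF ρ B e, t * g = g * t) : g ∈ radF ρ B e := by
  obtain ⟨f, -, hf, -⟩ := h.exists_partner nondegOn_bot (mem_orth_bot e) he0 he
  have hge : ∀ x, B e (ρ g x) = B e x := fun x => by
    conv_lhs => rw [← hg]
    exact h.isom _ _ _
  refine h.mem_radF.2 ⟨hg, fun w hw => ?_⟩
  obtain ⟨r, hr, a, e1⟩ := h.exists_eichler_add (p := p) he hf hw
  have h1 := congrArg (fun t => ρ t f) (hc r hr)
  have h2 : B e (ρ g f - f) = 0 := by rw [map_sub, hge, sub_self]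
  have h3 := h.radF_apply hf hr h2
  simp only [rho_mul, e1, map_add, map_smul, hg] at h1
  rw [map_sub, h1, e1] at h3
  have h4 : ρ g w - w = -((ε * B (f + w + a • e - f) (ρ g f - f)) • e) := by
    rw [eq_neg_iff_add_eq_zero, ← sub_eq_zero.2 h3]
    abel
  rw [h4]
  exact neg_mem (smul_mem_span _ _)

include hp in
theorem mem_span_of_fixed (h : FormRep ρ B ε) {e : V} (he0 : e ≠ 0) (he : B e e = 0) {v : V}
    (hv : ∀ t ∈ radF ρ B e, ρ t v = v) : v ∈ Submodule.span F {e} := by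
  obtain ⟨f, -, hf, -⟩ := h.exists_partner nondegOn_bot (mem_orth_bot e) he0 he
  obtain ⟨c, hc0, hc⟩ := h.exists_tv_scalar
  obtain ⟨t, ht⟩ := h.exists_tv he hc
  have h1 : B e v = 0 := by simpa [ht, hc0, he0] using hv t (h.tv_mem_radF he ht)
  refine h.mem_span_of_orth fun w hw => ?_
  obtain ⟨r, hr, a, e1⟩ := h.exists_eichler_add (p := p) he hf hw
  have h2 := h.radF_apply hf hr h1
  rw [hv r hr, e1, add_assoc, add_sub_cancel_left, eq_comm, sub_eq_self] at h2
  simpa [he0, h.good.eps_ne, form_smul_left, h1] using h2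

end FormRep

end Cfsg.Lib.Fus.Grp
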