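import Cfsg.Agent.Fus.SLFusion
import Cfsg.Agent.Class.FormOrth

/-!
# Symplectic and special unitary groups: Eichler transformations and generation by `p`-elements
-/

set_option autoImplicit false

namespace Cfsg.Lib.Fus.Grp

open Subgroup Module Cfsg.Lib.Class.Form

variable {G : Type*} [Group G] {F V : Type*} [Field F] [AddCommGroup V] [Module F V]
  {σ : F →+* F}

theorem form_smul_left (B : V →ₛₗ[σ] V →ₗ[F] F) (a : F) (u v : V) :
    B (a • u) v = σ a * B u v := by simp [map_smulₛₗ]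

theorem form_smul_right (B : V →ₛₗ[σ] V →ₗ[F] F) (a : F) (u v : V) :
    B u (a • v) = a * B u v := by simp

/-- `ρ` identifies `G` with the group of isometries of determinant one of `B`. -/
structure FormRep (ρ : G →* (V ≃ₗ[F] V)) (B : V →ₛₗ[σ] V →ₗ[F] F) (ε : F) : Prop where
  good : Good B ε
  eps_sq : ε * ε = 1
  σ_eps : σ ε = ε
  tr : ∀ w, ∃ s, s + ε * σ s = B w w
  rep : ∀ U, NondegOn B U → U ≠ ⊥ → ∀ s, ∃ d ∈ U, B d d = s + ε * σ s
  inj : Function.Injective ρ
  isom : ∀ g u v, B (ρ g u) (ρ g v) = B u v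
  det : ∀ g, LinearMap.det (ρ g : V →ₗ[F] V) = 1
  surj : ∀ f : V ≃ₗ[F] V, (∀ u v, B (f u) (f v) = B u v) → LinearMap.det (f : V →ₗ[F] V) = 1 →
    ∃ g, ρ g = f

/-- The unipotent radical of the stabiliser of an isotropic vector. -/
def radF [Finite G] (ρ : G →* (V ≃ₗ[F] V)) (B : V →ₛₗ[σ] V →ₗ[F] F) (e : V) : Subgroup G :=
  subgroupOfMulClosed {g | ρ g e = e ∧ (∀ x, B e (ρ g x) = B e x) ∧
      ∀ x, B e x = 0 → ρ g x - x ∈ Submodule.span F {e}} (by simp)
    fun a ha b hb => ⟨by rw [rho_mul, hb.1, ha.1], fun x => by rw [rho_mul, ha.2.1, hb.2.1],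
      fun x hx => by
        rw [rho_mul_sub]; exact add_mem (ha.2.2 _ (by rw [hb.2.1, hx])) (hb.2.2 x hx)⟩

/-- The pointwise stabiliser of a subspace. -/
def fixSub (ρ : G →* (V ≃ₗ[F] V)) (X : Submodule F V) : Subgroup G where
  carrier := {g | ∀ x ∈ X, ρ g x = x}
  one_mem' := by simp
  mul_mem' := fun {a b} ha hb x hx => by rw [rho_mul, hb x hx, ha x hx]
  inv_mem' := fun {a} ha x hx => rho_inv_eq_of_eq ρ (ha x hx)

variable {ρ : G →* (V ≃ₗ[F] V)} {B : V →ₛₗ[σ] V →ₗ[F] F} {ε : F}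

theorem mem_fixSub {X : Submodule F V} {g : G} : g ∈ fixSub ρ X ↔ ∀ x ∈ X, ρ g x = x := Iff.rfl

theorem mem_sup_span_pair {X : Submodule F V} {e f v : V} :
    v ∈ X ⊔ Submodule.span F {e} ⊔ Submodule.span F {f} ↔
      ∃ x ∈ X, ∃ a b : F, v = x + a • e + b • f := by
  simp only [mem_sup_span_singleton]
  constructor
  · rintro ⟨_, ⟨x, hx, a, rfl⟩, b, rfl⟩
    exact ⟨x, hx, a, b, rfl⟩
  · rintro ⟨x, hx, a, b, rfl⟩
    exact ⟨_, ⟨x, hx, a, rfl⟩, b, rfl⟩

theorem mem_orth_sup_span {X : Submodule F V} {e v : V} :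
    v ∈ orth B (X ⊔ Submodule.span F {e}) ↔ v ∈ orth B X ∧ B e v = 0 := by
  rw [orth_sup, Submodule.mem_inf, mem_orth_span_singleton]

namespace FormRep

theorem sym_one (h : FormRep ρ B ε) {e f : V} (hf : B e f = 1) : B f e = ε := by
  rw [h.good.sym, hf, map_one, mul_one]

theorem sym_zero (h : FormRep ρ B ε) {e f : V} (hf : B e f = 0) : B f e = 0 :=
  h.good.eq_zero_comm.1 hf

theorem σσ (h : FormRep ρ B ε) (a : F) : σ (σ a) = a := h.good.invol a

theorem exists_tv_scalar (h : FormRep ρ B ε) : ∃ c : F, c ≠ 0 ∧ ε * c + σ c = 0 := by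
  obtain ⟨t, ht, h1⟩ := h.good.trace 1 0 one_ne_zero
  refine ⟨t, ht, ?_⟩
  simp only [mul_one, map_zero, mul_zero, add_zero] at h1
  linear_combination ε * h1 - σ t * h.eps_sq

/-- The norm of `u + a e` can be made equal to any norm. -/
theorem exists_norm_eq (h : FormRep ρ B ε) {e u : V} (he : B e e = 0) (hu : B e u ≠ 0) (y : V) :
    ∃ a : F, B (u + a • e) (u + a • e) = B y y := by
  obtain ⟨s, hs⟩ := h.tr u
  obtain ⟨t, ht⟩ := h.tr y
  have hue : B u e ≠ 0 := fun e0 => hu (h.sym_zero e0)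
  refine ⟨(t - s) / B u e, ?_⟩
  simp only [map_add, LinearMap.add_apply, form_smul_left, form_smul_right, he]
  rw [h.good.sym e u, map_div₀, map_sub, ← hs, ← ht]
  have : σ (B u e) ≠ 0 := by rwa [Ne, h.good.σ_inj]
  field_simp
  ring

theorem exists_isotropic_add (h : FormRep ρ B ε) {e u : V} (he : B e e = 0) (hu : B e u ≠ 0) :
    ∃ a : F, B (u + a • e) (u + a • e) = 0 := by
  simpa using h.exists_norm_eq he hu 0

theorem isom_inv (h : FormRep ρ B ε) (g : G) (u v : V) : B (ρ g u) v = B u (ρ g⁻¹ v) := by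
  rw [← h.isom g u, rho_self_inv]

theorem orth_invariant (h : FormRep ρ B ε) {X : Submodule F V} {g : G}
    (hg : ∀ x ∈ X, ρ g⁻¹ x ∈ X) {v : V} (hv : v ∈ orth B X) : ρ g v ∈ orth B X := fun x hx => by
  rw [← rho_self_inv ρ g x, h.isom]
  exact hv _ (hg x hx)

theorem orth_invariant_of_fix (h : FormRep ρ B ε) {X : Submodule F V} {g : G}
    (hg : g ∈ fixSub ρ X) {v : V} (hv : v ∈ orth B X) : ρ g v ∈ orth B X :=
  h.orth_invariant (fun x hx => by rwa [(fixSub ρ X).inv_mem hg x hx]) hv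

theorem nondegOn_sup_pair (h : FormRep ρ B ε) {X : Submodule F V} (hX : NondegOn B X) {e f : V}
    (heX : e ∈ orth B X) (hfX : f ∈ orth B X) (he : B e e = 0) (hef : B e f ≠ 0) :
    NondegOn B (X ⊔ Submodule.span F {e} ⊔ Submodule.span F {f}) := by
  intro u hu hv
  obtain ⟨x, hx, a, b, rfl⟩ := mem_sup_span_pair.1 hu
  have hfe : B f e ≠ 0 := fun e0 => hef (h.sym_zero e0)
  have h1 := hv e (mem_sup_span_pair.2 ⟨0, X.zero_mem, 1, 0, by simp⟩)
  simp only [map_add, LinearMap.add_apply, form_smul_left, he, heX x hx, mul_zero, zero_add,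
    mul_eq_zero, hfe, or_false, h.good.σ_inj] at h1
  subst h1
  have h2 := hv f (mem_sup_span_pair.2 ⟨0, X.zero_mem, 0, 1, by simp⟩)
  simp only [map_add, LinearMap.add_apply, form_smul_left, hfX x hx, zero_add, zero_smul, add_zero,
    mul_eq_zero, hef, or_false, h.good.σ_inj] at h2
  subst h2
  simp only [zero_smul, add_zero] at hv ⊢
  exact hX x hx fun v hv' => hv v (mem_sup_span_pair.2 ⟨v, hv', 0, 0, by simp⟩)

theorem nondegOn_sup_single (h : FormRep ρ B ε) {X : Submodule F V} (hX : NondegOn B X) {d : V}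
    (hdX : d ∈ orth B X) (hd : B d d ≠ 0) : NondegOn B (X ⊔ Submodule.span F {d}) := by
  intro u hu hv
  obtain ⟨x, hx, a, rfl⟩ := mem_sup_span_singleton.1 hu
  have h1 := hv d (mem_sup_span_singleton.2 ⟨0, X.zero_mem, 1, by simp⟩)
  simp only [map_add, LinearMap.add_apply, form_smul_left, hdX x hx, zero_add,
    mul_eq_zero, hd, or_false, h.good.σ_inj] at h1
  subst h1
  simp only [zero_smul, add_zero] at hv ⊢
  exact hX x hx fun v hv' => hv v (Submodule.mem_sup_left hv')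

theorem nondegOn_bot : NondegOn B ⊥ := fun u hu _ => by simpa using hu

theorem eq_zero_of_mem_orth {X : Submodule F V} (h : FormRep ρ B ε) (hX : NondegOn B X) {x : V}
    (hx : x ∈ X) (hx' : x ∈ orth B X) : x = 0 :=
  hX x hx fun v hv => h.sym_zero (hx' v hv)

variable [FiniteDimensional F V]

theorem eq_top_of_orth (h : FormRep ρ B ε) {X : Submodule F V} (h0 : orth B X = ⊥) : X = ⊤ := by
  rw [← h.good.orth_orth X, h0]
  exact eq_top_iff.2 fun v _ u hu => by simp [(Submodule.mem_bot F).1 hu]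

theorem orth_ne_bot (h : FormRep ρ B ε) {X : Submodule F V} (hX : finrank F X < finrank F V) :
    orth B X ≠ ⊥ := fun h0 => by
  rw [h.eq_top_of_orth h0, finrank_top] at hX
  exact lt_irrefl _ hX

theorem exists_partner (h : FormRep ρ B ε) {X : Submodule F V} (hX : NondegOn B X) {e : V}
    (heX : e ∈ orth B X) (he0 : e ≠ 0) (he : B e e = 0) :
    ∃ f ∈ orth B X, B e f = 1 ∧ B f f = 0 := by
  have h1 : ∃ w ∈ orth B X, B e w ≠ 0 := by
    by_contra hc
    push Not at hc
    exact he0 (h.good.nondegOn_orth hX e heX hc)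
  obtain ⟨w, hw, hew⟩ := h1
  have h2 : B e ((B e w)⁻¹ • w) = 1 := by simp [hew]
  obtain ⟨a, ha⟩ := h.exists_isotropic_add he (u := (B e w)⁻¹ • w) (by simp [hew])
  exact ⟨_, add_mem (Submodule.smul_mem _ _ hw) (Submodule.smul_mem _ a heX),
    by rw [map_add, h2, form_smul_right, he, mul_zero, add_zero], ha⟩

theorem exists_form_eq_two (h : FormRep ρ B ε) {z x : V} (hz : z ≠ 0)
    (hx : x ∉ Submodule.span F {z}) (a b : F) : ∃ w, B w z = a ∧ B w x = b := by
  obtain ⟨φ, h1, h2, -⟩ := exists_dual_eq_two (W := (⊥ : Submodule F V)) (u := z) (v := x)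
    (by simpa) (by simpa) a b
  obtain ⟨w, hw⟩ := h.good.exists_eq_dual φ
  exact ⟨w, by rw [hw, h1], by rw [hw, h2]⟩

omit [FiniteDimensional F V] in
theorem finrank_sup_span_le [FiniteDimensional F V] (X : Submodule F V) (e : V) :
    finrank F (X ⊔ Submodule.span F {e} : Submodule F V) ≤ finrank F X + 1 := by
  have h1 := Submodule.finrank_add_le_finrank_add_finrank X (Submodule.span F {e})
  have h2 : finrank F (Submodule.span F {e}) ≤ 1 := by
    simpa using finrank_span_le_card (R := F) ({e} : Set V)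
  exact h1.trans (by omega)

/-- A non-degenerate subspace of codimension at least two is orthogonal to an isotropic vector. -/
theorem exists_isotropic (h : FormRep ρ B ε) {X : Submodule F V} (hX : NondegOn B X) {d : V}
    (hdX : d ∈ orth B X) (hd0 : d ≠ 0) (hU : orth B (X ⊔ Submodule.span F {d}) ≠ ⊥) :
    ∃ e ∈ orth B X, e ≠ 0 ∧ B e e = 0 := by
  by_cases hd : B d d = 0
  · exact ⟨d, hdX, hd0, hd⟩
  obtain ⟨s, hs⟩ := h.tr d
  obtain ⟨d', hd', e'⟩ := h.rep _ (h.good.nondegOn_orth (h.nondegOn_sup_single hX hdX hd)) hU (-s)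
  obtain ⟨h1, h2⟩ := mem_orth_sup_span.1 hd'
  refine ⟨d + d', add_mem hdX h1, fun e0 => hd ?_, ?_⟩
  · have := congrArg (B d) e0
    simpa [h2] using this
  · simp only [map_add, LinearMap.add_apply, h2, h.sym_zero h2, e', ← hs, map_neg]
    ring

theorem exists_isotropic_of_finrank (h : FormRep ρ B ε) {X : Submodule F V} (hX : NondegOn B X)
    (hr : finrank F X + 2 ≤ finrank F V) : ∃ e ∈ orth B X, e ≠ 0 ∧ B e e = 0 := by
  obtain ⟨d, hd, hd0⟩ := Submodule.exists_mem_ne_zero_of_ne_bot (h.orth_ne_bot (X := X) (by omega))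
  exact h.exists_isotropic hX hd hd0
    (h.orth_ne_bot (lt_of_le_of_lt (finrank_sup_span_le X d) (by omega)))

theorem exists_tv (h : FormRep ρ B ε) {e : V} (he : B e e = 0) {c : F} (hc : ε * c + σ c = 0) :
    ∃ t, ∀ x, ρ t x = x + (c * B e x) • e := by
  have hc' : ε * c + σ c + c * σ c * B e e = 0 := by rw [he, hc]; simp
  obtain ⟨t, ht⟩ := h.surj (reflEquiv B e c (h.good.one_add_ne hc')) (h.good.reflLin_isom hc')
    (by rw [← LinearEquiv.coe_det, det_reflEquiv, he]; simp)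
  exact ⟨t, fun x => by rw [ht, reflEquiv_apply]⟩

variable {p : ℕ} [hp : Fact p.Prime] [CharP F p]

include hp in
theorem exists_of_unipotent (h : FormRep ρ B ε) (f : V →ₗ[F] V) (hf : ∀ u v, B (f u) (f v) = B u v)
    {k : ℕ} (hn : (f - 1) ^ k = 0) : ∃ g, ∀ x, ρ g x = f x := by
  have hinj : Function.Injective f := by
    rw [← LinearMap.ker_eq_bot, LinearMap.ker_eq_bot']
    intro u hu
    exact h.good.sep u fun v => by rw [← hf, hu]; simp
  let f' : V ≃ₗ[F] V := LinearEquiv.ofInjectiveEndo f hinj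
  have h1 : f' ^ p ^ k = 1 :=
    pow_eq_one_of_nilpotent (ρ := MonoidHom.id _) (p := p) (fun _ _ e => e) hn
  have h2 : (LinearEquiv.det f' : F) ^ p ^ k = 1 := by
    rw [← Units.val_pow_eq_pow_val, ← map_pow, h1, map_one, Units.val_one]
  have h3 : ((LinearEquiv.det f' : F) - 1) ^ p ^ k = 0 := by
    rw [sub_pow_char_pow, h2, one_pow, sub_self]
  obtain ⟨g, hg⟩ := h.surj f' hf (by
    rw [← LinearEquiv.coe_det]; exact sub_eq_zero.1 (pow_eq_zero_iff (by
      exact pow_ne_zero _ hp.out.ne_zero) |>.1 h3))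
  exact ⟨g, fun x => by rw [hg]; rfl⟩

variable [Finite G]

omit [FiniteDimensional F V] hp [CharP F p] in
theorem mem_radF (h : FormRep ρ B ε) {e : V} {g : G} :
    g ∈ radF ρ B e ↔ ρ g e = e ∧ ∀ x, B e x = 0 → ρ g x - x ∈ Submodule.span F {e} :=
  ⟨fun hg => ⟨hg.1, hg.2.2⟩, fun hg => ⟨hg.1, fun x => by
    conv_lhs => rw [← hg.1]
    exact h.isom g e x, hg.2⟩⟩

include hp in
/-- Eichler transformations. -/
theorem exists_eichler (h : FormRep ρ B ε) {e f f' : V} (he : B e e = 0) (hf : B e f = 1)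
    (hf' : B e f' = 1) (hn : B f' f' = B f f) :
    ∃ r ∈ radF ρ B e, ρ r f = f' := by
  let r : V →ₗ[F] V := LinearMap.id + (B e).smulRight (f' - f) -
    (ε • (B (f' - f) ∘ₗ (LinearMap.id - (B e).smulRight f))).smulRight e
  have hr : ∀ u (a : F), B e u = 0 → r (u + a • f) = u - (ε * (B f' u - B f u)) • e + a • f' := by
    intro u a hu
    simp only [r, LinearMap.sub_apply, LinearMap.add_apply, LinearMap.id_apply,
      LinearMap.smulRight_apply, LinearMap.smul_apply, LinearMap.comp_apply, map_add, map_smul, hu,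
      hf, smul_eq_mul, mul_one, zero_add, map_sub, zero_smul, sub_zero, one_smul, sub_self,
      map_zero, mul_zero, add_zero]
    module
  have hd : ∀ v, ∃ u, ∃ a : F, B e u = 0 ∧ v = u + a • f := fun v =>
    ⟨v - B e v • f, B e v, by simp [hf], by simp⟩
  have hr0 : ∀ u, B e u = 0 → r u = u - (ε * (B f' u - B f u)) • e := fun u hu => by
    simpa using hr u 0 hu
  have hre : r e = e := by rw [hr0 e he, h.sym_one hf, h.sym_one hf']; simp
  have hiso : ∀ u v, B (r u) (r v) = B u v := by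
    intro u v
    obtain ⟨u, a, hu, rfl⟩ := hd u
    obtain ⟨v, b, hv, rfl⟩ := hd v
    rw [hr u a hu, hr v b hv]
    simp only [map_add, map_sub, LinearMap.add_apply, LinearMap.sub_apply, form_smul_left,
      form_smul_right, he, hv, h.sym_zero hu, hf', h.sym_one hf', hn, map_mul, h.σ_eps]
    rw [h.good.sym u f', h.good.sym u f]
    linear_combination (-(σ a) * (B f' v - B f v)) * h.eps_sq
  obtain ⟨g, hg⟩ := h.exists_of_unipotent (p := p) r hiso (k := 3) (by
    ext x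
    have e1 : ∀ y, (r - 1) y = r y - y := fun y => by simp
    simp only [pow_succ, pow_zero, one_mul, Module.End.mul_apply, e1, LinearMap.zero_apply]
    have e2 : B e (r x - x) = 0 := by
      rw [map_sub, sub_eq_zero]
      conv_lhs => rw [← hre]
      exact hiso e x
    rw [hr0 _ e2, sub_sub_cancel_left, map_neg, map_smul, hre, sub_self])
  refine ⟨g, h.mem_radF.2 ⟨by rw [hg, hre], fun x hx => ?_⟩, ?_⟩
  · rw [hg, hr0 x hx, sub_sub_cancel_left]
    exact neg_mem (smul_mem_span _ _)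
  · simpa [hg] using hr 0 1 (by simp)

omit [FiniteDimensional F V] hp [CharP F p] in
theorem radF_apply (h : FormRep ρ B ε) {e f : V} (hf : B e f = 1) {r : G} (hr : r ∈ radF ρ B e)
    {x : V} (hx : B e x = 0) : ρ r x = x - (ε * B (ρ r f - f) x) • e := by
  obtain ⟨c, hc⟩ := Submodule.mem_span_singleton.1 (hr.2.2 x hx)
  have h1 : ρ r x = x + c • e := by rw [hc]; abel
  have h2 := h.isom r f x
  have h3 : B (ρ r f) e = ε := by rw [← hr.1, h.isom, h.sym_one hf]
  rw [h1, map_add, form_smul_right, h3] at h2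
  rw [h1, sub_eq_add_neg, ← neg_smul]
  congr 2
  rw [map_sub, LinearMap.sub_apply]
  linear_combination ε * h2 - c * h.eps_sq

omit [FiniteDimensional F V] hp [CharP F p] in
theorem radF_ext (h : FormRep ρ B ε) {e f : V} (hf : B e f = 1) {r r' : G} (hr : r ∈ radF ρ B e)
    (hr' : r' ∈ radF ρ B e) (e1 : ρ r f = ρ r' f) : r = r' := by
  refine rho_ext h.inj fun v => ?_
  have hv : B e (v - B e v • f) = 0 := by simp [hf]
  have h1 := h.radF_apply hf hr hv
  have h2 := h.radF_apply hf hr' hv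
  rw [← e1, ← h1, map_sub, map_sub, map_smul, map_smul, e1] at h2
  exact (sub_left_inj.1 h2).symm

omit [FiniteDimensional F V] hp [CharP F p] in
theorem tv_of_radF (h : FormRep ρ B ε) {e f : V} (he : B e e = 0) (hf : B e f = 1) {r : G}
    (hr : r ∈ radF ρ B e) {c : F} (hc : ρ r f = f + c • e) :
    ε * c + σ c = 0 ∧ ∀ x, ρ r x = x + (c * B e x) • e := by
  constructor
  · have h1 := h.isom r f f
    simp only [hc, map_add, LinearMap.add_apply, form_smul_left, form_smul_right, he, hf,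
      h.sym_one hf] at h1
    linear_combination h1
  · intro v
    have hv : B e (v - B e v • f) = 0 := by simp [hf]
    have h1 := h.radF_apply hf hr hv
    rw [hc, add_sub_cancel_left, form_smul_left, hv, map_sub, map_smul, hc, sub_eq_iff_eq_add] at h1
    rw [h1]
    module

omit [FiniteDimensional F V] hp [CharP F p] in
theorem tv_mem_radF (h : FormRep ρ B ε) {e : V} (he : B e e = 0) {t : G} {c : F}
    (ht : ∀ x, ρ t x = x + (c * B e x) • e) : t ∈ radF ρ B e :=
  h.mem_radF.2 ⟨by simp [ht, he], fun x hx => by simp [ht, hx]⟩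

omit [FiniteDimensional F V] hp [CharP F p] in
theorem conj_mem_radF (h : FormRep ρ B ε) {e : V} {g t : G} (ht : t ∈ radF ρ B e) :
    g * t * g⁻¹ ∈ radF ρ B (ρ g e) := by
  refine h.mem_radF.2 ⟨by rw [rho_mul, rho_inv_self, rho_mul, ht.1], fun x hx => ?_⟩
  rw [rho_conj_sub]
  obtain ⟨c, hc⟩ := Submodule.mem_span_singleton.1 (ht.2.2 (ρ g⁻¹ x) (by rwa [← h.isom_inv]))
  rw [← hc, map_smul]
  exact smul_mem_span _ _

omit [FiniteDimensional F V] hp [CharP F p] in
theorem mem_normalizer_radF (h : FormRep ρ B ε) {e : V} {g : G} (hg : ρ g e = e) :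
    g ∈ normalizer (radF ρ B e : Set G) :=
  mem_normalizer_of_conj_mem fun x hx => by simpa [hg] using h.conj_mem_radF (g := g) hx

omit [FiniteDimensional F V] hp [CharP F p] [Finite G] in
theorem conj_tv (h : FormRep ρ B ε) {e : V} {t : G} {c : F} (g : G)
    (ht : ∀ x, ρ t x = x + (c * B e x) • e) (x : V) :
    ρ (g * t * g⁻¹) x = x + (c * B (ρ g e) x) • ρ g e := by
  rw [rho_mul, rho_mul, ht, map_add, map_smul, rho_self_inv, h.isom_inv]

omit [FiniteDimensional F V] in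
theorem pow_eq_one_of_mem_radF (h : FormRep ρ B ε) {e : V} {g : G} (hg : g ∈ radF ρ B e) :
    g ^ p ^ 3 = 1 :=
  pow_eq_one_of_chain3 h.inj (A := Submodule.span F {e}) (B := orth B (Submodule.span F {e}))
    (fix_span hg.1) (fun x hx => hg.2.2 x (mem_orth_span_singleton.1 hx))
    fun x => mem_orth_span_singleton.2 (by rw [map_sub, hg.2.1, sub_self])

omit [FiniteDimensional F V] in
theorem radF_isPGroup (h : FormRep ρ B ε) (e : V) : IsPGroup p (radF ρ B e) :=
  fun g => ⟨3, Subtype.ext (h.pow_eq_one_of_mem_radF g.2)⟩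

include hp in
theorem exists_eichler_fix (h : FormRep ρ B ε) {X : Submodule F V} {e f f' : V}
    (heX : e ∈ orth B X) (he : B e e = 0) (hf : B e f = 1) (hf' : B e f' = 1)
    (hn : B f' f' = B f f) (hX : f' - f ∈ orth B X) :
    ∃ r ∈ radF ρ B e, r ∈ fixSub ρ X ∧ ρ r f = f' := by
  obtain ⟨r, hr, e1⟩ := h.exists_eichler (p := p) he hf hf' hn
  refine ⟨r, hr, fun x hx => ?_, e1⟩
  rw [h.radF_apply hf hr (h.sym_zero (heX x hx)), e1, h.sym_zero (hX x hx)]
  simp

include hp in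
theorem exists_eichler_add (h : FormRep ρ B ε) {e f w : V} (he : B e e = 0) (hf : B e f = 1)
    (hw : B e w = 0) : ∃ r ∈ radF ρ B e, ∃ a : F, ρ r f = f + w + a • e := by
  obtain ⟨a, ha⟩ := h.exists_norm_eq he (u := f + w) (by simp [hf, hw]) f
  obtain ⟨r, hr, e1⟩ := h.exists_eichler (p := p) he hf (by simp [hf, hw, he]) ha
  exact ⟨r, hr, a, e1⟩

include hp in
theorem exists_shift (h : FormRep ρ B ε) {z x : V} (hz0 : z ≠ 0) (hz : B z z = 0) (hx : B z x = 0)
    (hxz : x ∉ Submodule.span F {z}) : ∃ r ∈ radF ρ B z, ρ r x = x + z := by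
  obtain ⟨f, -, hf, -⟩ := h.exists_partner nondegOn_bot (e := z) (fun u hu => by
    simp [(Submodule.mem_bot F).1 hu]) hz0 hz
  obtain ⟨w, h1, h2⟩ := h.exists_form_eq_two hz0 hxz 0 (-ε)
  obtain ⟨r, hr, a, e1⟩ := h.exists_eichler_add (p := p) hz hf (h.sym_zero h1)
  refine ⟨r, hr, ?_⟩
  rw [h.radF_apply hf hr hx, e1, add_assoc, add_sub_cancel_left]
  simp only [map_add, LinearMap.add_apply, form_smul_left, h2, hx, mul_zero, add_zero, mul_neg,
    h.eps_sq, neg_smul, one_smul, sub_neg_eq_add]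

/-- A transvection moves `x` to `y`. -/
theorem exists_move_tv (h : FormRep ρ B ε) {X : Submodule F V} {x y : V} (hxX : x ∈ orth B X)
    (hyX : y ∈ orth B X) (hx : B x x = 0) (hy : B y y = 0) (hxy : B x y ≠ 0)
    (hiso : B x y + ε * σ (B x y) = 0) : ∃ d ∈ pGenFix ρ p X, ρ d x = y := by
  have hyx : B y x = - B x y := by rw [h.good.sym y x]; linear_combination hiso
  have hu : B (y - x) (y - x) = 0 := by simp [hx, hy, hyx]
  have hσ : σ (B x y) ≠ 0 := by rwa [Ne, h.good.σ_inj]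
  obtain ⟨t, ht⟩ := h.exists_tv hu (c := - (B x y)⁻¹) (by
    rw [map_neg, map_inv₀]
    field_simp
    linear_combination (-1) * hiso)
  refine ⟨t, subset_closure ⟨fun v hv => ?_, h.pow_eq_one_of_mem_radF (h.tv_mem_radF hu ht)⟩, ?_⟩
  · simp [ht, h.sym_zero (hxX v hv), h.sym_zero (hyX v hv)]
  · simp [ht, hx, hyx, hxy]

theorem exists_move_smul (h : FormRep ρ B ε) {X : Submodule F V} {x y : V} (hxX : x ∈ orth B X)
    (hyX : y ∈ orth B X) (hx : B x x = 0) (hy : B y y = 0) (hxy : B x y ≠ 0) :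
    ∃ α : F, α ≠ 0 ∧ ∃ d ∈ pGenFix ρ p X, ρ d x = α • y := by
  obtain ⟨c, hc0, hc⟩ := h.exists_tv_scalar
  have h1 : B x ((c / B x y) • y) = c := by rw [form_smul_right, div_mul_cancel₀ _ hxy]
  refine ⟨c / B x y, div_ne_zero hc0 hxy, h.exists_move_tv hxX (Submodule.smul_mem _ _ hyX) hx
    (by simp [hy]) (by rwa [h1]) ?_⟩
  rw [h1]
  linear_combination ε * hc - c * h.eps_sq

theorem exists_move (h : FormRep ρ B ε) {X : Submodule F V} (hX : NondegOn B X)
    (hr : finrank F X + 2 < finrank F V) {x y : V} (hxX : x ∈ orth B X)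
    (hyX : y ∈ orth B X) (hx : B x x = 0) (hy : B y y = 0) (hxy : B x y ≠ 0) :
    ∃ d ∈ pGenFix ρ p X, ρ d x = y := by
  have hyx : B y x ≠ 0 := fun e0 => hxy (h.sym_zero e0)
  have hU : orth B (X ⊔ Submodule.span F {x} ⊔ Submodule.span F {y}) ≠ ⊥ :=
    h.orth_ne_bot (lt_of_le_of_lt ((finrank_sup_span_le _ y).trans
      (Nat.add_le_add_right (finrank_sup_span_le X x) 1)) hr)
  obtain ⟨d, hd, e1⟩ := h.rep _ (h.good.nondegOn_orth (h.nondegOn_sup_pair hX hxX hyX hx hxy)) hU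
    (-(ε * (B x y)⁻¹))
  obtain ⟨hd1, hdy⟩ := mem_orth_sup_span.1 hd
  obtain ⟨hdX, hdx⟩ := mem_orth_sup_span.1 hd1
  have hσ : σ (B x y) ≠ 0 := by rwa [Ne, h.good.σ_inj]
  have hσ' : σ (B y x) ≠ 0 := by rwa [Ne, h.good.σ_inj]
  set z := σ (B x y)⁻¹ • x + σ (B y x)⁻¹ • y + d with hz
  have hzx : B z x = 1 := by
    simp [hz, form_smul_left, hx, h.sym_zero hdx, h.σσ, hyx]
  have hzy : B z y = 1 := by
    simp [hz, form_smul_left, hy, h.sym_zero hdy, h.σσ, hxy]
  have hzz : B z z = 0 := by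
    have hzd : B z d = B d d := by simp [hz, form_smul_left, hdx, hdy]
    conv_lhs => enter [2]; rw [hz]
    rw [map_add, map_add, form_smul_right, form_smul_right, hzx, hzy, hzd, e1, h.good.sym y x]
    simp only [map_neg, map_mul, map_inv₀, h.σσ, h.σ_eps]
    have := h.good.eps_ne
    field_simp
    linear_combination (-ε * B x y - σ (B x y)) * h.eps_sq
  obtain ⟨r, hr, hrX, e2⟩ := h.exists_eichler_fix (p := p) (X := X) (add_mem (add_mem
    (Submodule.smul_mem _ _ hxX) (Submodule.smul_mem _ _ hyX)) hdX) hzz hzx hzy (hy.trans hx.symm)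
    (sub_mem hyX hxX)
  exact ⟨r, subset_closure ⟨hrX, h.pow_eq_one_of_mem_radF hr⟩, e2⟩

/-- Transitivity on isotropic vectors. -/
theorem exists_trans (h : FormRep ρ B ε) {X : Submodule F V} (hX : NondegOn B X)
    (hr : finrank F X + 2 < finrank F V) {x y : V} (hxX : x ∈ orth B X)
    (hyX : y ∈ orth B X) (hx0 : x ≠ 0) (hy0 : y ≠ 0) (hx : B x x = 0) (hy : B y y = 0) :
    ∃ d ∈ pGenFix ρ p X, ρ d x = y := by
  by_cases hxy : B x y = 0
  swap
  · exact h.exists_move hX hr hxX hyX hx hy hxy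
  obtain ⟨w1, hw1, e1, -⟩ := h.exists_partner hX hxX hx0 hx
  obtain ⟨w2, hw2, e2, -⟩ := h.exists_partner hX hyX hy0 hy
  have key : ∃ w ∈ orth B X, B x w ≠ 0 ∧ B y w ≠ 0 := by
    by_cases h1 : B y w1 = 0
    · by_cases h2 : B x w2 = 0
      · exact ⟨w1 + w2, add_mem hw1 hw2, by simp [e1, h2], by simp [e2, h1]⟩
      · exact ⟨w2, hw2, h2, by simp [e2]⟩
    · exact ⟨w1, hw1, by simp [e1], h1⟩
  obtain ⟨w, hw, h1, h2⟩ := key
  obtain ⟨a, ha⟩ := h.exists_isotropic_add hx h1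
  have hz := add_mem hw (Submodule.smul_mem _ a hxX)
  obtain ⟨d1, hd1, e3⟩ := h.exists_move (p := p) hX hr hxX hz hx ha (by simpa [hx])
  obtain ⟨d2, hd2, e4⟩ := h.exists_move (p := p) hX hr hyX hz hy ha (by simpa [h.sym_zero hxy])
  exact ⟨d2⁻¹ * d1, mul_mem (inv_mem hd2) hd1, by rw [rho_mul, e3, rho_inv_eq_of_eq ρ e4]⟩

end FormRep

end Cfsg.Lib.Fus.Grp
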