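/-
Fusion systems of `p`-solvable groups.
-/
import Cfsg.Agent.Fus.GrpImg
import Cfsg.Agent.Fus.Model
import Cfsg.Agent.Fus.Solvable
import Cfsg.Agent.Fus.TateCore
import Cfsg.Agent.Solv.PSolvable

set_option autoImplicit false

namespace Cfsg.Lib.Fus

open Cfsg Cfsg.FusionSystem Subgroup

section Groups

variable {M : Type*} [Group M] [Finite M] {p : ℕ} [Fact p.Prime] {A B I : Subgroup M}

theorem isPSolvable_of_resIn_le (h : resIn p A ≤ B) (hB : IsPSolvable p B) :
    IsPSolvable p A := by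
  have := normal_subgroupOf_of_le_normalizer
    (le_normalizer.trans (normalizer_le_normalizer_resIn (p := p) (A := A)))
  refine IsPSolvable.extension ((resIn p A).subgroupOf A) ((hB.of_le h).subgroupOf A)
    (IsPSolvable.of_isPGroup fun g => ?_)
  obtain ⟨a, rfl⟩ := QuotientGroup.mk_surjective g
  obtain ⟨k, hk⟩ := exists_pow_coprime (p := p) a.2
  exact ⟨k, (QuotientGroup.eq_one_iff _).2 (mem_resIn (pow_mem a.2 _) hk)⟩

theorem isPSolvable_of_pGenIn_le (h : pGenIn p A ≤ B)
    (hB : IsPSolvable p B) : IsPSolvable p A := by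
  have := normal_subgroupOf_of_le_normalizer
    (le_normalizer.trans (normalizer_le_normalizer_pGenIn (p := p) (A := A)))
  obtain ⟨T, hT⟩ := exists_sylIn p A
  exact IsPSolvable.extension ((pGenIn p A).subgroupOf A) ((hB.of_le h).subgroupOf A)
    (IsPSolvable.of_coprime ((Fact.out : p.Prime).coprime_iff_not_dvd.2 fun h' =>
      hT.not_dvd_relIndex (h'.trans (relIndex_dvd_of_le_left A (le_pGenIn hT.pgroup hT.le)))).symm)

theorem subsingleton_of_pSolvable_perfect (G : Type*) [Group G] [Finite G] (h : IsPSolvable p G) :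
    resIn p (⊤ : Subgroup G) = ⊤ → pGenIn p (⊤ : Subgroup G) = ⊤ → Subsingleton G := by
  refine h.induction (P := fun G _ _ => resIn p (⊤ : Subgroup G) = ⊤ →
    pGenIn p (⊤ : Subgroup G) = ⊤ → Subsingleton G) (fun _ _ _ h _ _ => h) ?_ G
  intro G _ _ N _ _ _ hN ih h1 h2
  have h3 := map_top_of_surjective _ (QuotientGroup.mk'_surjective N)
  obtain rfl := QuotientGroup.subgroup_eq_top_of_subsingleton N
    (ih (by rw [← h3, ← map_resIn, h1]) (by rw [← h3, ← map_pGenIn, h2]))
  refine Subgroup.subsingleton_iff.1 (subsingleton_of_bot_eq_top (hN.elim (fun h => ?_) fun h => ?_))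
  · rw [← h1, isPGroup_iff_resIn_eq_bot.1 h]
  · refine h2 ▸ (eq_bot_iff.2 (pGenIn_le_iff.2 fun a ha k hk => ?_)).symm
    exact mem_of_pow_mem_coprime (hk ▸ pow_orderOf_eq_one a) h
      (congrArg Subtype.val (pow_card_eq_one' (x := (⟨a, ha⟩ : (⊤ : Subgroup G)))))

theorem le_of_pSolvable_perfect (h : IsPSolvable p A) (hI : I ≤ A)
    (hn : A ≤ normalizer (I : Set M)) (h1 : A ≤ resIn p A ⊔ I) (h2 : A ≤ pGenIn p A) : A ≤ I := by
  have := normal_subgroupOf_of_le_normalizer hn
  have h3 := map_top_of_surjective _ (QuotientGroup.mk'_surjective (I.subgroupOf A))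
  have h4 : (⊤ : Subgroup A).map A.subtype = A := by rw [← MonoidHom.range_eq_map, range_subtype]
  refine subgroupOf_eq_top.1 (QuotientGroup.subgroup_eq_top_of_subsingleton _
    (subsingleton_of_pSolvable_perfect _ (h.quotient _) ?_ ?_))
  · rw [← h3, ← map_resIn, ← sup_bot_eq (map _ _), ← (map_eq_bot_iff (I.subgroupOf A)).2
      (QuotientGroup.ker_mk' _).ge, ← Subgroup.map_sup]
    congr 1
    refine top_le_iff.1 ((map_le_map_iff_of_injective A.subtype_injective).1 ?_)
    rwa [Subgroup.map_sup, map_resIn, h4, map_subgroupOf_eq_of_le hI]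
  · rw [← h3, ← map_pGenIn]
    congr 1
    refine top_le_iff.1 ((map_le_map_iff_of_injective A.subtype_injective).1 ?_)
    rwa [map_pGenIn, h4]

end Groups

variable {Ω : Type*} [Group Ω] {S T P Q R : Subgroup Ω} {F : FusionSystem S} {E : FusionSystem T}
  {p : ℕ}

theorem MulOn.inv_mul_mem_centralizer {f : Ω → Ω} (hf : MulOn P f) (hQ : Q ≤ P)
    (h : ∀ y ∈ Q, f y = y) {x : Ω} (hx : x ∈ P) (hn : x ∈ normalizer (Q : Set Ω)) :
    x⁻¹ * f x ∈ centralizer (Q : Set Ω) := fun y hy => by
  have h1 := hf.map_conj hx (hQ hy)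
  rw [h _ (conj_mem_of_mem_normalizer hn hy), h y hy] at h1
  calc y * (x⁻¹ * f x) = x⁻¹ * (x * y * x⁻¹) * f x := by group
    _ = _ := by rw [h1]; group

/-- `F` is constrained and `Aut_F(O_p(F))` is `p`-solvable. -/
def PSolvSys (F : FusionSystem S) (p : ℕ) : Prop :=
  centralizerIn S F.core ≤ F.core ∧ IsPSolvable p (F.autGroup F.core)

theorem autGroup_le_stabAut (hQ : F.StronglyClosed Q) (hP : P ≤ S) (hQP : Q ≤ P) :
    F.autGroup P ≤ stabAut P Q := fun α hα x => by
  by_cases hx : x ∈ P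
  · exact (piso_pext_of_mem hP hα).mor.mem_stronglyClosed_iff hQ hx
  · exact iff_of_false (fun h => hx ((pext_mem_iff α x).1 (hQP h))) fun h => hx (hQP h)

variable [Finite S] [Fact p.Prime]

theorem model_isPSolvable_iff {G : Type*} [Group G] {ι : S →* G} (hG : F.IsModel p G ι) :
    IsPSolvable p G ↔ IsPSolvable p (F.autGroup F.core) := by
  have := hG.1
  have := finite_of_le (core_le (F := F))
  obtain ⟨M, -⟩ := exists_absModel_of_isModel (model_isCentric_core hG) hG
  refine ⟨fun h => (congrArg (fun A : Subgroup _ => IsPSolvable p A) M.ρ_range).mp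
    (h.of_surjective _ M.ρ.rangeRestrict_surjective), fun h => IsPSolvable.of_ker_range M.ρ
      (IsPSolvable.of_isPGroup ((((model_isPGroup hG).to_subgroup ⊤).map M.ι).to_le
        fun l hl => ?_)) ((congrArg (fun A : Subgroup _ => IsPSolvable p A) M.ρ_range).mpr h)⟩
  obtain ⟨q, rfl⟩ := M.ker l hl
  exact mem_map_of_mem _ (mem_top _)

variable (hS : IsPGroup p S) (hF : F.IsSaturated p)
include hS hF

theorem pSolvSys_of_isNormal (hQ : F.IsNormal Q)
    (hC : centralizerIn S Q ⊓ F.hyperfocalSubgroup p ≤ Q) (hA : IsPSolvable p (F.autGroup Q)) :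
    PSolvSys F p := by
  have hs := stronglyClosed_of_isNormal hQ
  have key : ∀ P, Q ≤ P → P ≤ S →
      IsPGroup p (F.autGroup P ⊓ fixAut P Q : Subgroup (MulAut P)) := fun P hQP hP => by
    have := finite_of_le hP
    refine isPGroup_iff_resIn_eq_bot.2 (eq_bot_iff.2 (resIn_le_iff.2 fun c hc hcp =>
      aut_ext_pext fun x hx => (TrivMod.fix_of_coprime (hS.to_le hQ.1) (mulOn_pext c) hQP
        (pPrimeOn_pext.2 hcp) (fun y hy => hC ⟨⟨hP (P.mul_mem (P.inv_mem hy) (pext_mem c hy)),
          (mulOn_pext c).inv_mul_mem_centralizer hQP hc.2 hy (le_normalizer_of_isNormal hQ (hP hy))⟩,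
          mem_hyperfocal_of_resIn hP (mem_resIn hc.1 hcp) hy⟩) hc.2 x hx).trans (pext_one x).symm))
  have h1 := weaklyClosed_of_stronglyClosed (stronglyClosed_centralizerIn_of_isNormal hQ)
  have h2 : F.IsNormal (centralizerIn S Q) := isNormal_of_weaklyClosed_of_le_cr hS hF h1
    fun P hP hc hr => le_of_radical hS (isCentric_self hc) hr centralizerIn_le
      (hP.1.trans (le_normalizer_of_weaklyClosed h1)) fun x hx hxN => by
        have hQP := IsNormal.le_of_radical hS hQ (isCentric_self hc) hr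
        exact le_pCoreIn inf_le_left (key P hQP hP.1) (fun a ha β hβ =>
          ⟨Subgroup.mul_mem _ (Subgroup.mul_mem _ ha hβ.1) (Subgroup.inv_mem _ ha),
            conj_mem_fixAut (autGroup_le_stabAut hs hP.1 hQP ha) hβ.2⟩)
          ⟨conjAut_mem_autGroup F hP.1 hx.1 hxN, fun y hy => by
            rw [pext_conjAut hxN (hQP hy), (mem_centralizerIn'.1 hx).2 y hy]⟩
  have h3 := le_core hQ
  have := finite_of_le (core_le (F := F))
  have := finite_of_le hQ.1
  have h4 := autGroup_le_stabAut hs core_le h3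
  refine ⟨(centralizerIn_anti h3).trans (le_core h2), IsPSolvable.of_ker_range
    ((resAut h3).comp (inclusion h4)) (IsPSolvable.of_isPGroup (((key _ h3 core_le).comap_subtype
      (K := F.autGroup F.core)).to_le fun α hα => ?_)) (hA.of_le ?_)⟩
  · exact ⟨α.2, (resAut_eq_one_iff h3 ⟨α, h4 α.2⟩).1 hα⟩
  rintro _ ⟨α, rfl⟩
  exact mem_autGroup_of_mor ((piso_pext_of_mem core_le α.2).mor.restrict h3)
    fun x hx => pext_resAut h3 ⟨α, h4 α.2⟩ hx

omit hF in
theorem PSolvSys.of_sub (h : PSolvSys F p) (hF : F.IsSaturated p) (hE : E.IsSaturated p)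
    (hEF : E.IsSubsystemOf F) (hT : F.StronglyClosed T) : PSolvSys E p := by
  have := finite_of_le hT.1
  have := finite_of_le (core_le (F := F))
  have hQ := isNormal_core F
  have h1 := stronglyClosed_inf (stronglyClosed_of_isNormal hQ) hT
  have := finite_of_le h1.1
  refine pSolvSys_of_isNormal (hS.to_le hT.1) hE (IsNormal.of_sub hS
    (isNormal_of_stronglyClosed_of_le hQ h1 inf_le_left) hE hEF inf_le_right) (inf_le_left.trans (le_inf
      (centralizerIn_core_inf_le hS (isConstrained_of_isNormal hF hQ h.1) hT) centralizerIn_le))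
    (((h.2.subgroupOf _).map (resAut (inf_le_left : F.core ⊓ T ≤ F.core))).of_le fun α hα => ?_)
  obtain ⟨g, -, e, hg⟩ := IsNormal.exists_piso hQ (piso_pext_of_mem h1.1 (autGroup_mono hEF hα)).mor
  exact (mem_resSub inf_le_left).2 ⟨hg.aut, hg.aut_mem, fun x hx => by
    rw [hg.pext_aut hx.1, e x hx]⟩

theorem PSolvSys.of_invariant (h : PSolvSys E p) (hE : E.IsInvariantIn F)
    (hT : F.hyperfocalSubgroup p ≤ T) (hA : resIn p (F.autGroup E.core) ≤ E.autGroup E.core ∨
      pGenIn p (F.autGroup E.core) ≤ E.autGroup E.core) : PSolvSys F p := by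
  have hQ := isNormal_core_of_invariant hS hF hE
  have := finite_of_le hQ.1
  exact pSolvSys_of_isNormal hS hF hQ (fun x hx => h.1 ⟨hT hx.2, hx.1.2⟩)
    (hA.elim (isPSolvable_of_resIn_le · h.2) (isPSolvable_of_pGenIn_le · h.2))

/-- A system of a `p`-solvable group equal to its `p`- and `p'`-residuals is trivial. -/
theorem PSolvSys.eq_bot (h : PSolvSys F p) (h1 : S ≤ F.hyperfocalSubgroup p)
    (h2 : F.IsSubsystemOf (ppRes F p)) : S = ⊥ := by
  have hQ := isNormal_core F
  have := finite_of_le hQ.1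
  have hn := le_normalizer_of_isNormal hQ
  have hI : IsPGroup p (Inn F.core) := autInducedBy_self F.core ▸
    isPGroup_autInducedBy (hS.to_le hQ.1) F.core
  obtain ⟨F₀, h3, -, h4, -⟩ := exists_normal_of_pprime_quotient hS hF
    (inner_weaklyNormal_of_isNormal hS hF hQ) (K := pGenIn p (F.autGroup F.core))
    (fun α hα => le_pGenIn hI (inn_le_autGroup F hQ.1) (mem_inn_pext.2 (mor_inner.1
      ((mem_autGroup_pext le_rfl).1 hα)).2)) (fun γ hγ k hk => by
        obtain ⟨m, j, e, e'⟩ := exists_pow_ppart (p := p) γ k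
        exact mem_of_pow_mem_of_modEq (mem_pGenIn_of_pow (pow_mem hγ m) e) hk e')
    (pGenIn_le _) fun γ hγ α hα => conj_mem_pGenIn (le_normalizer hγ) hα
  have h5 : F.autGroup F.core ≤ Inn F.core := le_of_pSolvable_perfect h.2 (inn_le_autGroup F hQ.1)
    le_normalizer_of_normal (fun α hα => by
      obtain ⟨b, hb, t, ht, rfl⟩ := (sat_sylIn hS hF
        (isFullyNormalized_of_le_normalizer hQ.1 hn)).exists_resIn_mul hα
      obtain ⟨s, hs, e⟩ := mem_autInducedBy_pext.1 ht
      obtain ⟨β, hβ, e'⟩ := cj_hyperfocal_mem hS hF (stronglyClosed_of_isNormal hQ) (h1 hs)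
      exact mul_mem (mem_sup_left hb)
        (aut_ext_pext (fun x hx => (e' x hx).symm.trans (e x hx).symm) ▸ hβ))
    (h4 ▸ autGroup_mono (sub_trans h2 (pPrimeResidual_sub_of_weaklyNormal hS hF
      (isPPrimeResidual_ppRes hS hF) h3.1)))
  have h6 : F.core = S := core_le.antisymm fun s hs => (conjAut_mem_inn_iff h.1 hQ.1
    (a := s) ⟨hs, hn hs⟩).1 (h5 (conjAut_mem_autGroup F hQ.1 hs (hn hs)))
  exact eq_bot_iff.2 (h1.trans (hyperfocal_eq_bot_iff.2 (isNil_of_isNormal_top
    ((congrArg F.IsNormal h6).mp hQ) ((congrArg (PNil F p) h6).mp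
      ((pNil_iff hQ.1).2 (hI.to_le h5))))).le)

theorem PSolvSys.terminating (h : PSolvSys F p) : F.HasTerminatingResidualSeries p := by
  refine sub_induction (F := F) (C := fun E => E.IsSaturated p → PSolvSys E p →
    E.HasTerminatingResidualSeries p) (fun {T} E hEF ih hE h => ?_) hF h
  have := finite_of_le (le_of_isSubsystemOf hEF)
  have hT := hS.to_le (le_of_isSubsystemOf hEF)
  have h1 := isPPrimeResidual_ppRes hT hE
  obtain ⟨D, hD⟩ := exists_pResidual hT h1.1
  have h2 := sub_trans hD.2.1 h1.2.1.1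
  by_cases h3 : E.IsSubsystemOf D
  · exact .trivial E p (h.eq_bot hT hE ((le_of_isSubsystemOf h3).trans (hyperfocal_mono h1.2.1.1))
      (sub_trans h3 hD.2.1))
  · exact .step E _ p D h1 hD (ih D h2 h3 hD.1 ((h.of_sub hT hE h1.1 h1.2.1.1
      (stronglyClosed_top E)).of_sub hT h1.1 hD.1 hD.2.1 (stronglyClosed_hyperfocal hT h1.1)))

omit hS hF [Finite S] [Fact p.Prime] in
theorem pSolvSys_of_terminating (h : F.HasTerminatingResidualSeries p) :
    ∀ [Finite S] [Fact p.Prime], IsPGroup p S → F.IsSaturated p → PSolvSys F p := by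
  induction h with
  | trivial F p h =>
    intro _ _ hS hF
    have := finite_of_le (core_le (F := F))
    refine ⟨centralizerIn_le.trans (h.le.trans bot_le), IsPSolvable.of_isPGroup
      ((pNil_iff core_le).1 ?_)⟩
    rw [eq_bot_iff.2 (core_le.trans h.le)]
    exact pNil_bot F
  | step F E p D h1 h2 _ ih =>
    intro _ _ hS hF
    have hH := (stronglyClosed_hyperfocal hS h1.1).1
    have := finite_of_le hH
    exact ((ih (hS.to_le hH) h2.1).of_invariant hS h1.1 (pResidual_normal hS h1.1 h2).1.2.2 le_rfl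
      (Or.inl ((hasPPowerIndexIn_iff.1 h2.2).2.2 _ core_le))).of_invariant hS hF
        (pPrimeResidual_normal hS hF h1).1.2.2 (stronglyClosed_hyperfocal hS hF).1
        (Or.inr ((hasPrimeToPIndexIn_iff.1 h1.2.1).2 _ core_le))

end Cfsg.Lib.Fus
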