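import Mathlib.GroupTheory.FreeGroup.NielsenSchreier
import Mathlib.GroupTheory.FreeGroup.Reduce
import Mathlib.GroupTheory.SemidirectProduct
import Mathlib.GroupTheory.OrderOfElement
import Mathlib.GroupTheory.Index

/-!
# The group of lifts of a group action on a graph to its universal cover
-/

set_option autoImplicit false

namespace Cfsg.Lib.Fus.PathGrp

open FreeGroup

universe u

section Words
variable {E : Type*} [DecidableEq E] {a b : FreeGroup E} {x : E × Bool} {L : List (E × Bool)}

theorem norm_inv_head_mul (h : a.toWord = x :: L) : norm ((mk [x])⁻¹ * a) + 1 = norm a := by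
  have h1 : IsReduced L := (h ▸ isReduced_toWord (x := a)).infix (List.infix_cons List.infix_rfl)
  have h2 : a = mk [x] * mk L := by rw [mul_mk, List.singleton_append, ← h, mk_toWord]
  rw [norm, norm, h, h2, inv_mul_cancel_left, toWord_mk, h1.reduce_eq, List.length_cons]

theorem norm_inv_mul_of_head_ne (h : a.toWord = x :: L) (hb : b.toWord.head? ≠ some x) :
    norm (a⁻¹ * b) = norm a + norm b := by
  have h1 : IsReduced (a⁻¹.toWord ++ b.toWord) := by
    refine List.isChain_append.2 ⟨isReduced_toWord, isReduced_toWord, fun y hy z hz e => ?_⟩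
    rw [toWord_inv, h, invRev, List.map_cons, List.reverse_cons, List.getLast?_concat,
      Option.mem_def, Option.some_inj] at hy
    subst hy
    by_contra h'
    refine hb (hz.trans (congrArg some (Prod.ext e.symm ?_)))
    revert h'
    cases x.2 <;> cases z.2 <;> simp
  rw [norm, toWord_mul, h1.reduce_eq, List.length_append, ← norm, norm_inv_eq, norm, norm]

theorem norm_inv_head_mul_lt (h : a.toWord = x :: L) (h2 : 2 ≤ norm a) (b : FreeGroup E) :
    norm ((mk [x])⁻¹ * b) < max (norm b) (norm (a⁻¹ * b)) := by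
  by_cases hb : b.toWord.head? = some x
  · obtain ⟨M, hM⟩ := List.head?_eq_some_iff.1 hb
    exact lt_max_of_lt_left (by rw [← norm_inv_head_mul hM]; exact Nat.lt_succ_self _)
  · refine lt_max_of_lt_right ?_
    have h3 := norm_mul_le (mk [x])⁻¹ b
    have h4 : norm (mk [x]) ≤ 1 := norm_mk_le
    rw [norm_inv_eq] at h3
    rw [norm_inv_mul_of_head_ne h hb]
    omega

end Words

section Paths
variable {V E : Type*} (s t : E → V)

/-- The initial vertex of an oriented edge. -/
def src (x : E × Bool) : V := bif x.2 then s x.1 else t x.1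

/-- The terminal vertex of an oriented edge. -/
def tgt (x : E × Bool) : V := bif x.2 then t x.1 else s x.1

/-- A word is a path between two vertices. -/
def IsPath : V → List (E × Bool) → V → Prop
  | v, [], v' => v = v'
  | v, x :: L, v' => src s t x = v ∧ IsPath (tgt s t x) L v'

variable {s t} {v v' v'' : V} {L L' : List (E × Bool)}

theorem isPath_append : IsPath s t v (L ++ L') v'' ↔ ∃ v', IsPath s t v L v' ∧ IsPath s t v' L' v'' := by
  induction L generalizing v with
  | nil => simp [IsPath]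
  | cons x L ih => simp [IsPath, ih, and_assoc]

theorem IsPath.red (h : IsPath s t v L v') (hr : Red L L') : IsPath s t v L' v' := by
  induction hr with
  | refl => exact h
  | tail _ h2 ih =>
    rcases h2 with @⟨L₁, L₂, x, b⟩
    obtain ⟨w, h3, h4, h5, h6⟩ := isPath_append.1 ih
    refine isPath_append.2 ⟨w, h3, ?_⟩
    rw [← h4]
    cases b <;> exact h6

theorem IsPath.invRev (h : IsPath s t v L v') : IsPath s t v' (invRev L) v := by
  induction L generalizing v with
  | nil => exact h.symm
  | cons x L ih =>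
    rw [FreeGroup.invRev, List.map_cons, List.reverse_cons]
    refine isPath_append.2 ⟨_, ih h.2, ?_⟩
    rw [← h.1]
    obtain ⟨e, b⟩ := x
    cases b <;> exact ⟨rfl, rfl⟩

theorem IsPath.iff (h : IsPath s t v L v') {Ψ : V → Prop} (hΨ : ∀ x ∈ L, Ψ (s x.1) ↔ Ψ (t x.1)) :
    Ψ v ↔ Ψ v' := by
  induction L generalizing v with
  | nil => rw [show v = v' from h]
  | cons x L ih =>
    rw [← ih h.2 fun y hy => hΨ y (List.mem_cons_of_mem _ hy), ← h.1]
    have := hΨ x List.mem_cons_self
    obtain ⟨e, b⟩ := x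
    cases b
    · exact this.symm
    · exact this

theorem IsPath.toWord [DecidableEq E] (h : IsPath s t v L v') : IsPath s t v (mk L).toWord v' :=
  h.red reduce.red

end Paths

variable {K V E : Type u} [Group K] [MulAction K V] [MulAction K E] {s t : E → V}

/-- The action on the free group on the edges. -/
def act (K E : Type u) [Group K] [MulAction K E] : K →* MulAut (FreeGroup E) where
  toFun k := freeGroupCongr (MulAction.toPerm k)
  map_one' := MulEquiv.toMonoidHom_injective (ext_hom _ _ fun e => by simp)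
  map_mul' k l := MulEquiv.toMonoidHom_injective (ext_hom _ _ fun e => by simp [mul_smul])

theorem act_mk (k : K) (L : List (E × Bool)) :
    act K E k (mk L) = mk (L.map fun x => (k • x.1, x.2)) := rfl

theorem toWord_act [DecidableEq E] (k : K) (w : FreeGroup E) :
    (act K E k w).toWord = w.toWord.map fun x => (k • x.1, x.2) := by
  conv_lhs => rw [← mk_toWord (x := w), act_mk, toWord_mk]
  exact IsReduced.reduce_eq (List.isChain_map _ |>.2
    (isReduced_toWord.imp fun a b h e => h (MulAction.injective k e)))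

theorem norm_act [DecidableEq E] (k : K) (w : FreeGroup E) : norm (act K E k w) = norm w := by
  rw [norm, toWord_act, List.length_map, norm]

theorem IsPath.smul (hs : ∀ (k : K) e, s (k • e) = k • s e) (ht : ∀ (k : K) e, t (k • e) = k • t e)
    (k : K) {v v' : V} {L : List (E × Bool)} (h : IsPath s t v L v') :
    IsPath s t (k • v) (L.map fun x => (k • x.1, x.2)) (k • v') := by
  induction L generalizing v with
  | nil => exact congrArg _ h
  | cons x L ih =>
    have := ih h.2
    obtain ⟨e, b⟩ := x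
    rw [← h.1]
    cases b
    · exact ⟨ht k e, (congrArg (IsPath s t · _ _) (hs k e)).mpr this⟩
    · exact ⟨hs k e, (congrArg (IsPath s t · _ _) (ht k e)).mpr this⟩

/-- The group of pairs of a group element `k` and a path from the base vertex to its translate. -/
def pathGrp (hs : ∀ (k : K) e, s (k • e) = k • s e) (ht : ∀ (k : K) e, t (k • e) = k • t e)
    (v₀ : V) : Subgroup (FreeGroup E ⋊[act K E] K) where
  carrier := {g | ∃ L, mk L = g.left ∧ IsPath s t v₀ L (g.right • v₀)}
  one_mem' := ⟨[], rfl, (one_smul K v₀).symm⟩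
  mul_mem' := by
    rintro g h ⟨L, e, hL⟩ ⟨M, e', hM⟩
    refine ⟨L ++ M.map fun x => (g.right • x.1, x.2), ?_, isPath_append.2 ⟨_, hL, ?_⟩⟩
    · rw [SemidirectProduct.mul_left, ← e, ← e', act_mk, mul_mk]
    · rw [SemidirectProduct.mul_right, mul_smul]; exact hM.smul hs ht _
  inv_mem' := by
    rintro g ⟨L, e, hL⟩
    refine ⟨(invRev L).map fun x => (g.right⁻¹ • x.1, x.2), ?_, ?_⟩
    · rw [SemidirectProduct.inv_left, ← e, inv_mk, act_mk]
    · simpa using hL.invRev.smul hs ht g.right⁻¹

theorem left_inv_mul (g h : FreeGroup E ⋊[act K E] K) :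
    (g⁻¹ * h).left = act K E g.right⁻¹ (g.left⁻¹ * h.left) := by simp

theorem left_conj_inr_eq_one {g : FreeGroup E ⋊[act K E] K} {a : K} :
    (g⁻¹ * SemidirectProduct.inr a * g).left = 1 ↔ act K E a g.left = g.left := by
  rw [mul_assoc, left_inv_mul, EmbeddingLike.map_eq_one_iff, inv_mul_eq_one, eq_comm]
  simp

theorem norm_ne_one_of_isOfFinOrder [DecidableEq E] {g : FreeGroup E ⋊[act K E] K}
    (h : IsOfFinOrder g) : norm g.left ≠ 1 := fun e => by
  let D : FreeGroup E ⋊[act K E] K →* Multiplicative ℤ :=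
    SemidirectProduct.lift (FreeGroup.lift fun _ => Multiplicative.ofAdd 1) 1 fun k =>
      ext_hom _ _ fun e => by simp [act]
  have h1 : D g = 1 := (D.isOfFinOrder h).eq_one'
  obtain ⟨⟨x, b⟩, hx⟩ := List.length_eq_one_iff.1 e
  have h2 : g.left = mk [(x, b)] := by rw [← hx, mk_toWord]
  have h3 : D g = FreeGroup.lift (fun _ => Multiplicative.ofAdd (1 : ℤ)) g.left := mul_one _
  rw [h3, h2, lift_mk] at h1
  cases b <;> simp at h1

theorem exists_pathGrp (hs : ∀ (k : K) e, s (k • e) = k • s e)
    (ht : ∀ (k : K) e, t (k • e) = k • t e) (v₀ : V) (htr : ∀ v, ∃ k : K, k • v₀ = v) :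
    ∃ (G : Type u) (_ : Group G) (ρ : G →* K) (j : MulAction.stabilizer K v₀ →* G),
      (∀ a, ρ (j a) = a) ∧ IsFreeGroup ρ.ker ∧
      (∀ H : Subgroup G, Finite H → ∃ g, ∀ h ∈ H, g * h * g⁻¹ ∈ j.range) ∧
      (∀ e (k : K), s e = v₀ → t e = k • v₀ → ∃ τ, ∀ a b : MulAction.stabilizer K v₀,
        (a : K) • e = e → k⁻¹ * a * k = b → τ⁻¹ * j a * τ = j b) ∧
      ∀ (g : G) (Ψ : V → Prop), (∀ e, (∀ a, g⁻¹ * j a * g ∈ j.range → (a : K) • e = e) →
        (Ψ (s e) ↔ Ψ (t e))) → Ψ v₀ → Ψ (ρ g • v₀) := by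
  classical
  let G := pathGrp hs ht v₀
  let j : MulAction.stabilizer K v₀ →* G :=
    (SemidirectProduct.inr.comp (MulAction.stabilizer K v₀).subtype).codRestrict G fun a =>
      ⟨[], rfl, a.2.symm⟩
  have hp : ∀ g : G, IsPath s t v₀ g.1.left.toWord (g.1.right • v₀) := fun ⟨g, L, e, hL⟩ => by
    simpa only [e] using hL.toWord
  have hj : ∀ g : G, g ∈ j.range ↔ g.1.left = 1 := fun g => by
    refine ⟨fun ⟨a, e⟩ => e ▸ rfl, fun e => ?_⟩
    have := hp g
    rw [e, toWord_one] at this
    exact ⟨⟨g.1.right, this.symm⟩, Subtype.ext (SemidirectProduct.ext e.symm rfl)⟩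
  refine ⟨G, inferInstance, SemidirectProduct.rightHom.comp G.subtype, j, fun _ => rfl, ?_,
    fun H _ => ?_, fun e k h1 h2 => ?_, fun g Ψ h1 h2 => ?_⟩
  · let φ : (SemidirectProduct.rightHom.comp G.subtype).ker →* FreeGroup E := MonoidHom.mk'
      (fun g => g.1.1.left) fun g h => by
        have : g.1.1.right = 1 := g.2
        simp [this]
    exact IsFreeGroup.ofMulEquiv (MonoidHom.ofInjective (f := φ) fun g h e => Subtype.ext
      (Subtype.ext (SemidirectProduct.ext e ((show g.1.1.right = 1 from g.2).trans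
        (show h.1.1.right = 1 from h.2).symm)))).symm
  · have := Fintype.ofFinite H
    let R : G → ℕ := fun g => Finset.univ.sup fun h : H => norm (g⁻¹ * h : G).1.left
    have hR : ∀ g (h : H), norm (g⁻¹ * h : G).1.left ≤ R g := fun g h =>
      Finset.le_sup (f := fun h : H => norm (g⁻¹ * h : G).1.left) (Finset.mem_univ h)
    obtain ⟨g, hg⟩ : ∃ g, ∀ g', R g ≤ R g' :=
      ⟨Function.argmin R, fun g' => Function.argmin_le R g'⟩
    refine ⟨g⁻¹, fun h hh => (hj _).2 (norm_eq_zero.1 ?_)⟩
    rw [inv_inv]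
    have h1 : norm (g⁻¹ * h * g).1.left ≠ 1 := norm_ne_one_of_isOfFinOrder
      (by simpa using ((G.subtype.comp ((MulAut.conj g⁻¹).toMonoidHom.comp H.subtype)).isOfFinOrder
        (isOfFinOrder_of_finite ⟨h, hh⟩)))
    by_contra h0
    obtain ⟨x, L, hx⟩ := List.exists_cons_of_ne_nil fun e : (g⁻¹ * h * g).1.left.toWord = [] =>
      h0 (norm_eq_zero.2 (toWord_eq_nil_iff.1 e))
    obtain ⟨k, hk⟩ := htr (tgt s t x)
    let τ : G := ⟨⟨mk [x], k⟩, _, rfl, (hx ▸ hp (g⁻¹ * h * g)).1, hk.symm⟩
    have h2 : ∀ y : H, norm ((g * τ)⁻¹ * y : G).1.left < R g := fun y => by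
      have h3 := norm_inv_head_mul_lt hx (by omega) (g⁻¹ * y : G).1.left
      have h4 := hR g (⟨h, hh⟩⁻¹ * y)
      rw [show (g⁻¹ * ((⟨h, hh⟩⁻¹ * y : H) : G)) = (g⁻¹ * h * g)⁻¹ * (g⁻¹ * y) by
        simp [mul_assoc], Subgroup.coe_mul, Subgroup.coe_inv, left_inv_mul, norm_act] at h4
      rw [mul_inv_rev, mul_assoc, Subgroup.coe_mul, Subgroup.coe_inv, left_inv_mul, norm_act]
      exact h3.trans_le (max_le (hR g y) h4)
    exact (hg (g * τ)).not_gt ((Finset.sup_lt_iff ((Nat.zero_le _).trans_lt (h2 1))).2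
      fun y _ => h2 y)
  · refine ⟨⟨⟨mk [(e, true)], k⟩, _, rfl, h1, h2⟩, fun a b h3 h4 => Subtype.ext
      (SemidirectProduct.ext (left_conj_inr_eq_one.2 ?_) h4)⟩
    exact congrArg (fun y => mk [(y, true)]) h3
  · refine ((hp g).iff fun x hx => h1 _ fun a ha => ?_).1 h2
    have h3 := congrArg toWord (left_conj_inr_eq_one.1 ((hj _).1 ha))
    rw [toWord_act] at h3
    exact congrArg Prod.fst (List.map_inj_left.1 (h3.trans (List.map_id _).symm) x hx)

end Cfsg.Lib.Fus.PathGrp
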