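import Cfsg.Agent.Fus.LinSylow

/-!
# The fusion system of `SL(V)` in the defining characteristic
-/

set_option autoImplicit false

namespace Cfsg.Lib.Fus.Grp

open Subgroup Module

variable {G : Type*} [Group G] {F V : Type*} [Field F] [AddCommGroup V] [Module F V]

/-- `ρ` identifies `G` with `SL(V)`. -/
structure SLRep (ρ : G →* (V ≃ₗ[F] V)) : Prop where
  inj : Function.Injective ρ
  det : ∀ g, LinearMap.det (ρ g : V →ₗ[F] V) = 1
  tv : ∀ (φ : V →ₗ[F] F) (v : V), φ v = 0 → ∃ g, ∀ x, ρ g x = x + φ x • v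

/-- The subgroup generated by the `p`-elements fixing `X` pointwise. -/
def pGenFix (ρ : G →* (V ≃ₗ[F] V)) (p : ℕ) (X : Submodule F V) : Subgroup G :=
  closure {t | (∀ x ∈ X, ρ t x = x) ∧ t ^ p ^ 3 = 1}

theorem pGenFix_anti (ρ : G →* (V ≃ₗ[F] V)) (p : ℕ) {X Y : Submodule F V} (h : X ≤ Y) :
    pGenFix ρ p Y ≤ pGenFix ρ p X :=
  closure_mono fun _ ht => ⟨fun x hx => ht.1 x (h hx), ht.2⟩

theorem pGenFix_fix {ρ : G →* (V ≃ₗ[F] V)} {p : ℕ} {X : Submodule F V} {g : G}
    (hg : g ∈ pGenFix ρ p X) : ∀ x ∈ X, ρ g x = x := by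
  induction hg using closure_induction with
  | mem t ht => exact ht.1
  | one => simp
  | mul a b _ _ ha hb => intro x hx; rw [rho_mul, hb x hx, ha x hx]
  | inv a _ ha => intro x hx; exact rho_inv_eq_of_eq ρ (ha x hx)

theorem pGenFix_le_pGenNormalizer {ρ : G →* (V ≃ₗ[F] V)} {p : ℕ} [Fact p.Prime]
    {X : Submodule F V} {R : Subgroup G}
    (h : ∀ t, (∀ x ∈ X, ρ t x = x) → t ∈ normalizer (R : Set G)) :
    pGenFix ρ p X ≤ pGenNormalizer p R :=
  (closure_le _).2 fun t ht => mem_pGenNormalizer_of_pow (h t ht.1) ht.2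

theorem fix_sup_span {ρ : G →* (V ≃ₗ[F] V)} {X : Submodule F V} {g : G} {y : V}
    (h : ∀ x ∈ X, ρ g x = x) (hy : ρ g y = y) : ∀ x ∈ X ⊔ Submodule.span F {y}, ρ g x = x := by
  intro x hx
  obtain ⟨w, hw, c, rfl⟩ := mem_sup_span_singleton.1 hx
  rw [map_add, map_smul, h w hw, hy]

theorem fix_span {ρ : G →* (V ≃ₗ[F] V)} {g : G} {y : V} (hy : ρ g y = y) :
    ∀ x ∈ Submodule.span F {y}, ρ g x = x := by
  intro x hx
  obtain ⟨c, rfl⟩ := Submodule.mem_span_singleton.1 hx
  rw [map_smul, hy]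

theorem smul_mem_span (c : F) (y : V) : c • y ∈ Submodule.span F {y} :=
  Submodule.smul_mem _ _ (Submodule.mem_span_singleton_self y)

theorem notMem_of_fix {ρ : G →* (V ≃ₗ[F] V)} {X : Submodule F V} {g : G} {y : V}
    (h : ∀ x ∈ X, ρ g x = x) (hy : y ∉ X) : ρ g y ∉ X := fun hgy => by
  have := (ρ g).injective (h _ hgy)
  exact hy (this ▸ hgy)

/-- The transvections with centre `e`. -/
def radE [Finite G] (ρ : G →* (V ≃ₗ[F] V)) (e : V) : Subgroup G :=
  subgroupOfMulClosed {g | ρ g e = e ∧ ∀ x, ρ g x - x ∈ Submodule.span F {e}} (by simp)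
    fun a ha b hb => ⟨by rw [rho_mul, hb.1, ha.1], fun x => by
      rw [rho_mul_sub]; exact add_mem (ha.2 _) (hb.2 x)⟩

variable {ρ : G →* (V ≃ₗ[F] V)}

theorem mem_radE [Finite G] {e : V} {g : G} :
    g ∈ radE ρ e ↔ ρ g e = e ∧ ∀ x, ρ g x - x ∈ Submodule.span F {e} := Iff.rfl

theorem mem_radE_of_tv [Finite G] {φ : V →ₗ[F] F} {v : V} (h : φ v = 0) {g : G}
    (hg : ∀ x, ρ g x = x + φ x • v) : g ∈ radE ρ v :=
  ⟨by simp [hg, h], fun x => by simp [hg, smul_mem_span]⟩

theorem exists_tv_of_mem_radE [Finite G] {e : V} (he : e ≠ 0) {g : G} (hg : g ∈ radE ρ e) :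
    ∃ φ : V →ₗ[F] F, φ e = 0 ∧ ∀ x, ρ g x = x + φ x • e := by
  obtain ⟨l, hl, -⟩ := exists_dual_eq_of_notMem (W := (⊥ : Submodule F V)) (v := e) (by simpa) 1
  refine ⟨l ∘ₗ ((ρ g : V →ₗ[F] V) - LinearMap.id), by simp [hg.1], fun x => ?_⟩
  obtain ⟨c, hc⟩ := Submodule.mem_span_singleton.1 (hg.2 x)
  have : l (ρ g x - x) = c := by rw [← hc]; simp [hl]
  simp only [LinearMap.comp_apply, LinearMap.sub_apply, LinearEquiv.coe_coe, LinearMap.id_apply,
    this, hc, add_sub_cancel]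

theorem conj_mem_radE [Finite G] {e : V} {g t : G} (ht : t ∈ radE ρ e) :
    g * t * g⁻¹ ∈ radE ρ (ρ g e) := by
  refine ⟨by rw [rho_mul, rho_inv_self, rho_mul, ht.1], fun x => ?_⟩
  rw [rho_conj_sub]
  obtain ⟨c, hc⟩ := Submodule.mem_span_singleton.1 (ht.2 (ρ g⁻¹ x))
  rw [← hc, map_smul]
  exact smul_mem_span _ _

theorem radE_smul [Finite G] {e : V} {c : F} (hc : c ≠ 0) : radE ρ (c • e) = radE ρ e := by
  ext g
  simp only [mem_radE, map_smul, Submodule.span_singleton_smul_eq hc.isUnit,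
    (smul_right_injective V hc).eq_iff]

variable {p : ℕ} [hp : Fact p.Prime] [CharP F p] [Finite G]

theorem pow_eq_one_of_mem_radE (hi : Function.Injective ρ) {e : V} {g : G} (hg : g ∈ radE ρ e) :
    g ^ p ^ 3 = 1 :=
  pow_eq_one_of_chain3 hi (A := Submodule.span F {e}) (B := Submodule.span F {e})
    (fix_span hg.1) (fun x _ => hg.2 x) hg.2

namespace SLRep

theorem exists_move (h : SLRep ρ) {X : Submodule F V} {a b : V} (ha : a ∉ X)
    (hb : b ∉ X ⊔ Submodule.span F {a}) :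
    ∃ d, d ∈ radE ρ (b - a) ∧ (∀ x ∈ X, ρ d x = x) ∧ ρ d a = b := by
  obtain ⟨φ, h1, h2, h3⟩ := exists_dual_eq_two ha hb 1 1
  have h4 : φ (b - a) = 0 := by simp [h1, h2]
  obtain ⟨d, hd⟩ := h.tv φ (b - a) h4
  exact ⟨d, mem_radE_of_tv h4 hd, fun x hx => by simp [hd, h3 x hx], by simp [hd, h1]⟩

theorem exists_move_pGenFix (h : SLRep ρ) {X : Submodule F V} {a b : V} (ha : a ∉ X)
    (hb : b ∉ X ⊔ Submodule.span F {a}) : ∃ d ∈ pGenFix ρ p X, ρ d a = b := by
  obtain ⟨d, h1, h2, h3⟩ := h.exists_move ha hb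
  exact ⟨d, subset_closure ⟨h2, pow_eq_one_of_mem_radE h.inj h1⟩, h3⟩

/-- The pointwise stabiliser of a subspace is generated by `p`-elements. -/
theorem mem_pGenFix [FiniteDimensional F V] (h : SLRep ρ) (X : Submodule F V) :
    ∀ g, (∀ x ∈ X, ρ g x = x) → g ∈ pGenFix ρ p X := by
  induction X using submodule_up_induction with
  | h X ih =>
  intro g hg
  by_cases hX : X = ⊤
  · have : g = 1 := rho_ext h.inj fun v => by simpa using hg v (by simp [hX])
    rw [this]; exact one_mem _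
  obtain ⟨y, -, hy⟩ := SetLike.exists_of_lt (lt_top_iff_ne_top.2 hX)
  have hlt : X < X ⊔ Submodule.span F {y} :=
    left_lt_sup.2 fun hle => hy (hle (Submodule.mem_span_singleton_self y))
  by_cases hX' : X ⊔ Submodule.span F {y} = ⊤
  · obtain ⟨φ, h1, h2⟩ := exists_dual_eq_of_notMem hy 1
    have h3 : ∀ x, ρ g x = x + φ x • (ρ g y - y) := fun x => by
      obtain ⟨w, hw, c, rfl⟩ := mem_sup_span_singleton.1 (hX' ▸ Submodule.mem_top : x ∈ _)
      simp only [map_add, map_smul, hg w hw, h2 w hw, h1, smul_eq_mul, mul_one, zero_add, smul_sub]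
      abel
    have h4 : (ρ g : V →ₗ[F] V) = LinearMap.transvection φ (ρ g y - y) := by
      ext x; rw [LinearMap.transvection.apply]; exact h3 x
    have h5 := h.det g
    rw [h4, LinearMap.transvection.det, add_eq_left] at h5
    exact subset_closure ⟨hg, pow_eq_one_of_mem_radE h.inj (mem_radE_of_tv h5 h3)⟩
  have key : ∃ d ∈ pGenFix ρ p X, ρ d y = ρ g y := by
    by_cases hgy : ρ g y ∈ X ⊔ Submodule.span F {y}
    · obtain ⟨z, -, hz⟩ := SetLike.exists_of_lt (lt_top_iff_ne_top.2 hX')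
      obtain ⟨d1, hd1, e1⟩ := h.exists_move_pGenFix (p := p) hy hz
      obtain ⟨d2, hd2, e2⟩ := h.exists_move_pGenFix (p := p) (notMem_of_fix hg hy) (b := z)
        fun hz' => hz ((sup_le le_sup_left ((Submodule.span_singleton_le_iff_mem _ _).2 hgy)) hz')
      exact ⟨d2⁻¹ * d1, mul_mem (inv_mem hd2) hd1, by rw [rho_mul, e1, rho_inv_eq_of_eq ρ e2]⟩
    · exact h.exists_move_pGenFix hy hgy
  obtain ⟨d, hd, e⟩ := key
  have h1 := ih _ hlt (d⁻¹ * g) (fix_sup_span
    (fun x hx => by rw [rho_mul, hg x hx, rho_inv_eq_of_eq ρ (pGenFix_fix hd x hx)])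
    (by rw [rho_mul, rho_inv_eq_of_eq ρ e]))
  simpa using mul_mem hd (pGenFix_anti ρ p hlt.le h1)

theorem radE_le (h : SLRep ρ) {S : Subgroup G} (hS : IsSylowIn p S ⊤) {e : V}
    (he : ∀ s ∈ S, ρ s e = e) : radE ρ e ≤ S := fun g hg => by
  have hi : ∀ s ∈ S, ∀ x ∈ Submodule.span F {e}, ρ s x ∈ Submodule.span F {e} :=
    fun s hs x hx => by rwa [fix_span (he s hs) x hx]
  exact mem_sylow_of_chain5 h.inj hS le_rfl le_rfl le_rfl hi hi hi hi (fix_span hg.1)
    (fun x _ => hg.2 x) (fun x _ => hg.2 x) (fun x _ => hg.2 x) hg.2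

omit hp [CharP F p] in
theorem mem_radE_of_centralizes (h : SLRep ρ) {e : V} (he : e ≠ 0) {g : G} (hg : ρ g e = e)
    (hc : ∀ t ∈ radE ρ e, t * g = g * t) : g ∈ radE ρ e := by
  refine ⟨hg, fun x => ?_⟩
  by_contra hx
  obtain ⟨φ, h1, h2⟩ := exists_dual_eq_of_notMem hx 1
  have h3 := h2 e (Submodule.mem_span_singleton_self e)
  obtain ⟨t, ht⟩ := h.tv φ e h3
  have h4 := congrArg (fun a => ρ a x) (hc t (mem_radE_of_tv h3 ht))
  simp only [rho_mul, ht, map_add, map_smul, hg, add_right_inj] at h4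
  rw [map_sub, smul_left_injective F he h4, sub_self] at h1
  exact zero_ne_one h1

omit hp [CharP F p] in
theorem mem_span_of_fixed (h : SLRep ρ) {e v : V} (he : e ≠ 0)
    (hv : ∀ t ∈ radE ρ e, ρ t v = v) : v ∈ Submodule.span F {e} := by
  by_contra hx
  obtain ⟨φ, h1, h2⟩ := exists_dual_eq_of_notMem hx 1
  have h3 := h2 e (Submodule.mem_span_singleton_self e)
  obtain ⟨t, ht⟩ := h.tv φ e h3
  have h4 := hv t (mem_radE_of_tv h3 ht)
  simp [ht, h1, he] at h4

end SLRep

theorem exists_notMem_of_finrank_lt [FiniteDimensional F V] {W : Submodule F V}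
    (h : finrank F W < finrank F V) : ∃ v, v ∉ W := by
  by_contra hc
  push Not at hc
  have : W = ⊤ := Submodule.eq_top_iff'.2 hc
  rw [this, finrank_top] at h
  exact lt_irrefl _ h

theorem finrank_span_pair_le (a b : V) :
    finrank F (Submodule.span F {a} ⊔ Submodule.span F {b} : Submodule F V) ≤ 2 := by
  classical
  rw [← Submodule.span_union, show ({a} ∪ {b} : Set V) = ↑({a, b} : Finset V) by ext; simp [or_comm]]
  exact (finrank_span_finset_le_card (R := F) ({a, b} : Finset V)).trans Finset.card_le_two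

namespace SLRep

omit hp [CharP F p] in
/-- A subgroup of the transvection group with centre `e` that is normalised by the stabiliser of
`e` is trivial or everything. -/
theorem radE_le_of_normal [FiniteDimensional F V] (h : SLRep ρ) (h3 : 3 ≤ finrank F V) {e : V}
    (he : e ≠ 0) {T : Subgroup G} {z : G} (hzT : z ∈ T) (hz : z ∈ radE ρ e) (hz1 : z ≠ 1)
    (hT : ∀ g, ρ g e = e → ∀ t ∈ T, t ∈ radE ρ e → g * t * g⁻¹ ∈ T) : radE ρ e ≤ T := by
  obtain ⟨φ, hφe, hφ⟩ := exists_tv_of_mem_radE he hz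
  have hφ0 : ∃ w, φ w ≠ 0 := by
    by_contra hc
    push Not at hc
    exact hz1 (rho_ext h.inj fun v => by simp [hφ, hc])
  -- transvections whose form vanishes at a vector where `φ` is one
  have key : ∀ t (ψ : V →ₗ[F] F) (w : V), ψ e = 0 → (∀ x, ρ t x = x + ψ x • e) → ψ w = 0 →
      φ w = 1 → t ∈ T := by
    intro t ψ w hψe ht hψw hφw
    obtain ⟨u, hu⟩ := h.tv ψ w hψw
    have hue : ρ u e = e := by simp [hu, hψe]
    have h1 := hT u⁻¹ (rho_inv_eq_of_eq ρ hue) z hzT hz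
    have h2 : u⁻¹ * z * u⁻¹⁻¹ = z * t := by
      rw [inv_inv, mul_assoc, inv_mul_eq_iff_eq_mul]
      refine rho_ext h.inj fun x => ?_
      simp only [rho_mul, hu, hφ, ht, map_add, map_smul, hψe, hφe, hφw, smul_eq_mul]
      module
    rw [h2] at h1
    simpa using mul_mem (inv_mem hzT) h1
  obtain ⟨w0, hw0⟩ := hφ0
  have hw : φ ((φ w0)⁻¹ • w0) = 1 := by simp [hw0]
  set w := (φ w0)⁻¹ • w0
  have hwe : w ∉ Submodule.span F {e} := fun hm => by
    obtain ⟨c, hc⟩ := Submodule.mem_span_singleton.1 hm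
    rw [← hc] at hw; simp [hφe] at hw
  obtain ⟨y, hy⟩ := exists_notMem_of_finrank_lt
    (lt_of_le_of_lt (finrank_span_pair_le (F := F) e w) (by omega))
  intro t ht
  obtain ⟨ψ, hψe, hψ⟩ := exists_tv_of_mem_radE he ht
  -- a form agreeing with `ψ` at `w` and vanishing at `w' = w + y - φ y • w`
  have hy' : w + (y - φ y • w) ∉ Submodule.span F {e} ⊔ Submodule.span F {w} := fun hm => by
    have := add_mem (sub_mem hm (Submodule.mem_sup_right (Submodule.mem_span_singleton_self w)))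
      (Submodule.mem_sup_right (smul_mem_span (φ y) w))
    exact hy (by simpa using this)
  obtain ⟨χ, h1, h2, h4⟩ := exists_dual_eq_two hwe hy' (ψ w) 0
  have hχe := h4 e (Submodule.mem_span_singleton_self e)
  obtain ⟨t1, ht1⟩ := h.tv χ e hχe
  obtain ⟨t2, ht2⟩ := h.tv (ψ - χ) e (by simp [hψe, hχe])
  have m1 := key t1 χ _ hχe ht1 h2 (by simp [hw])
  have m2 := key t2 (ψ - χ) w (by simp [hψe, hχe]) ht2 (by simp [h1]) hw
  have : t = t1 * t2 := rho_ext h.inj fun x => by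
    simp only [rho_mul, ht1, ht2, hψ, map_add, map_smul, hχe, LinearMap.sub_apply, smul_eq_mul]
    module
  rw [this]
  exact mul_mem m1 m2

theorem closed [Finite V] [FiniteDimensional F V] (h : SLRep ρ) (h3 : 3 ≤ finrank F V)
    {S : Subgroup G} (hS : IsSylowIn p S ⊤) {e : V} (he : e ≠ 0) (heS : ∀ s ∈ S, ρ s e = e)
    (T : Subgroup G) (hTS : T ≤ S) (hT1 : T ≠ ⊥)
    (hT : ∀ x ∈ T, ∀ g : G, g * x * g⁻¹ ∈ S → g * x * g⁻¹ ∈ T) : S ≤ T := by
  have hR := h.radE_le hS heS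
  obtain ⟨z, hzT, hz1, hz⟩ := exists_central_mem hS.isPGroup hTS hT1 fun s hs x hx =>
    hT x hx s (mul_mem (mul_mem hs (hTS hx)) (inv_mem hs))
  have hRT : radE ρ e ≤ T := h.radE_le_of_normal h3 he hzT
    (h.mem_radE_of_centralizes he (heS z (hTS hzT)) fun t ht => hz t (hR ht)) hz1
    fun g hg t ht ht' => hT t ht g (hR (by simpa [hg] using conj_mem_radE (g := g) ht'))
  have hall : ∀ v, v ≠ 0 → ∀ t ∈ radE ρ v, t ∈ S → t ∈ T := by
    intro v hv t ht htS
    by_cases hve : v ∈ Submodule.span F {e}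
    · obtain ⟨c, rfl⟩ := Submodule.mem_span_singleton.1 hve
      rw [radE_smul (left_ne_zero_of_smul hv)] at ht
      exact hRT ht
    obtain ⟨d, -, -, hd⟩ := h.exists_move (X := ⊥) (a := e) (b := v) (by simpa) (by simpa)
    have h1 := conj_mem_radE (g := d⁻¹) ht
    rw [rho_inv_eq_of_eq ρ hd] at h1
    have h2 := hT _ (hRT h1) d (by simpa [mul_assoc] using htS)
    simpa [mul_assoc] using h2
  have main : ∀ W : Submodule F V, (∀ s ∈ S, ∀ x ∈ W, ρ s x ∈ W) →
      (∀ s ∈ S, (∀ x, ρ s x - x ∈ W) → s ∈ T) → S ≤ T := by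
    intro W
    induction W using submodule_up_induction with
    | h W' ih =>
    intro hW' hP
    by_cases ht : W' = ⊤
    · exact fun s hs => hP s hs fun x => by simp [ht]
    obtain ⟨w, -, hw, hws⟩ := exists_fixed_mod (ρ := ρ) hS.isPGroup (lt_top_iff_ne_top.2 ht) hW'
      fun _ _ _ _ => trivial
    have hstep : ∀ s ∈ S, ∀ x ∈ W' ⊔ Submodule.span F {w}, ρ s x - x ∈ W' := by
      intro s hs x hx
      obtain ⟨y, hy, c, rfl⟩ := mem_sup_span_singleton.1 hx
      have := add_mem (sub_mem (hW' s hs y hy) hy) (W'.smul_mem c (hws s hs))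
      convert this using 1
      simp only [map_add, map_smul, smul_sub]; abel
    have hinv : ∀ s ∈ S, ∀ x ∈ W' ⊔ Submodule.span F {w}, ρ s x ∈ W' ⊔ Submodule.span F {w} :=
      fun s hs x hx => by simpa using add_mem (Submodule.mem_sup_left (hstep s hs x hx)) hx
    refine ih _ (left_lt_sup.2 fun hle => hw (hle (Submodule.mem_span_singleton_self w))) hinv ?_
    intro s hs hsW
    obtain ⟨l, hl1, hl0⟩ := exists_dual_eq_of_notMem hw 1
    let φ : V →ₗ[F] F := l ∘ₗ ((ρ s : V →ₗ[F] V) - LinearMap.id)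
    have hφ : ∀ x, φ x = l (ρ s x - x) := fun x => rfl
    have hφW : ∀ x ∈ W' ⊔ Submodule.span F {w}, φ x = 0 := fun x hx => hl0 _ (hstep s hs x hx)
    have hφw := hφW w (Submodule.mem_sup_right (Submodule.mem_span_singleton_self w))
    obtain ⟨u, hu⟩ := h.tv φ w hφw
    have huW : ∀ x, ρ u x - x ∈ W' ⊔ Submodule.span F {w} := fun x => by
      simp [hu, Submodule.mem_sup_right (smul_mem_span (φ x) w)]
    have huS : u ∈ S := mem_sylow_of_chain5 h.inj hS le_rfl le_rfl le_rfl hinv hinv hinv hinv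
      (fun x hx => by simp [hu, hφW x hx]) (fun x _ => huW x) (fun x _ => huW x)
      (fun x _ => huW x) huW
    have huT := hall w (fun e => hw (by simp [e])) u (mem_radE_of_tv hφw hu) huS
    have h1 := hP (s * u⁻¹) (mul_mem hs (inv_mem huS)) fun x => by
      obtain ⟨x, rfl⟩ := (ρ u).surjective x
      rw [rho_mul, rho_inv_self, hu, hφ]
      obtain ⟨y, hy, c, hc⟩ := mem_sup_span_singleton.1 (hsW x)
      have e1 : l (ρ s x - x) = c := by rw [hc]; simp [hl0 y hy, hl1]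
      rw [e1, ← sub_sub, hc]
      simpa using hy
    simpa using mul_mem h1 huT
  refine main ⊥ (fun s _ x hx => by rw [Submodule.mem_bot] at hx ⊢; simp [hx]) fun s _ hs => ?_
  have : s = 1 := rho_ext h.inj fun v => by simpa [sub_eq_zero] using hs v
  rw [this]; exact one_mem _

theorem aut [Finite V] [FiniteDimensional F V] (h : SLRep ρ) (h3 : 3 ≤ finrank F V)
    {S : Subgroup G} (hS : IsSylowIn p S ⊤) {e : V} (he : e ≠ 0) (heS : ∀ s ∈ S, ρ s e = e) :
    normalizer (S : Set G) ≤ closure (goodSet p S) := by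
  have hR := h.radE_le hS heS
  have hE : ∀ s ∈ S, ∀ x ∈ Submodule.span F {e}, ρ s x ∈ Submodule.span F {e} :=
    fun s hs x hx => by rwa [fix_span (heS s hs) x hx]
  have hfix : ∀ a ∈ normalizer (S : Set G), ρ a e = e → a ∈ goodSet p S := by
    intro a ha hae
    have hn : ∀ t, ρ t e = e → t ∈ normalizer (radE ρ e : Set G) := fun t ht =>
      mem_normalizer_of_conj_mem fun x hx => by simpa [ht] using conj_mem_radE (g := t) hx
    refine Or.inr ⟨radE ρ e, hR, fun s hs => hn s (heS s hs), fun g hg => ?_, ?_, ha⟩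
    · exact h.mem_radE_of_centralizes he (heS g hg.1) (mem_centralizer_iff.1 hg.2)
    · exact pGenFix_le_pGenNormalizer (X := Submodule.span F {e})
        (fun t ht => hn t (ht e (Submodule.mem_span_singleton_self e)))
        (h.mem_pGenFix _ a (fix_span hae))
  have hne : Submodule.span F {e} < ⊤ := by
    obtain ⟨y, hy⟩ := exists_notMem_of_finrank_lt
      (lt_of_le_of_lt (finrank_span_pair_le (F := F) e e) (by omega))
    exact lt_top_iff_ne_top.2 fun ht => hy (by simp [ht])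
  obtain ⟨f, -, hf, hfS⟩ := exists_fixed_mod (ρ := ρ) hS.isPGroup hne hE fun _ _ _ _ => trivial
  set L := Submodule.span F {e} ⊔ Submodule.span F {f} with hL
  have heL : e ∈ L := Submodule.mem_sup_left (Submodule.mem_span_singleton_self e)
  have hfL : f ∈ L := Submodule.mem_sup_right (Submodule.mem_span_singleton_self f)
  have hstep : ∀ s ∈ S, ∀ x ∈ L, ρ s x - x ∈ Submodule.span F {e} := by
    intro s hs x hx
    obtain ⟨y, hy, c, rfl⟩ := mem_sup_span_singleton.1 hx
    have := Submodule.smul_mem _ c (hfS s hs)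
    convert this using 1
    simp only [map_add, map_smul, smul_sub, fix_span (heS s hs) y hy]; abel
  have hLS : ∀ s ∈ S, ∀ x ∈ L, ρ s x ∈ L :=
    fun s hs x hx => by simpa using add_mem (Submodule.mem_sup_left (hstep s hs x hx)) hx
  -- the subgroup `R'` of elements of `S` fixing `L`
  let R' : Subgroup G := subgroupOfMulClosed {g | g ∈ S ∧ ∀ x ∈ L, ρ g x = x} (by simp)
    fun a ha b hb => ⟨mul_mem ha.1 hb.1, fun x hx => by rw [rho_mul, hb.2 x hx, ha.2 x hx]⟩
  have hcomm : ∀ b, (∀ x, ρ b x - x ∈ L) → ∀ s ∈ S, ∀ x, ρ (b * s * b⁻¹ * s⁻¹) x - x ∈ L := by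
    intro b hb s hs x
    have e1 : b * s * b⁻¹ * s⁻¹ = b * (s * b⁻¹ * s⁻¹) := by group
    rw [e1, rho_mul_sub, rho_conj_sub]
    refine add_mem (hb _) (hLS s hs _ ?_)
    have := neg_mem (hb (ρ b⁻¹ (ρ s⁻¹ x)))
    rwa [rho_self_inv, neg_sub] at this
  have hbL : ∀ b, (∀ x, ρ b x - x ∈ L) → ∀ x ∈ L, ρ b⁻¹ x ∈ L := fun b hb x hx => by
    have := sub_mem hx (hb (ρ b⁻¹ x))
    simpa [rho_self_inv] using this
  have hnR : ∀ b, (∀ x, ρ b x - x ∈ L) → b ∈ normalizer (R' : Set G) := by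
    intro b hb
    refine mem_normalizer_of_conj_mem fun s hs => ?_
    have h1 : ∀ x ∈ L, ρ (b * s * b⁻¹) x = x := fun x hx => by
      rw [rho_mul, rho_mul, hs.2 _ (hbL b hb x hx), rho_self_inv]
    have h2 := hcomm b hb s hs.1
    have h4 : b * s * b⁻¹ * s⁻¹ ∈ S := mem_sylow_of_chain5 h.inj hS le_rfl le_rfl le_rfl
      hLS hLS hLS hLS (fun x hx => by rw [rho_mul, rho_inv_eq_of_eq ρ (hs.2 x hx), h1 x hx])
      (fun x _ => h2 x) (fun x _ => h2 x) (fun x _ => h2 x) h2
    exact ⟨by simpa using mul_mem h4 hs.1, h1⟩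
  have hR'n : S ≤ normalizer (R' : Set G) := fun s hs =>
    mem_normalizer_of_conj_mem fun g hg => ⟨mul_mem (mul_mem hs hg.1) (inv_mem hs), fun x hx => by
      rw [rho_mul, rho_mul, hg.2 _ (hLS _ (inv_mem hs) x hx), rho_self_inv]⟩
  have hR'c : S ⊓ centralizer (R' : Set G) ≤ R' := by
    rintro g ⟨hgS, hgc⟩
    refine ⟨hgS, fix_sup_span (fix_span (heS g hgS)) ?_⟩
    obtain ⟨y, hy⟩ := exists_notMem_of_finrank_lt
      (lt_of_le_of_lt (finrank_span_pair_le (F := F) e f) (by omega))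
    obtain ⟨φ, h1, h2⟩ := exists_dual_eq_of_notMem hy 1
    obtain ⟨t, ht⟩ := h.tv φ f (h2 f hfL)
    have htL : ∀ x, ρ t x - x ∈ L := fun x => by simp [ht, L.smul_mem _ hfL]
    have ht1 : ∀ x ∈ L, ρ t x = x := fun x hx => by simp [ht, h2 x hx]
    have htS : t ∈ S := mem_sylow_of_chain5 h.inj hS le_rfl le_rfl le_rfl hLS hLS hLS hLS ht1
      (fun x _ => htL x) (fun x _ => htL x) (fun x _ => htL x) htL
    have h4 := congrArg (fun a => ρ a y) (mem_centralizer_iff.1 hgc t ⟨htS, ht1⟩)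
    simp only [rho_mul, ht, map_add, h1, one_smul, add_right_inj] at h4
    obtain ⟨β, hβ⟩ := Submodule.mem_span_singleton.1 (hfS g hgS)
    by_cases hc : φ (ρ g y) = 1
    · rw [← h4, hc, one_smul]
    · exfalso
      apply hf
      have : f = (φ (ρ g y) - 1)⁻¹ • β • e := by
        rw [hβ, ← h4]
        nth_rewrite 3 [← one_smul F f]
        rw [← sub_smul, smul_smul, inv_mul_cancel₀ (sub_ne_zero.2 hc), one_smul]
      rw [this, smul_smul]
      exact smul_mem_span _ _
  intro a ha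
  obtain ⟨c, hc⟩ := Submodule.mem_span_singleton.1 (h.mem_span_of_fixed (v := ρ a e) he
    fun t ht => by
      have h1 := heS _ (conj_mem_of_mem_normalizer (inv_mem ha) (hR ht))
      rw [inv_inv, rho_mul, rho_mul] at h1
      rw [← rho_self_inv ρ a (ρ t (ρ a e)), h1])
  have hc0 : c ≠ 0 := by
    rintro rfl
    exact he ((ρ a).map_eq_zero_iff.1 (by simpa using hc.symm))
  have hf0 : f ≠ 0 := fun e => hf (by simp [e])
  obtain ⟨d1, hd1, -, e1⟩ := h.exists_move (X := ⊥) (a := e) (b := f) (by simpa) (by simpa)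
  obtain ⟨d2, hd2, -, e2⟩ := h.exists_move (X := ⊥) (a := f) (b := c • e) (by simpa) (by
    rw [bot_sup_eq]
    intro hm
    obtain ⟨k, hk⟩ := Submodule.mem_span_singleton.1 hm
    have hk0 : k ≠ 0 := by rintro rfl; exact smul_ne_zero hc0 he (by simpa using hk.symm)
    apply hf
    have : f = (k⁻¹ * c) • e := by rw [mul_smul, ← hk, smul_smul, inv_mul_cancel₀ hk0, one_smul]
    rw [this]; exact smul_mem_span _ _)
  have hd1L : ∀ x, ρ d1 x - x ∈ L := fun x =>
    (Submodule.span_singleton_le_iff_mem _ _).2 (sub_mem hfL heL) (hd1.2 x)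
  have hd2L : ∀ x, ρ d2 x - x ∈ L := fun x =>
    (Submodule.span_singleton_le_iff_mem _ _).2 (sub_mem (L.smul_mem c heL) hfL) (hd2.2 x)
  have hbe : ρ (d2 * d1) e = c • e := by rw [rho_mul, e1, e2]
  have hb : ∀ x, ρ (d2 * d1) x - x ∈ L := fun x => by
    rw [rho_mul_sub]; exact add_mem (hd2L _) (hd1L x)
  have hbp : d2 * d1 ∈ pGenNormalizer p R' :=
    mul_mem (mem_pGenNormalizer_of_pow (hnR _ hd2L) (pow_eq_one_of_mem_radE h.inj hd2))
      (mem_pGenNormalizer_of_pow (hnR _ hd1L) (pow_eq_one_of_mem_radE h.inj hd1))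
  generalize d2 * d1 = b at hbe hb hbp
  have hbE : ∀ x ∈ Submodule.span F {e}, ρ b x ∈ Submodule.span F {e} := fun x hx => by
    obtain ⟨k, rfl⟩ := Submodule.mem_span_singleton.1 hx
    rw [map_smul, hbe, smul_smul]; exact smul_mem_span _ _
  have hbS : b ∈ normalizer (S : Set G) := by
    refine mem_normalizer_of_conj_mem fun s hs => ?_
    have h2 := hcomm b hb s hs
    have hbe' : ρ b⁻¹ e = c⁻¹ • e := by
      apply (ρ b).injective
      rw [rho_self_inv, map_smul, hbe, smul_smul, inv_mul_cancel₀ hc0, one_smul]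
    have h4 : b * s * b⁻¹ * s⁻¹ ∈ S := by
      refine mem_sylow_of_chain5 h.inj hS le_sup_left le_rfl le_rfl hE hLS hLS hLS (fix_span ?_)
        (fun x hx => ?_) (fun x _ => h2 x) (fun x _ => h2 x) h2
      · simp only [rho_mul, heS _ (inv_mem hs), hbe', map_smul, heS s hs, hbe, smul_smul,
          inv_mul_cancel₀ hc0, one_smul]
      · rw [rho_mul_sub, rho_conj_sub]
        exact add_mem (hbE _ (hstep s hs _ (hbL b hb _ (hLS _ (inv_mem hs) x hx))))
          (hstep _ (inv_mem hs) x hx)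
    simpa using mul_mem h4 hs
  have h1 : b ∈ goodSet p S := Or.inr ⟨R', fun g hg => hg.1, hR'n, hR'c, hbp, hbS⟩
  have h2 := hfix (b⁻¹ * a) (mul_mem (inv_mem hbS) ha)
    (by rw [rho_mul, ← hc, rho_inv_eq_of_eq ρ hbe])
  simpa using mul_mem (subset_closure h1) (subset_closure h2)

/-- The simplicity data for `SL(V)`, `dim V ≥ 3`, in the defining characteristic. -/
theorem simpleData [Finite V] [FiniteDimensional F V] (h : SLRep ρ) (h3 : 3 ≤ finrank F V)
    {S : Subgroup G} (hS : IsSylowIn p S ⊤) : SimpleData p S := by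
  have hV : (⊤ : Submodule F V) ≠ ⊥ := fun e => by
    have := finrank_top F V
    rw [e, finrank_bot] at this
    omega
  obtain ⟨e, -, he, heS⟩ := exists_fixed_vector (ρ := ρ) hS.isPGroup hV fun _ _ _ _ => trivial
  refine ⟨hS, fun hb => ?_, h.closed h3 hS he heS, h.aut h3 hS he heS⟩
  obtain ⟨y, hy⟩ := exists_notMem_of_finrank_lt
    (lt_of_le_of_lt (finrank_span_pair_le (F := F) e e) (by omega))
  refine hy (Submodule.mem_sup_left (h.mem_span_of_fixed he fun t ht => ?_))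
  have : t = 1 := by simpa [hb] using h.radE_le hS heS ht
  simp [this]

theorem isSimple_quotient_center [Finite V] [FiniteDimensional F V] (h : SLRep ρ)
    (h3 : 3 ≤ finrank F V) (S : Sylow p (G ⧸ center G)) :
    (groupFusionSystem (S : Subgroup (G ⧸ center G))).IsSimple p := by
  obtain ⟨S₀, hS⟩ := exists_isSylowIn p (⊤ : Subgroup G)
  refine (h.simpleData h3 hS).isSimple_of_surjective (QuotientGroup.mk' _)
    (QuotientGroup.mk'_surjective _) (fun x hx hx1 => ?_) S
  have hc : x ∈ center G := (QuotientGroup.eq_one_iff x).1 hx1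
  have hV : (⊤ : Submodule F V) ≠ ⊥ := fun e => by
    have := finrank_top F V
    rw [e, finrank_bot] at this
    omega
  obtain ⟨e, -, he, heS⟩ := exists_fixed_vector (ρ := ρ) hS.isPGroup hV fun _ _ _ _ => trivial
  refine rho_ext h.inj fun v => ?_
  rw [map_one, LinearEquiv.coe_one, id]
  by_cases hve : v ∈ Submodule.span F {e}
  · exact fix_span (heS x hx) v hve
  obtain ⟨d, -, -, hd⟩ := h.exists_move (X := ⊥) (a := e) (b := v) (by simpa) (by simpa)
  rw [← hd, ← rho_mul, ← mem_center_iff.1 hc d, rho_mul, heS x hx]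

end SLRep

end Cfsg.Lib.Fus.Grp
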