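import Cfsg.Agent.Fus.PathGrp
import Cfsg.Agent.Fus.Realize

/-!
# Realizing a fusion system by a virtually free group
-/

set_option autoImplicit false

namespace Cfsg.Lib.Fus

open Cfsg Cfsg.FusionSystem Subgroup

universe u

theorem exists_perm_semiconj {Γ : Type*} [Group Γ] [Finite Γ] {H : Subgroup Γ} (φ : H →* Γ)
    (hφ : Function.Injective φ) : ∃ σ : Equiv.Perm Γ, ∀ (x : H) y, σ (x * y) = φ x * σ y := by
  obtain ⟨T, hT, -⟩ := H.exists_isComplement_right 1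
  obtain ⟨T', hT', -⟩ := φ.range.exists_isComplement_right 1
  have e : Nat.card φ.range = Nat.card H := (Nat.card_congr (MonoidHom.ofInjective hφ).toEquiv).symm
  obtain ⟨β⟩ := Finite.card_eq.1 (show Nat.card T = Nat.card T' from
    Nat.eq_of_mul_eq_mul_left (Nat.card_pos (α := H))
      (hT.card_mul_card.trans (e ▸ hT'.card_mul_card.symm)))
  refine ⟨hT.equiv.trans (((MonoidHom.ofInjective hφ).toEquiv.prodCongr β).trans hT'.equiv.symm),
    fun x y => ?_⟩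
  rw [Equiv.trans_apply, hT.equiv_mul_left]
  exact (congrArg (· * (β (hT.equiv y).2 : Γ)) (φ.map_mul x (hT.equiv y).1)).trans (mul_assoc _ _ _)

/-- Right multiplication as a map of coset spaces. -/
def cosetMap {K : Type*} [Group K] {A B : Subgroup K} (σ : K) (h : ∀ b ∈ B, σ⁻¹ * b * σ ∈ A) :
    K ⧸ B → K ⧸ A :=
  Quotient.map' (· * σ) fun x y e => QuotientGroup.leftRel_apply.2 (by
    simpa [mul_assoc] using h _ (QuotientGroup.leftRel_apply.1 e))

variable {Ω : Type u} [Group Ω] {S P Q : Subgroup Ω} {F : FusionSystem S}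

/-- Conjugation by `k` induces a map of `F` on `P`. -/
def ConjMor {K : Type*} [Group K] (F : FusionSystem S) (ι : S →* K) (P : Subgroup Ω) (k : K) :
    Prop := ∃ f, Mor F P f ∧ ∀ x ∈ P, k⁻¹ * extFun ι x * k = extFun ι (f x)

section
variable {K : Type*} [Group K] {ι : S →* K} {k l : K}

theorem ConjMor.conj_mem (h : ConjMor F ι P k) {b : K} (hb : b ∈ img P (extFun ι)) :
    k⁻¹ * b * k ∈ ι.range := by
  obtain ⟨f, hf, e⟩ := h
  obtain ⟨x, hx, rfl⟩ := (mem_img_extFun' ι hf.le).1 hb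
  exact e x hx ▸ extFun_mem_range' ι (hf.maps hx)

theorem conjMor_one (hP : P ≤ S) : ConjMor F ι P 1 := ⟨id, Mor.id F hP, fun x _ => by simp⟩

theorem ConjMor.mul_iff (hι : Function.Injective ι) (h : ConjMor F ι Q l)
    (hk : ∀ x ∈ P, k⁻¹ * extFun ι x * k ∈ img Q (extFun ι)) :
    ConjMor F ι P k ↔ ConjMor F ι P (k * l) := by
  obtain ⟨g, hg, e⟩ := h
  constructor
  · rintro ⟨f, hf, e'⟩
    have h1 : ∀ x ∈ P, f x ∈ Q := fun x hx =>
      (extFun_mem_img_iff hι hg.le (hf.maps hx)).1 (e' x hx ▸ hk x hx)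
    exact ⟨_, hf.comp hg h1, fun x hx => by
      rw [Function.comp_apply, ← e _ (h1 x hx), ← e' x hx]; group⟩
  · rintro ⟨f, hf, e'⟩
    obtain ⟨g', hg', e₁, -⟩ := hg.exists_inv
    have h1 : ∀ x ∈ P, ∃ y ∈ Q, extFun ι y = k⁻¹ * extFun ι x * k ∧ g y = f x := fun x hx => by
      obtain ⟨y, hy, e₂⟩ := (mem_img_extFun' ι hg.le).1 (hk x hx)
      refine ⟨y, hy, e₂, injOn_extFun hι (hg.maps hy) (hf.maps hx) ?_⟩
      rw [← e y hy, ← e' x hx, e₂]; group
    refine ⟨_, hf.comp hg' fun x hx => ?_, fun x hx => ?_⟩ <;> obtain ⟨y, hy, e₂, e₃⟩ := h1 x hx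
    · exact e₃ ▸ mem_img_of_mem g hy
    · rw [Function.comp_apply, ← e₃, e₁ y hy, e₂]

theorem ConjMor.of_eq (hι : Function.Injective ι) (h : ConjMor F ι P k)
    (e : (k : K ⧸ ι.range) = l) : ConjMor F ι P l := by
  obtain ⟨s, hs⟩ := QuotientGroup.eq.1 e
  have h1 : ConjMor F ι S (k⁻¹ * l) := ⟨_, Mor.conj F le_rfl (S.inv_mem s.2), fun x hx => by
    rw [← hs, (mulOn_extFun ι).map_conj (S.inv_mem s.2) hx, (mulOn_extFun ι).map_inv s.2,
      extFun_coe, inv_inv]⟩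
  have := (h1.mul_iff hι fun x hx => img_extFun_top ι ▸ h.conj_mem (mem_img_of_mem _ hx)).1 h
  rwa [mul_inv_cancel_left] at this

end

/-- A group `K` in which all maps of `F` are conjugations is covered by a group realizing `F`, with
free kernel. -/
theorem exists_realizing_cover {K : Type u} [Group K] {ι : S →* K} (hι : Function.Injective ι)
    (h : ∀ P f, Mor F P f → ∃ k : K, ∀ x ∈ P, k⁻¹ * extFun ι x * k = extFun ι (f x)) :
    ∃ (G : Type u) (_ : Group G) (κ : S →* G) (ρ : G →* K), F.IsRealizedBy κ ∧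
      (∀ H : Subgroup G, Finite H → ∃ g : G, ∀ h ∈ H, g * h * g⁻¹ ∈ κ.range) ∧
      IsFreeGroup ρ.ker := by
  let I := {i : Subgroup Ω × K // ConjMor F ι i.1 i.2}
  let E := Σ i : I, K ⧸ img i.1.1 (extFun ι)
  let s : E → K ⧸ ι.range := fun e => cosetMap 1
    (fun _ => (conjMor_one (F := F) e.1.2.choose_spec.1.le).conj_mem) e.2
  let t : E → K ⧸ ι.range := fun e => cosetMap e.1.1.2 (fun _ => e.1.2.conj_mem) e.2
  obtain ⟨G, _, ρ, j, h1, h2, h3, h4, h5⟩ := PathGrp.exists_pathGrp (K := K) (s := s) (t := t)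
    (by rintro k ⟨i, ⟨x⟩⟩; exact congrArg QuotientGroup.mk (mul_assoc k x 1))
    (by rintro k ⟨i, ⟨x⟩⟩; exact congrArg QuotientGroup.mk (mul_assoc k x _))
    ((1 : K) : K ⧸ ι.range) (by rintro ⟨x⟩; exact ⟨x, congrArg QuotientGroup.mk (mul_one x)⟩)
  have hst := MulAction.stabilizer_quotient ι.range
  let μ := ι.codRestrict _ fun x => hst.ge ⟨x, rfl⟩
  have e₁ : ∀ x (hx : x ∈ S), extFun (j.comp μ) x = j ⟨extFun ι x, hst.ge (extFun_mem_range' ι hx)⟩ :=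
    fun x hx => by simp only [extFun_of_mem _ hx]; rfl
  have e₂ : ∀ x ∈ S, ρ (extFun (j.comp μ) x) = extFun ι x := fun x hx => by rw [e₁ x hx, h1]
  refine ⟨G, inferInstance, j.comp μ, ρ, isRealizedBy_of_mor (fun x y e => hι ?_)
    (fun P f hf => ?_) fun P f g hP hm e => ?_, fun H hH => ?_, h2⟩
  · exact (h1 (μ x)).symm.trans ((congrArg ρ e).trans (h1 (μ y)))
  · obtain ⟨k, hk⟩ := h P f hf
    obtain ⟨τ, hτ⟩ := h4 ⟨⟨(P, k), f, hf, hk⟩, QuotientGroup.mk 1⟩ k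
      (congrArg QuotientGroup.mk (mul_one (1 : K)))
      (congrArg QuotientGroup.mk ((one_mul k).trans (mul_one k).symm))
    refine ⟨τ⁻¹, fun x hx => ?_⟩
    rw [e₁ x (hf.le hx), e₁ _ (hf.maps hx), inv_inv]
    refine (hτ _ _ (congrArg (Sigma.mk _) (QuotientGroup.eq.2 ?_)) (hk x hx)).symm
    simpa using mem_img_of_mem (extFun ι) hx
  · obtain ⟨k, hk, hk'⟩ := h5 g⁻¹ (fun v => ∃ k : K, (k : K ⧸ ι.range) = v ∧ ConjMor F ι P k)
      (by
        rintro ⟨i, ⟨k⟩⟩ hfix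
        have h6 := i.2.mul_iff (P := P) (k := k) hι fun x hx => by
          have := hfix ⟨_, hst.ge (extFun_mem_range' ι (hP hx))⟩ (by
            rw [inv_inv, ← e₁ x (hP hx), ← e x hx, e₁ _ (hm x hx)]; exact ⟨_, rfl⟩)
          simpa [mul_assoc] using Subgroup.inv_mem _
            (QuotientGroup.eq.1 (eq_of_heq (Sigma.mk.inj this).2))
        exact ⟨fun ⟨l, e, hl⟩ => ⟨_, rfl, h6.1 (hl.of_eq hι (e.trans
          (congrArg QuotientGroup.mk (mul_one k))))⟩, fun ⟨l, e, hl⟩ =>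
          ⟨k, congrArg QuotientGroup.mk (mul_one k).symm, h6.2 (hl.of_eq hι e)⟩⟩)
      ⟨1, rfl, conjMor_one hP⟩
    obtain ⟨f', hf', e'⟩ := hk'.of_eq hι (hk.trans (congrArg QuotientGroup.mk (mul_one _)))
    refine hf'.congr fun x hx => injOn_extFun hι (hf'.maps hx) (hm x hx) ?_
    rw [← e' x hx, ← e₂ _ (hm x hx), e x hx, ← e₂ x (hP hx)]
    simp
  · obtain ⟨g, hg⟩ := h3 H hH
    refine ⟨g, fun x hx => ?_⟩
    obtain ⟨⟨a, ha⟩, e⟩ := hg x hx
    obtain ⟨y, rfl⟩ := hst.le ha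
    exact ⟨y, e⟩

theorem Mor.exists_perm_conj [Finite S] {f : Ω → Ω} (hf : Mor F P f) :
    ∃ k : Equiv.Perm S, ∀ x ∈ P, k⁻¹ * extFun (MulAction.toPermHom S S) x * k =
      extFun (MulAction.toPermHom S S) (f x) := by
  obtain ⟨σ, hσ⟩ := exists_perm_semiconj (H := P.subgroupOf S)
    (MonoidHom.mk' (fun x => ⟨f x.1, hf.maps x.2⟩) fun x y => Subtype.ext (hf.map_mul x.2 y.2))
    fun x y e => Subtype.ext (Subtype.ext (hf.injOn x.2 y.2 (congrArg Subtype.val e)))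
  refine ⟨σ⁻¹, fun x hx => Equiv.ext fun y => ?_⟩
  rw [extFun_of_mem _ (hf.le hx), extFun_of_mem _ (hf.maps hx)]
  simpa using hσ ⟨⟨x, hf.le hx⟩, hx⟩ (σ⁻¹ y)

end Cfsg.Lib.Fus
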